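import Cfsg.Agent.Ft.B8a

/-! An involution with centraliser `2 × L₃(2)` does not lie in the derived group. -/

set_option autoImplicit false
set_option linter.unusedSectionVars false

namespace CF.Ft

open Cfsg Subgroup CF.Transfer
open scoped commutatorElement

namespace B8

variable {G : Type*} [Group G] {t u v z y ρ σ x g a b c d k p q n : G}

/-- the element moving `t` to `t z` -/
structure Yy (t u v z y : G) : Prop where
  yy : y * y = 1
  uy : u * y = y * u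
  vy : v * y = y * v
  yt : y * t * y⁻¹ = t * z

/-- its conjugates under `ρ` -/
structure Pq (t u v z p q : G) : Prop where
  pp : p * p = 1
  qq : q * q = 1
  up : u * p = p * u
  zp : z * p = p * z
  uq : u * q = q * u
  zq : z * q = q * z
  pt : p * t = t * (p * (u * z))
  qt : q * t = t * (q * u)
  vp : v * p = q * v
  vq : v * q = p * v

theorem Yy.sym (k : Yy t u v z y) : Yy t v u z y := ⟨k.yy, k.vy, k.uy, k.yt⟩
theorem Yy.nf (k : Yy t u v z y) (h : R0 t u v z) : y * y = 1 ∧ (∀ x, y * (y * x) = x) ∧ y⁻¹ = y ∧ u * y = y * u ∧ v * y = y * v ∧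
    z * y = y * z ∧ y * t = t * (y * z) ∧ (∀ x, u * (y * x) = y * u * x) ∧ (∀ x, v * (y * x) = y * v * x) ∧
    (∀ x, z * (y * x) = y * z * x) ∧ ∀ x, y * (t * x) = t * (y * z) * x := by
  have e : z * y = y * z := by rw [← h.zd]; simp only [mul_assoc, k.uy, k.vy, as k.uy, as k.vy]
  have f : y * t = t * (y * z) := by rw [mul_inv_eq_iff_eq_mul.1 k.yt, mul_assoc, e]
  exact ⟨k.yy, a1 k.yy, iv k.yy, k.uy, k.vy, e, f, as k.uy, as k.vy, as e, as f⟩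
theorem Pq.nf (k : Pq t u v z p q) : p * p = 1 ∧ q * q = 1 ∧ (∀ x, p * (p * x) = x) ∧ (∀ x, q * (q * x) = x) ∧ p⁻¹ = p ∧ q⁻¹ = q ∧
    u * p = p * u ∧ z * p = p * z ∧ u * q = q * u ∧ z * q = q * z ∧ p * t = t * (p * (u * z)) ∧ q * t = t * (q * u) ∧
    v * p = q * v ∧ v * q = p * v ∧ (∀ x, u * (p * x) = p * u * x) ∧ (∀ x, z * (p * x) = p * z * x) ∧ (∀ x, u * (q * x) = q * u * x) ∧
    (∀ x, z * (q * x) = q * z * x) ∧ (∀ x, p * (t * x) = t * (p * (u * z)) * x) ∧ (∀ x, q * (t * x) = t * (q * u) * x) ∧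
    (∀ x, v * (p * x) = q * v * x) ∧ ∀ x, v * (q * x) = p * v * x :=
  ⟨k.pp, k.qq, a1 k.pp, a1 k.qq, iv k.pp, iv k.qq, k.up, k.zp, k.uq, k.zq, k.pt, k.qt, k.vp, k.vq, as k.up, as k.zp, as k.uq, as k.zq,
    as k.pt, as k.qt, as k.vp, as k.vq⟩
theorem cj_cm (e : a * b = b * a) (g : G) : g * a * g⁻¹ * (g * b * g⁻¹) = g * b * g⁻¹ * (g * a * g⁻¹) := by rw [← cm, ← cm, e]
theorem cj_inv (e : g * a * g⁻¹ = b) : g⁻¹ * b * g⁻¹⁻¹ = a := by rw [← e]; group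

namespace St
variable [Finite G] (h : St t u v z ρ σ)
include h
theorem ruz : ρ * (u * z) * ρ⁻¹ = u := by rw [cm, h.ru, h.rz]; simp [h.nf, mul_assoc]
theorem pq (k : Yy t u v z y) : Pq t u v z (ρ * y * ρ⁻¹) (ρ⁻¹ * y * ρ⁻¹⁻¹) := by
  have n := k.nf h.toR0
  have e1 := cj_cm (a := u * z) (b := y) (by simp [n, mul_assoc]) ρ
  have e2 := cj_cm k.uy ρ
  have e3 := cj_cm (a := z) (b := y) (by simp [n]) ρ⁻¹
  have e4 := cj_cm (a := u * z) (b := y) (by simp [n, mul_assoc]) ρ⁻¹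
  have e5 := congrArg (ρ * · * ρ⁻¹) n.2.2.2.2.2.2.1
  have e6 := congrArg (ρ⁻¹ * · * ρ⁻¹⁻¹) n.2.2.2.2.2.2.1
  rw [h.ruz] at e1; rw [h.ru] at e2; rw [cj_inv h.ru] at e3; rw [cj_inv h.rz] at e4
  simp only [cm, h.rt, h.rz, cj_inv h.rt, cj_inv h.ru] at e5 e6
  have r : v * ρ = ρ⁻¹ * v := by rw [← h.vr, mul_assoc, h.vv, mul_one]
  have r' : v * ρ⁻¹ = ρ * v := by rw [← h.vr, mul_assoc v ρ, a1 h.vv]
  exact ⟨by rw [← cm, k.yy]; simp, by rw [← cm, k.yy]; simp, e1, e2, e3, e4, e5, e6,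
    by simp only [mul_assoc, as r, as k.vy, r', inv_inv], by simp only [mul_assoc, as r', as k.vy, r, inv_inv]⟩
theorem dich (k : Yy t u v z y) : y * (ρ * y * ρ⁻¹ * (ρ⁻¹ * y * ρ⁻¹⁻¹)) = 1 ∨ y * (ρ * y * ρ⁻¹ * (ρ⁻¹ * y * ρ⁻¹⁻¹)) = t * (u * z) := by
  have e : ρ * (y * (ρ * y * ρ⁻¹ * (ρ⁻¹ * y * ρ⁻¹⁻¹))) * ρ⁻¹ = y * (y * (ρ * y * ρ⁻¹ * (ρ⁻¹ * y * ρ⁻¹⁻¹))) * y := by
    have : ρ⁻¹ = ρ * ρ := (eq_inv_of_mul_eq_one_left h.r3).symm
    rw [a1 k.yy]
    calc _ = ρ * y * ρ⁻¹ * (ρ * ρ * y * (ρ * ρ)⁻¹) * y := by group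
      _ = _ := by rw [← this]
  have l := h.pq k
  have n := k.nf h.toR0
  generalize ρ * y * ρ⁻¹ = p at *
  generalize ρ⁻¹ * y * ρ⁻¹⁻¹ = q at *
  obtain ⟨c, rfl | rfl | rfl | rfl, f | f⟩ := h.cenU (h.cz (y * (p * q)) (by simp [h.nf, l.nf, n, mul_assoc])
    (by simp [h.nf, l.nf, n, mul_assoc])) (by simp [h.nf, l.nf, n, mul_assoc]) <;>
    first | exact .inl f | exact .inr f | (simp only [f, cm ρ, h.rt, h.ru, h.rz] at e; simp [h.nf, n, mul_assoc] at e)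
theorem s3a (l : Pq t u v z p q) (e : q * p = p * q) : False := by
  have mP : ∀ x, x ∈ closure {p, u, z} ↔ ∃ c, IU u z c ∧ (x = c ∨ x = c * p) := fun x => by
    rw [mem_ins (by simp [h.memU, IU, h.nf, l.nf, mul_assoc]) (by simp [l.pp])]
    simp only [h.memU, and_or_left, exists_or, exists_eq_right']
  have mW : ∀ x, x ∈ closure {q, p, u, z} ↔ ∃ d ∈ closure {p, u, z}, x = d ∨ x = d * q := fun x => by
    rw [mem_ins (fun k i => subset_closure (by rcases i with rfl | rfl | rfl <;> simp [l.nf, e, as e, mul_assoc])) (by simp [l.qq])]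
    simp only [and_or_left, exists_or, exists_eq_right']
  have g1 : q ∈ closure {q, p, u, z} ∧ p ∈ closure {q, p, u, z} ∧ u ∈ closure {q, p, u, z} ∧ z ∈ closure {q, p, u, z} := by
    refine ⟨?_, ?_, ?_, ?_⟩ <;> exact subset_closure (by simp)
  have mM : ∀ x, x ∈ closure {t * v, q, p, u, z} ↔ x ∈ closure {q, p, u, z} ∨ ∃ d ∈ closure {q, p, u, z}, x = d * (t * v) := fun x =>
    mem_ins (by simp [h.nf, l.nf, mul_assoc, mul_mem, g1]) (by simp [h.nf, mul_assoc])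
  have g2 : t * v ∈ closure {t * v, q, p, u, z} ∧ q ∈ closure {t * v, q, p, u, z} ∧ p ∈ closure {t * v, q, p, u, z} ∧
      u ∈ closure {t * v, q, p, u, z} ∧ z ∈ closure {t * v, q, p, u, z} := by
    refine ⟨?_, ?_, ?_, ?_, ?_⟩ <;> exact subset_closure (by simp)
  have hn : ∀ x ∈ ({t * v, q, p, u, z} : Set G), t * x * t⁻¹ ∈ closure {t * v, q, p, u, z} := by
    rintro x (rfl | i)
    · simpa [h.nf, mul_assoc] using g2.1
    · rcases i with rfl | rfl | rfl | rfl <;> simp [h.nf, l.nf, mul_assoc, mul_mem, g2]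
  have h2 : t * t ∈ closure {t * v, q, p, u, z} := by simp [h.tt]
  have g3 : ∀ x ∈ ({t, t * v, q, p, u, z} : Set G), x ∈ closure {t, t * v, q, p, u, z} := fun _ i => subset_closure i
  have ab : ∀ w ∈ closure {q, p, u, z}, w * p = p * w ∧ w * u = u * w := fun w i => by
    obtain ⟨d, j, rfl | rfl⟩ := (mW w).1 i <;> obtain ⟨c, rfl | rfl | rfl | rfl, rfl | rfl⟩ := (mP _).1 j <;>
      simp [h.nf, l.nf, e, as e, mul_assoc]
  have n0 : p * q * t ≠ t * (p * q) := by simp [h.nf, l.nf, mul_assoc]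
  have n1 : p * q ≠ 1 ∧ p * (q * z) ≠ 1 := ⟨fun f => n0 (by simp [f]), fun f => n0 (by
    rw [eq_inv_of_mul_eq_one_left ((mul_assoc p q z).trans f), iv h.zz, h.zt])⟩
  have := tr2 h.tt h.hd h.syl (subset_closure (.inl rfl)) (M := closure {t * v, q, p, u, z}) (H := closure {t, t * v, q, p, u, z})
    ((closure_le _).2 ?_) (fun a i b j => ins2 hn h2 i j) fun g k => or_iff_not_imp_left.2 fun n => ?_
  · rcases (mM t).1 this with i | ⟨w, i, f⟩
    · simpa [h.nf, l.nf] using (ab t i).1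
    · exact h.nc (by simpa [show w = v by rw [eq_mul_inv_of_mul_eq f.symm]; simp [h.nf, mul_assoc]] using (ab w i).2.symm)
  · rintro x (rfl | rfl | rfl | rfl)
    exacts [g3 _ (by simp), by simpa [a1 h.tt] using mul_mem (g3 t (by simp)) (g3 (t * x) (by simp)), g3 _ (by simp), g3 _ (by simp)]
  obtain ⟨m, i, f⟩ := ((mem_ins hn h2).1 (k t (subset_closure (.inl rfl)))).resolve_left n
  have s : g * t * g⁻¹ * (g * t * g⁻¹) = 1 := by rw [← cm, h.tt]; simp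
  have c := icj g t
  have nv : ∀ x, ¬ IsConj t (x * v * x⁻¹) := fun x c => h.n6 (c := v) (by simp [I6]) (c.trans (icj x v).symm)
  have n2 : ¬ IsConj t v ∧ ¬ IsConj t (v * z) ∧ ¬ IsConj t (p * (q * v)) ∧ ¬ IsConj t (p * (q * (v * z))) :=
    ⟨by simpa [-isConj_iff] using nv 1, by simpa [h.nf, mul_assoc, -isConj_iff] using nv u,
      by simpa [h.nf, l.nf, mul_assoc, -isConj_iff] using nv p, by simpa [h.nf, l.nf, mul_assoc, -isConj_iff] using nv (u * p)⟩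
  have A1 : ∃ y ∈ closure {t, t * v, q, p, u, z}, y * (t * y⁻¹) = t := ⟨1, one_mem _, by simp⟩
  have A2 : ∃ y ∈ closure {t, t * v, q, p, u, z}, y * (t * y⁻¹) = t * z :=
    ⟨p * q, mul_mem (g3 _ (by simp)) (g3 _ (by simp)), by simp [h.nf, l.nf, e, as e, mul_assoc]⟩
  have A3 : ∃ y ∈ closure {t, t * v, q, p, u, z}, y * (t * y⁻¹) = t * u := ⟨q, g3 _ (by simp), by simp [h.nf, l.nf, mul_assoc]⟩
  have A4 : ∃ y ∈ closure {t, t * v, q, p, u, z}, y * (t * y⁻¹) = t * (u * z) := ⟨p, g3 _ (by simp), by simp [h.nf, l.nf, mul_assoc]⟩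
  rw [f] at s c ⊢
  rcases (mM m).1 i with i' | ⟨w, i', rfl⟩ <;> obtain ⟨d, j, rfl | rfl⟩ := (mW _).1 i' <;>
    obtain ⟨c, rfl | rfl | rfl | rfl, rfl | rfl⟩ := (mP _).1 j <;>
    simp [h.nf, l.nf, e, as e, n1, n2, mul_assoc, -isConj_iff] at s c ⊢ <;> assumption
/-- the action on the extraspecial group -/
theorem act (k : Yy t u v z y) (l : Pq t u v z p q) (e : y * (p * q) = t * (u * z)) : p * t * p⁻¹ = t * (u * z) ∧ p * y * p⁻¹ = y * u ∧
    p * u * p⁻¹ = u ∧ p * v * p⁻¹ = t * (y * (u * v)) ∧ p * z * p⁻¹ = z := by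
  have n := k.nf h.toR0
  have f : q = p * (y * (t * (u * z))) := by rw [← e, a1 k.yy, a1 l.pp]
  have a : p * t * p⁻¹ = t * (u * z) ∧ p * u * p⁻¹ = u ∧ p * z * p⁻¹ = z := by simp [l.nf, mul_assoc]
  refine ⟨a.1, ?_, a.2.1, by rw [iv l.pp, mul_assoc, l.vp, f]; simp [h.nf, n, a1 l.pp, mul_assoc], a.2.2⟩
  have : p * (y * (t * (u * z))) * p⁻¹ * (y * (t * (u * z))) = 1 := by rw [iv l.pp, mul_assoc, ← f, l.qq]
  rw [cm, cm, cm, a.1, a.2.1, a.2.2, mul_assoc] at this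
  rw [eq_inv_of_mul_eq_one_left this]; simp [h.nf, n, mul_assoc]
theorem s3b (k : Yy t u v z y) (e : y * (ρ * y * ρ⁻¹ * (ρ⁻¹ * y * ρ⁻¹⁻¹)) = t * (u * z))
    (e' : y * (σ * y * σ⁻¹ * (σ⁻¹ * y * σ⁻¹⁻¹)) = t * (v * z)) : False := by
  have N := k.nf h.toR0
  have l := h.pq k
  have l' := h.sym.pq k.sym
  obtain ⟨a1, a2, a3, a4, a5⟩ := h.act k l e
  obtain ⟨b1, b2, b3, b4, b5⟩ := h.sym.act k.sym l' e'
  have r : ρ⁻¹ * (ρ * y * ρ⁻¹) * ρ⁻¹⁻¹ = y := cj_inv rfl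
  obtain ⟨p', r'⟩ : ∃ p', σ * y * σ⁻¹ = p' := ⟨_, rfl⟩
  rw [r'] at l' b1 b2 b3 b4 b5
  generalize ρ * y * ρ⁻¹ = p at *
  obtain ⟨n, hn⟩ : ∃ n, n = p * (p' * p) := ⟨_, rfl⟩
  have nn : n * n = 1 := by rw [hn]; simp [mul_assoc, B8.a1 l.pp, B8.a1 l'.pp, l.pp]
  obtain ⟨n1, n2, n3, n4, n5⟩ : n * t * n⁻¹ = y ∧ n * y * n⁻¹ = t ∧ n * u * n⁻¹ = v * z ∧ n * v * n⁻¹ = u * z ∧ n * z * n⁻¹ = z := by
    simp only [hn, cc, cm p, cm p', a1, a2, a3, a4, a5, b1, b2, b3, b4, b5]; simp [h.nf, N, mul_assoc]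
  have fin : ∀ g, g * t * g⁻¹ = y → g * u * g⁻¹ = u → g * z * g⁻¹ = z → False := fun g c1 c2 c3 => by
    have := (h.actT (h.cz (n * g) (by rw [cc, c1, n2]) (by rw [cc, c3, n5]))).2.2.1
    rw [cc, c2, n3] at this; simp [h.nf] at this
  have fin' : ∀ g c, IU u z c → g * t * g⁻¹ = c * y → g * u * g⁻¹ = u → g * z * g⁻¹ = z → False := by
    rintro g c (rfl | rfl | rfl | rfl) c1 c2 c3
    · exact fin g (by rw [c1, one_mul]) c2 c3
    · refine fin (t * g) ?_ ?_ ?_ <;> simp only [cc, c1, c2, c3] <;> simp [h.nf, N, mul_assoc]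
    · refine fin (p * g) ?_ ?_ ?_ <;> simp only [cc, c1, c2, c3, cm p, a2, a3, a5]; simp [h.nf, N, mul_assoc]
    · refine fin (t * (p * g)) ?_ ?_ ?_ <;> simp only [cc, c1, c2, c3, cm p, a2, a3, a5] <;> simp [h.nf, N, mul_assoc]
  have s1 : σ * (v * z) * σ⁻¹ = v := h.sym.ruz
  have n6 : n * (u * z) * n⁻¹ = v := by rw [cm, n3, n5, mul_assoc, h.zz, mul_one]
  have ni : n⁻¹⁻¹ = n⁻¹ := by rw [inv_inv, iv nn]
  have cn : ∀ a, n * p * n⁻¹ * a * (n * p * n⁻¹)⁻¹ = n * (p * (n * a * n⁻¹) * p⁻¹) * n⁻¹ := fun a => by rw [cc, cc, ni, iv nn]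
  obtain ⟨c, i, f⟩ := h.toR0.sym.cenU (x := p' * (n * p * n⁻¹)) (h.symT ▸ h.cz _
    (by rw [cc, cn, n1, a2, cm n, n2, n3, cm, cm, b1, b3, b5]; simp [h.nf, mul_assoc]) (by rw [cc, cn, n5, a5, n5, b5]))
    (mul_inv_eq_iff_eq_mul.1 (by rw [cc, cn, n4, cm p, a3, a5, n6, b3]))
  have f' : n * p' * n⁻¹ = n * (p' * (n * p * n⁻¹)) * n⁻¹ * p := by rw [iv nn]; simp [mul_assoc, B8.a1 nn, l.pp]
  have j : IU u z (n * c * n⁻¹) := by
    rcases i with rfl | rfl | rfl | rfl <;> simp only [cm n, n4, n5, mul_one] <;> simp [IU, h.nf, mul_assoc]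
  rcases f with f | f <;> rw [f] at f'
  · generalize n * c * n⁻¹ = c at *
    refine fin' (ρ⁻¹ * (n * (σ * (n * ρ⁻¹)))) (ρ⁻¹ * c * ρ⁻¹⁻¹) ?_ (by simp only [cc, cj_inv h.rt, n1, r', f', cm ρ⁻¹, r])
      (by simp only [cc, cj_inv h.ruz, n6, h.sv, n5, cj_inv h.ru]) (by simp only [cc, cj_inv h.ru, n3, s1, n4, cj_inv h.rz])
    rcases j with j | j | j | j <;> simp only [j, cj_inv h.ru, cj_inv h.rz, cj_inv h.ruz, mul_one] <;> simp [IU]
  · have : n * p' * n⁻¹ * (n * p' * n⁻¹) = 1 := by rw [← cm, l'.pp]; simp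
    have py : p * y = y * (p * u) := by rw [mul_inv_eq_iff_eq_mul.1 a2, mul_assoc, l.up]
    rw [f', cm, n1] at this
    rcases j with j | j | j | j <;> simp [j, h.nf, N, l.nf, py, as py, mul_assoc] at this
theorem main : False := by
  obtain ⟨y, a, b, c, d⟩ := h.exy'
  have k : Yy t u v z y := ⟨a, b, c, d⟩
  have s : ∀ {p q : G}, p * p = 1 → q * q = 1 → y * (p * q) = 1 → q * p = p * q := fun pp qq e => by
    rw [← iv pp, ← iv qq, ← mul_inv_rev, iv pp, iv qq, ← inv_eq_of_mul_eq_one_right e, inv_inv, iv a]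
  rcases h.dich k with e | e
  · exact h.s3a (h.pq k) (s (h.pq k).pp (h.pq k).qq e)
  rcases h.sym.dich k.sym with e' | e'
  · exact h.sym.s3a (h.sym.pq k.sym) (s (h.sym.pq k.sym).pp (h.sym.pq k.sym).qq e')
  · exact h.s3b k e e'
end St
end B8

/-- z := (u*v)^2 -/
structure L8 {M : Type*} [Group M] (u v ρ σ : M) : Prop where
  uu : u * u = 1
  vv : v * v = 1
  z1 : u * v * (u * v) ≠ 1
  zz : u * v * (u * v) * (u * v * (u * v)) = 1
  r3 : ρ * ρ * ρ = 1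
  ru : ρ * u * ρ⁻¹ = u * v * (u * v)
  rz : ρ * (u * v * (u * v)) * ρ⁻¹ = u * (u * v * (u * v))
  vr : v * ρ * v = ρ⁻¹
  s3 : σ * σ * σ = 1
  sv : σ * v * σ⁻¹ = u * v * (u * v)
  sz : σ * (u * v * (u * v)) * σ⁻¹ = v * (u * v * (u * v))
  us : u * σ * u = σ⁻¹
  cls : ∀ m : M, m * m = 1 → m = 1 ∨ ∃ x : M, x * (u * v * (u * v)) * x⁻¹ = m
  cz : ∀ m : M, m * (u * v * (u * v)) = u * v * (u * v) * m → m ∈ Subgroup.closure {u, v}
  syl : ∀ Q : Subgroup M, IsPGroup 2 Q → Subgroup.closure {u, v} ≤ Q → Q ≤ Subgroup.closure {u, v}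

open B8 in
theorem b8 {M G : Type*} [Group M] [Group G] [Finite G] {u v ρ σ : M} (h : L8 u v ρ σ) {ι : M →* G} (inj : Function.Injective ι) {t : G}
    (tt : t * t = 1) (nt : ∀ m, t ≠ ι m) (cm : ∀ m, t * ι m = ι m * t) (ct : ∀ g, g * t = t * g → ∃ m, g = ι m ∨ g = t * ι m) :
    t ∉ commutator G := fun hd => by
  obtain ⟨z, hz⟩ : ∃ z, u * v * (u * v) = z := ⟨_, rfl⟩
  obtain ⟨uu, vv, z1, zz, r3, ru, rz, vr, s3, sv, sz, us, cls, cz, syl⟩ := h
  rw [hz] at z1 zz ru rz sv sz cls cz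
  have r : R0 t (ι u) (ι v) (ι z) := ⟨tt, by rw [← map_mul, uu, map_one], by rw [← map_mul, vv, map_one], by simp [← hz],
    fun e => z1 (inj (e.trans ι.map_one.symm)), by rw [← map_mul, zz, map_one], (cm u).symm, (cm v).symm⟩
  have tT : t ∈ closure {t, ι v, ι u, ι z} := subset_closure (.inl rfl)
  have l : ∀ m ∈ closure {u, v}, ι m ∈ closure {t, ι v, ι u, ι z} := fun m i =>
    (closure_le (comap ι (closure {t, ι v, ι u, ι z}))).2 (by rintro _ (rfl | rfl) <;> exact mem_comap.2 (subset_closure (by simp))) i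
  have sq : ∀ m, t * ι m * (t * ι m) = ι (m * m) := fun m => by rw [mul_assoc, as (cm m).symm, mul_assoc, a1 tt, map_mul]
  have sy : IsSylowIn 2 (closure {t, ι v, ι u, ι z}) (centralizer {t}) := by
    refine isSylowIn_of_maximal (fun x => ⟨2, Subtype.ext (r.actT x.2).2.2.2.2⟩)
      (fun x i => mem_centralizer_singleton_iff.2 (mul_inv_eq_iff_eq_mul.1 (r.actT i).1)) fun Q a b c g i => ?_
    have := syl _ (a.comap_of_injective ι inj) fun m i => b (l m i)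
    obtain ⟨m, rfl | rfl⟩ := ct g (mem_centralizer_singleton_iff.1 (c i))
    exacts [l m (this i), mul_mem tT (l m (this ((Q.mul_mem_cancel_left (b tT)).1 i)))]
  have c1 : ∀ m, ι m * t * (ι m)⁻¹ = t := fun m => by rw [← cm, mul_inv_cancel_right]
  refine St.main (t := t) (u := ι u) (v := ι v) (z := ι z) (ρ := ι ρ) (σ := ι σ) ⟨r, by simp [← map_mul, r3], c1 _,
    by simp [← ru], by simpa using congrArg ι rz, by simpa using congrArg ι vr, by simp [← map_mul, s3], c1 _, by simp [← sv],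
    by simpa using congrArg ι sz, by simpa using congrArg ι us, hd, fun g a b => ?_, sy, fun e => ?_, by_contra fun n => ?_⟩
  · have b := mul_inv_eq_iff_eq_mul.1 b
    obtain ⟨m, rfl | rfl⟩ := ct g (mul_inv_eq_iff_eq_mul.1 a)
    · exact l m (cz m (inj (by simpa using b)))
    · exact mul_mem tT (l m (cz m (inj (by rw [mul_assoc, as (cm z).symm, mul_assoc] at b; simpa using b))))
  · obtain ⟨c, e⟩ := isConj_iff.1 e.symm
    have f : c * ι (u * v) * c⁻¹ * (c * ι (u * v) * c⁻¹) = t := by rw [← B8.cm, ← map_mul, hz, e]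
    obtain ⟨m, k | k⟩ := ct (c * ι (u * v) * c⁻¹) (by rw [← f]; group)
    · exact nt (m * m) (by rw [← f, k, map_mul])
    · exact nt (m * m) (by rw [k, sq] at f; exact f.symm)
  · obtain ⟨m, e⟩ := tr2 tt hd sy tT sy.le (M := ι.range) (fun a i b j p q => by
      obtain ⟨m, rfl | rfl⟩ := ct a (mem_centralizer_singleton_iff.1 i)
      · exact absurd ⟨m, rfl⟩ p
      obtain ⟨m', rfl | rfl⟩ := ct b (mem_centralizer_singleton_iff.1 j)
      · exact absurd ⟨m', rfl⟩ q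
      exact ⟨m * m', by rw [mul_assoc, as (cm m).symm, mul_assoc, a1 tt, map_mul]⟩) fun g k => by
        obtain ⟨m, e | e⟩ := ct _ (mem_centralizer_singleton_iff.1 (k t tT))
        · exact .inl ⟨m, e.symm⟩
        rcases cls m (inj (by rw [← sq, ← e, ← B8.cm, tt]; simp)) with rfl | ⟨x, rfl⟩
        · exact .inr ⟨1, one_mem _, by simp [e]⟩
        · exact absurd ((icj g t).trans (by rw [e, map_mul, map_mul, map_inv, ← c1 x, ← B8.cm, c1]; exact (icj _ _).symm)) n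
    exact nt m e.symm

end CF.Ft
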