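import Cfsg.Agent.Ft.TR

/-! An involution with centraliser `2 × L₃(2)`: the dihedral frame and the swapping case. -/

set_option autoImplicit false
set_option linter.unusedSectionVars false

namespace CF.Ft.B8

open Cfsg Subgroup CF.Transfer
open scoped commutatorElement

variable {G : Type*} [Group G] {s : Set G} {t u v z y ρ σ x g a b c d k : G}

theorem as (e : a * b = c) (x : G) : a * (b * x) = c * x := by rw [← mul_assoc, e]
theorem a1 (e : a * a = 1) (x : G) : a * (a * x) = x := by rw [← mul_assoc, e, one_mul]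
theorem iv (e : a * a = 1) : a⁻¹ = a := inv_eq_of_mul_eq_one_right e
theorem cm (g a b : G) : g * (a * b) * g⁻¹ = g * a * g⁻¹ * (g * b * g⁻¹) := by group
theorem cc (g k a : G) : g * k * a * (g * k)⁻¹ = g * (k * a * k⁻¹) * g⁻¹ := by group
theorem cj_cl {M : Subgroup G} (hn : ∀ k ∈ s, x * k * x⁻¹ ∈ M) (h : k ∈ closure s) : x * k * x⁻¹ ∈ M :=
  (closure_le (M.comap (MulAut.conj x).toMonoidHom)).2 hn h
theorem mem_ins (hn : ∀ k ∈ s, x * k * x⁻¹ ∈ closure s) (h2 : x * x ∈ closure s) :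
    g ∈ closure (insert x s) ↔ g ∈ closure s ∨ ∃ k ∈ closure s, g = k * x := by
  have l : closure s ≤ closure (insert x s) := closure_mono (Set.subset_insert _ _)
  refine ⟨fun h => ?_, fun h => h.elim (fun h => l h) fun ⟨k, a, e⟩ => e ▸ mul_mem (l a) (subset_closure (.inl rfl))⟩
  induction h using closure_induction with
  | mem a h => exact h.elim (fun e => .inr ⟨1, one_mem _, by simp [e]⟩) fun e => .inl (subset_closure e)
  | one => exact .inl (one_mem _)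
  | mul a b _ _ p q =>
    rcases p with p | ⟨a, p, rfl⟩ <;> rcases q with q | ⟨b, q, rfl⟩
    · exact .inl (mul_mem p q)
    · exact .inr ⟨_, mul_mem p q, by group⟩
    · exact .inr ⟨_, mul_mem p (cj_cl hn q), by group⟩
    · exact .inl (by convert mul_mem (mul_mem p (cj_cl hn q)) h2 using 1; group)
  | inv a _ p =>
    rcases p with p | ⟨a, p, rfl⟩
    · exact .inl (inv_mem p)
    · exact .inr ⟨_, mul_mem (inv_mem h2) (cj_cl hn (inv_mem p)), by group⟩
theorem ins2 (hn : ∀ k ∈ s, x * k * x⁻¹ ∈ closure s) (h2 : x * x ∈ closure s) (ha : a ∈ closure (insert x s))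
    (hb : b ∈ closure (insert x s)) (na : a ∉ closure s) (nb : b ∉ closure s) : a * b ∈ closure s := by
  obtain ⟨a, p, rfl⟩ := ((mem_ins hn h2).1 ha).resolve_left na
  obtain ⟨b, q, rfl⟩ := ((mem_ins hn h2).1 hb).resolve_left nb
  convert mul_mem (mul_mem p (cj_cl hn q)) h2 using 1; group
theorem comm_gen {M : Subgroup G} (hn : ∀ x ∈ s, x ∈ normalizer (M : Set G)) (hc : ∀ x ∈ s, ∀ y ∈ s, ⁅x, y⁆ ∈ M) :
    ⁅closure s, closure s⁆ ≤ M := CF.Loc.commutator_closure_right_le hn fun x hx w hw => by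
  have n := (closure_le _).2 hn
  induction hw using closure_induction with
  | mem a h => exact hc a h x hx
  | one => simpa using one_mem M
  | mul a b ha _ p q =>
    convert mul_mem ((mem_normalizer_iff.1 (n ha) _).1 q) p using 1; simp only [commutatorElement_def]; group
  | inv a ha p =>
    convert (mem_normalizer_iff.1 (n (inv_mem ha)) _).1 (inv_mem p) using 1; simp only [commutatorElement_def]; group

/-- the relations of `2 × D₈` -/
structure R0 (t u v z : G) : Prop where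
  tt : t * t = 1
  uu : u * u = 1
  vv : v * v = 1
  zd : u * v * (u * v) = z
  z1 : z ≠ 1
  zz : z * z = 1
  ut : u * t = t * u
  vt : v * t = t * v

/-- the four-group -/
def IU (u z c : G) : Prop := c = 1 ∨ c = z ∨ c = u ∨ c = u * z

/-- the involutions of the dihedral group -/
def I6 (u v z c : G) : Prop := c = 1 ∨ c = z ∨ (c = u ∨ c = u * z) ∨ c = v ∨ c = v * z

namespace R0
variable (h : R0 t u v z)
include h
theorem zd' : v * u * (v * u) = z := by
  rw [← iv h.zz, ← h.zd]; simp only [mul_inv_rev, iv h.uu, iv h.vv]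
theorem sym : R0 t v u z := ⟨h.tt, h.vv, h.uu, h.zd', h.z1, h.zz, h.vt, h.ut⟩
theorem vu : v * u = u * (v * z) := by rw [← h.zd']; simp only [mul_assoc, a1 h.uu, a1 h.vv]
theorem zu : z * u = u * z := by
  nth_rw 1 [← h.zd']; rw [← h.zd]; simp only [mul_assoc, a1 h.uu, h.uu, mul_one]
theorem zv : z * v = v * z := h.sym.zu
theorem zt : z * t = t * z := by rw [← h.zd]; simp only [mul_assoc, h.ut, h.vt, as h.ut, as h.vt]
theorem nc : u * v ≠ v * u := by rw [h.vu]; simpa using h.z1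
theorem u1 : u ≠ 1 := fun e => h.nc (by simp [e])
theorem uz : u ≠ z := fun e => h.nc (by rw [e, h.zv])
theorem uv : u ≠ v := fun e => h.nc (by rw [e])
theorem uvz : u ≠ v * z := fun e => h.nc (by rw [e, mul_assoc, h.zv])
theorem uz1 : u * z ≠ 1 := fun e => h.uz (by rw [eq_inv_of_mul_eq_one_left e, iv h.zz])
/-- rewriting rules -/
theorem nf : t * t = 1 ∧ u * u = 1 ∧ v * v = 1 ∧ z * z = 1 ∧ (∀ x, t * (t * x) = x) ∧ (∀ x, u * (u * x) = x) ∧
    (∀ x, v * (v * x) = x) ∧ (∀ x, z * (z * x) = x) ∧ u * t = t * u ∧ v * t = t * v ∧ z * t = t * z ∧ v * u = u * (v * z) ∧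
    z * u = u * z ∧ z * v = v * z ∧ (∀ x, u * (t * x) = t * u * x) ∧ (∀ x, v * (t * x) = t * v * x) ∧
    (∀ x, z * (t * x) = t * z * x) ∧ (∀ x, v * (u * x) = u * (v * z) * x) ∧ (∀ x, z * (u * x) = u * z * x) ∧
    (∀ x, z * (v * x) = v * z * x) ∧ t⁻¹ = t ∧ u⁻¹ = u ∧ v⁻¹ = v ∧ z⁻¹ = z ∧ z ≠ 1 ∧ u ≠ 1 ∧ v ≠ 1 ∧ u ≠ z ∧ v ≠ z ∧ z ≠ u ∧ z ≠ v ∧
    u * z ≠ 1 ∧ v * z ≠ 1 ∧ u ≠ v ∧ v ≠ u ∧ u ≠ v * z ∧ v ≠ u * z ∧ u * z ≠ v ∧ v * z ≠ u :=
  ⟨h.tt, h.uu, h.vv, h.zz, a1 h.tt, a1 h.uu, a1 h.vv, a1 h.zz, h.ut, h.vt, h.zt, h.vu, h.zu, h.zv, as h.ut, as h.vt, as h.zt,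
    as h.vu, as h.zu, as h.zv, iv h.tt, iv h.uu, iv h.vv, iv h.zz, h.z1, h.u1, h.sym.u1, h.uz, h.sym.uz, h.uz.symm, h.sym.uz.symm,
    h.uz1, h.sym.uz1, h.uv, h.uv.symm, h.uvz, h.sym.uvz, h.sym.uvz.symm, h.uvz.symm⟩
theorem memU : c ∈ closure {u, z} ↔ IU u z c := by
  have e : ∀ c, c ∈ closure {z} ↔ c = 1 ∨ c = z := fun c => by
    rw [← insert_empty_eq, mem_ins (by simp) (by simp [h.zz])]; simp
  rw [mem_ins (by simp [e, h.nf, mul_assoc]) (by simp [e, h.uu])]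
  simp [e, IU, or_assoc, h.zu]
theorem memD : d ∈ closure {v, u, z} ↔ ∃ c, IU u z c ∧ (d = c ∨ d = c * v) := by
  rw [mem_ins (by simp [h.memU, IU, h.nf, mul_assoc]) (by simp [h.vv])]
  simp only [h.memU, and_or_left, exists_or, exists_eq_right']
theorem memT : x ∈ closure {t, v, u, z} ↔ ∃ d ∈ closure {v, u, z}, x = d ∨ x = d * t := by
  rw [mem_ins (fun k i => subset_closure (by rcases i with rfl | rfl | rfl <;> simp [h.nf, mul_assoc])) (by simp [h.tt])]
  simp only [and_or_left, exists_or, exists_eq_right']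
theorem symD : closure {u, v, z} = closure {v, u, z} := by rw [Set.insert_comm]
theorem symT : closure {t, u, v, z} = closure {t, v, u, z} := by rw [Set.insert_comm u]
theorem invD (i : d ∈ closure {v, u, z}) (e : d * d = 1) : I6 u v z d := by
  obtain ⟨c, rfl | rfl | rfl | rfl, rfl | rfl⟩ := h.memD.1 i <;> simp [I6, h.nf, mul_assoc] at e ⊢
theorem invT (i : x ∈ closure {t, v, u, z}) (e : x * x = 1) : ∃ d, I6 u v z d ∧ (x = d ∨ x = t * d) := by
  obtain ⟨d, j, rfl | rfl⟩ := h.memT.1 i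
  · exact ⟨_, h.invD j e, .inl rfl⟩
  · have : d * t = t * d := by obtain ⟨c, rfl | rfl | rfl | rfl, rfl | rfl⟩ := h.memD.1 j <;> simp [h.nf, mul_assoc]
    exact ⟨d, h.invD j (by rwa [mul_assoc, as this.symm, mul_assoc, h.tt, mul_one] at e), .inr this⟩
theorem cenU (i : x ∈ closure {t, v, u, z}) (e : x * u = u * x) : ∃ c, IU u z c ∧ (x = c ∨ x = t * c) := by
  obtain ⟨d, j, rfl | rfl⟩ := h.memT.1 i <;> obtain ⟨c, rfl | rfl | rfl | rfl, rfl | rfl⟩ := h.memD.1 j <;>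
    simp [IU, h.nf, mul_assoc] at e ⊢
theorem cenD (i : x ∈ closure {t, v, u, z}) (e : x * u = u * x) (f : x * v = v * x) : x = 1 ∨ x = z ∨ x = t ∨ x = t * z := by
  obtain ⟨c, rfl | rfl | rfl | rfl, rfl | rfl⟩ := h.cenU i e <;> simp [h.nf, mul_assoc] at f ⊢
theorem actT (i : x ∈ closure {t, v, u, z}) : x * t * x⁻¹ = t ∧ x * z * x⁻¹ = z ∧ (x * u * x⁻¹ = u ∨ x * u * x⁻¹ = u * z) ∧
    (x * v * x⁻¹ = v ∨ x * v * x⁻¹ = v * z) ∧ x ^ 2 ^ 2 = 1 := by
  obtain ⟨d, j, rfl | rfl⟩ := h.memT.1 i <;> obtain ⟨c, rfl | rfl | rfl | rfl, rfl | rfl⟩ := h.memD.1 j <;>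
    simp [h.nf, mul_assoc, pow_succ]
theorem pair (p : I6 u v z a) (q : I6 u v z b) (n : a * b ≠ b * a) : a * b * (a * b) = z ∧
    ((a = u ∨ a = u * z) ∧ (b = v ∨ b = v * z) ∨ (a = v ∨ a = v * z) ∧ (b = u ∨ b = u * z)) := by
  rcases p with rfl | rfl | (rfl | rfl) | rfl | rfl <;> rcases q with rfl | rfl | (rfl | rfl) | rfl | rfl <;>
    simp [h.nf, mul_assoc] at n ⊢
end R0

/-- the frame inside `G` -/
structure St (t u v z ρ σ : G) : Prop extends R0 t u v z where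
  r3 : ρ * ρ * ρ = 1
  rt : ρ * t * ρ⁻¹ = t
  ru : ρ * u * ρ⁻¹ = z
  rz : ρ * z * ρ⁻¹ = u * z
  vr : v * ρ * v = ρ⁻¹
  s3 : σ * σ * σ = 1
  st : σ * t * σ⁻¹ = t
  sv : σ * v * σ⁻¹ = z
  sz : σ * z * σ⁻¹ = v * z
  us : u * σ * u = σ⁻¹
  hd : t ∈ commutator G
  cz : ∀ g, g * t * g⁻¹ = t → g * z * g⁻¹ = z → g ∈ closure {t, v, u, z}
  syl : IsSylowIn 2 (closure {t, v, u, z}) (centralizer {t})
  nz : ¬ IsConj t z
  tz : IsConj t (t * z)

theorem icj (g a : G) : IsConj a (g * a * g⁻¹) := isConj_iff.2 ⟨g, rfl⟩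

namespace St
variable [Finite G] (h : St t u v z ρ σ)
include h
theorem sym : St t v u z σ ρ := ⟨h.toR0.sym, h.s3, h.st, h.sv, h.sz, h.us, h.r3, h.rt, h.ru, h.rz, h.vr, h.hd, h.symT ▸ h.cz,
  h.symT ▸ h.syl, h.nz, h.tz⟩
theorem t1 : t ≠ 1 := fun e => h.z1 (by simpa [e, eq_comm] using h.tz)
theorem nU (i : IU u z c) : ¬ IsConj t c := fun e => by
  rcases i with rfl | rfl | rfl | rfl
  exacts [h.t1 (by simpa using e), h.nz e, h.nz (e.trans (h.ru ▸ icj ρ _)), h.nz (e.trans (h.rz ▸ icj ρ z).symm)]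
theorem cU (i : IU u z c) : IsConj t (t * c) := by
  rcases i with rfl | rfl | rfl | rfl
  · rw [mul_one]
  · exact h.tz
  · exact h.tz.trans (by have := (icj ρ (t * c)).symm; rwa [cm, h.rt, h.ru] at this)
  · exact h.tz.trans (by have := icj ρ (t * z); rwa [cm, h.rt, h.rz] at this)
theorem n6 (i : I6 u v z c) : ¬ IsConj t c := by
  rcases i with e | e | (e | e) | e | e
  exacts [h.nU (by simp [IU, e]), h.nU (by simp [IU, e]), h.nU (by simp [IU, e]), h.nU (by simp [IU, e]),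
    h.sym.nU (by simp [IU, e]), h.sym.nU (by simp [IU, e])]
theorem c6 (i : I6 u v z c) : IsConj t (t * c) := by
  rcases i with e | e | (e | e) | e | e
  exacts [h.cU (by simp [IU, e]), h.cU (by simp [IU, e]), h.cU (by simp [IU, e]), h.cU (by simp [IU, e]),
    h.sym.cU (by simp [IU, e]), h.sym.cU (by simp [IU, e])]
theorem nonD (i : g * c * g⁻¹ ∈ closure {t, v, u, z}) (e : c * c = 1) (n : ¬ IsConj t c) : I6 u v z (g * c * g⁻¹) := by
  obtain ⟨d, j, k | k⟩ := h.invT i (by rw [← cm, e]; simp)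
  · exact k ▸ j
  · exact absurd ((h.c6 j).trans (k ▸ (icj g c).symm)) n
theorem img (a : g * u * g⁻¹ ∈ closure {t, v, u, z}) (b : g * v * g⁻¹ ∈ closure {t, v, u, z}) : g * z * g⁻¹ = z ∧
    ((g * u * g⁻¹ = u ∨ g * u * g⁻¹ = u * z) ∧ (g * v * g⁻¹ = v ∨ g * v * g⁻¹ = v * z) ∨
      (g * u * g⁻¹ = v ∨ g * u * g⁻¹ = v * z) ∧ (g * v * g⁻¹ = u ∨ g * v * g⁻¹ = u * z)) := by
  have := h.pair (h.nonD a h.uu (h.n6 (by simp [I6]))) (h.nonD b h.vv (h.n6 (by simp [I6]))) fun e => h.nc (by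
    rw [← cm, ← cm] at e; simpa using e)
  rwa [← cm, ← cm, h.zd] at this
theorem exy : ∃ y, y * t * y⁻¹ = t * z ∧ ∀ x ∈ closure {t, v, u, z}, y * x * y⁻¹ ∈ closure {t, v, u, z} := by
  obtain ⟨g, e⟩ := isConj_iff.1 h.tz
  have m : ∀ x, x ∈ cj g (centralizer {t}) ↔ x * (t * z) * x⁻¹ = t * z := fun x => by
    rw [mem_cj, mem_centralizer_singleton_iff, ← e]
    refine ⟨fun k => ?_, fun k => ?_⟩
    · calc _ = g * (g⁻¹ * x * g * t) * (x * g)⁻¹ := by group
        _ = _ := by rw [k]; group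
    · calc _ = g⁻¹ * (x * (g * t * g⁻¹) * x⁻¹) * x * g := by group
        _ = _ := by rw [k]; group
  obtain ⟨k, i, l⟩ := (h.syl.cj g).exists_cj_le h.syl.isPGroup fun x j => (m x).2 (by rw [cm, (h.actT j).1, (h.actT j).2.1])
  have l' : ∀ x ∈ closure {t, v, u, z}, g⁻¹ * k * x * (g⁻¹ * k)⁻¹ ∈ closure {t, v, u, z} := fun x j => by
    simpa [mul_assoc] using mem_cj.1 (l (conj_mem_cj j))
  refine ⟨_, ?_, l'⟩
  have f : g⁻¹ * k * (t * z) * (g⁻¹ * k)⁻¹ = t := by rw [cc, (m k).1 i, ← e]; group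
  rw [cm, (h.img (l' u (subset_closure (by simp))) (l' v (subset_closure (by simp)))).1] at f
  rw [eq_mul_inv_of_mul_eq f, iv h.zz]
/-- the fixed involutions of a swapping element -/
theorem fix (xt : x * t * x⁻¹ = t * z) (xz : x * z * x⁻¹ = z) (xu : x * u * x⁻¹ = v ∨ x * u * x⁻¹ = v * z)
    (xv : x * v * x⁻¹ = u ∨ x * v * x⁻¹ = u * z) (i : a ∈ closure {t, v, u, z}) (e : a * a = 1) (f : x * a * x⁻¹ = a) :
    a = 1 ∨ a = z := by
  obtain ⟨d, rfl | rfl | (rfl | rfl) | rfl | rfl, rfl | rfl⟩ := h.invT i e <;> rcases xu with xu | xu <;> rcases xv with xv | xv <;>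
    simp only [cm x, xt, xz, xu, xv, mul_one] at f <;> simp [h.nf, mul_assoc] at f ⊢
theorem swap (yt : y * t * y⁻¹ = t * z) (yz : y * z * y⁻¹ = z) (yu : y * u * y⁻¹ = v ∨ y * u * y⁻¹ = v * z)
    (yv : y * v * y⁻¹ = u ∨ y * v * y⁻¹ = u * z) : False := by
  have mD : ∀ x ∈ ({v, u, z} : Set G), y * x * y⁻¹ ∈ closure {v, u, z} ∧ t * x * t⁻¹ ∈ closure {v, u, z} := by
    have a : u ∈ closure {v, u, z} ∧ v ∈ closure {v, u, z} ∧ z ∈ closure {v, u, z} := by
      refine ⟨?_, ?_, ?_⟩ <;> exact subset_closure (by simp)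
    rcases yu with yu | yu <;> rcases yv with yv | yv <;> simp only [Set.mem_insert_iff, Set.mem_singleton_iff, forall_eq_or_imp,
      forall_eq, yu, yv, yz] <;> simp [h.nf, mul_assoc, mul_mem, a]
  have l : closure {v, u, z} ≤ closure {t, v, u, z} := closure_mono (Set.subset_insert _ _)
  have tT : t ∈ closure {t, v, u, z} := subset_closure (.inl rfl)
  have zD : z ∈ closure {v, u, z} := subset_closure (by simp)
  have hn : ∀ x ∈ ({t, v, u, z} : Set G), y * x * y⁻¹ ∈ closure {t, v, u, z} := by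
    rintro x (rfl | i)
    exacts [yt ▸ mul_mem tT (l zD), l (mD x i).1]
  have h2 : y * y ∈ closure {t, v, u, z} := h.cz _ (by rw [cc, yt, cm, yt, yz, mul_assoc, h.zz, mul_one]) (by rw [cc, yz, yz])
  have F : ∀ x ∈ closure {y, t, v, u, z}, x ∉ closure {t, v, u, z} → ∀ a ∈ closure {t, v, u, z}, a * a = 1 → x * a * x⁻¹ = a →
      a = 1 ∨ a = z := fun x i n a => by
    obtain ⟨k, j, rfl⟩ := ((mem_ins hn h2).1 i).resolve_left n
    obtain ⟨k1, k2, k3, k4, -⟩ := h.actT j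
    refine h.fix (by rw [cc, yt, cm, k1, k2]) (by rw [cc, yz, k2]) ?_ ?_
    · rcases yu with e | e <;> rcases k4 with f | f <;> simp only [cc, e, cm k, f, k2] <;> simp [h.nf, mul_assoc]
    · rcases yv with e | e <;> rcases k3 with f | f <;> simp only [cc, e, cm k, f, k2] <;> simp [h.nf, mul_assoc]
  have nD : ∀ x ∈ ({y, t, v, u, z} : Set G), x ∈ normalizer (closure {v, u, z} : Set G) := by
    rintro x (rfl | rfl | i)
    exacts [mem_normalizer_fintype fun _ => cj_cl fun k j => (mD k j).1, mem_normalizer_fintype fun _ => cj_cl fun k j => (mD k j).2,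
      le_normalizer (subset_closure i)]
  have cD : ∀ x ∈ ({y, t, v, u, z} : Set G), ∀ w ∈ ({v, u, z} : Set G), ⁅x, w⁆ ∈ closure {v, u, z} := fun x i w j =>
    mul_mem ((mem_normalizer_iff.1 (nD x i) _).1 (subset_closure j)) (inv_mem (subset_closure j))
  have c : ⁅y, t⁆ ∈ closure {v, u, z} := by rw [commutatorElement_def, yt]; simpa [h.nf, mul_assoc] using zD
  refine h.n6 (h.invD (tr h.tt h.hd h.syl tT (closure_mono (Set.subset_insert y _)) (comm_gen nD fun x i w j => ?_) fun g k => .inr ?_)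
    h.tt) (IsConj.refl t)
  · rcases j with rfl | rfl | j
    · rcases i with rfl | rfl | i
      exacts [by simp, by simpa using inv_mem c, by simpa using inv_mem (cD w (by simp) x i)]
    · rcases i with rfl | rfl | i
      exacts [c, by simp, by simpa using inv_mem (cD w (by simp) x i)]
    · exact cD x i w j
  have K : ∀ {w}, w ∈ closure {t, v, u, z} → w * w = 1 → w * t = t * w → w * z = z * w → ¬ IsConj t w → IsConj t (t * w) → w ≠ 1 →
      w ≠ z → g * z * g⁻¹ ∈ closure {t, v, u, z} → g * t * g⁻¹ ∈ closure {t, v, u, z} ∧ g * w * g⁻¹ ∈ closure {t, v, u, z} := by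
    intro w i w2 wt wz n1 n2 w1 wz' j
    have key : ∀ x ∈ closure {t, v, u, z}, g * x * g⁻¹ ∉ closure {t, v, u, z} → x * z = z * x → ∀ a, g * a * g⁻¹ ∈ closure {t, v, u, z} →
        a * a = 1 → x * a = a * x → a = 1 ∨ a = z := fun x i n e a j' a2 f => by
      have p := F _ (k x i) n _ j' (by rw [← cm, a2]; simp) (by rw [← cm, f]; group)
      have q := (F _ (k x i) n _ j (by rw [← cm, h.zz]; simp) (by rw [← cm, e]; group)).resolve_left (by simpa using h.z1)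
      exact p.imp (by simp) fun p => by simpa using p.trans q.symm
    have t2 : t * w * (t * w) = 1 := by rw [mul_assoc, as wt, mul_assoc, w2, mul_one, h.tt]
    have n3 : ¬ (t = 1 ∨ t = z) := fun e => h.n6 (c := t) (by rcases e with e | e <;> simp [I6, ← e]) (IsConj.refl t)
    have n4 : ¬ (t * w = 1 ∨ t * w = z) := fun e => h.n6 (by rcases e with e | e <;> simp [I6, e]) n2
    by_cases a : g * t * g⁻¹ ∈ closure {t, v, u, z} <;> by_cases b : g * w * g⁻¹ ∈ closure {t, v, u, z}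
    · exact ⟨a, b⟩
    · exact absurd (key w i b wz t a h.tt wt) n3
    · exact absurd (key t tT a h.zt.symm w b w2 wt.symm) (by simp [w1, wz'])
    · exact absurd (key t tT a h.zt.symm (t * w) (cm g t w ▸ ins2 hn h2 (k t tT) (k w i) a b) t2 (by rw [mul_assoc, wt])) n4
  have uT : u ∈ closure {t, v, u, z} := subset_closure (by simp)
  have vT : v ∈ closure {t, v, u, z} := subset_closure (by simp)
  have j : g * z * g⁻¹ ∈ closure {t, v, u, z} := by
    rw [show g * z * g⁻¹ = _ from h.zd ▸ cm g (u * v) (u * v)]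
    by_cases a : g * (u * v) * g⁻¹ ∈ closure {t, v, u, z}
    exacts [mul_mem a a, ins2 hn h2 (k _ (mul_mem uT vT)) (k _ (mul_mem uT vT)) a a]
  obtain ⟨a, b⟩ := K uT h.uu h.ut h.zu.symm (h.n6 (by simp [I6])) (h.c6 (by simp [I6])) h.u1 h.uz j
  obtain ⟨-, c⟩ := K vT h.vv h.vt h.zv.symm (h.n6 (by simp [I6])) (h.c6 (by simp [I6])) h.toR0.sym.u1 h.toR0.sym.uz j
  have e : ∀ w, w * t = t * w → g * t * g⁻¹ * (g * w * g⁻¹) = g * w * g⁻¹ * (g * t * g⁻¹) := fun w e => by rw [← cm, ← cm, e]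
  have f : ∀ w, w * z = z * w → g * t * g⁻¹ * (w * z) = w * z * (g * t * g⁻¹) → g * t * g⁻¹ * w = w * (g * t * g⁻¹) := fun w p q => by
    rw [← mul_assoc, mul_assoc w, ← mul_inv_eq_iff_eq_mul.1 (h.actT a).2.1, ← mul_assoc] at q
    exact mul_right_cancel q
  have e1 := e u h.ut
  have e2 := e v h.vt
  have : g * t * g⁻¹ * u = u * (g * t * g⁻¹) ∧ g * t * g⁻¹ * v = v * (g * t * g⁻¹) := by
    rcases (h.img b c).2 with ⟨p | p, q | q⟩ | ⟨p | p, q | q⟩ <;> rw [p] at e1 <;> rw [q] at e2 <;>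
      exact ⟨by first | assumption | exact f u h.zu.symm ‹_›, by first | assumption | exact f v h.zv.symm ‹_›⟩
  rcases h.cenD a this.1 this.2 with p | p | p | p
  · exact absurd (p ▸ icj g t) (h.n6 (by simp [I6]))
  · exact absurd (p ▸ icj g t) h.nz
  · exact ⟨1, one_mem _, by simp [p]⟩
  · exact ⟨y, subset_closure (.inl rfl), yt.trans p.symm⟩
theorem exy' : ∃ y, y * y = 1 ∧ u * y = y * u ∧ v * y = y * v ∧ y * t * y⁻¹ = t * z := by
  obtain ⟨y, yt, l⟩ := h.exy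
  obtain ⟨yz, ⟨yu, yv⟩ | ⟨yu, yv⟩⟩ := h.img (l u (subset_closure (by simp))) (l v (subset_closure (by simp)))
  swap
  · exact (h.swap yt yz yu yv).elim
  obtain ⟨y, yt, yz, yu, yv⟩ : ∃ y, y * t * y⁻¹ = t * z ∧ y * z * y⁻¹ = z ∧ y * u * y⁻¹ = u ∧ y * v * y⁻¹ = v := by
    rcases yu with yu | yu <;> rcases yv with yv | yv
    exacts [⟨y, yt, yz, yu, yv⟩, ⟨u * y, by simp only [cc, yt, yz, yu, yv]; simp [h.nf, mul_assoc]⟩,
      ⟨v * y, by simp only [cc, yt, yz, yu, yv]; simp [h.nf, mul_assoc]⟩,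
      ⟨u * (v * y), by simp only [cc, yt, yz, yu, yv]; simp [h.nf, mul_assoc]⟩]
  have yu' := mul_inv_eq_iff_eq_mul.1 yu
  have yv' := mul_inv_eq_iff_eq_mul.1 yv
  have f : y * (y * y) * y⁻¹ = y * y := by group
  rcases h.cenD (x := y * y) (h.cz _ (by rw [cc, yt, cm, yt, yz, mul_assoc, h.zz, mul_one]) (by rw [cc, yz, yz]))
    (by rw [mul_assoc, yu', as yu', mul_assoc]) (by rw [mul_assoc, yv', as yv', mul_assoc]) with e | e | e | e
  · exact ⟨y, e, yu'.symm, yv'.symm, yt⟩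
  · refine ⟨y * t, ?_, by rw [as yu'.symm, mul_assoc, h.ut, mul_assoc], by rw [as yv'.symm, mul_assoc, h.vt, mul_assoc],
      by rw [cc, mul_inv_cancel_right, yt]⟩
    calc _ = y * t * y⁻¹ * (y * y) * t := by group
      _ = _ := by rw [yt, e]; simp [h.nf, mul_assoc]
  · rw [e, yt] at f; simp [h.nf] at f
  · rw [e, cm, yt, yz] at f; simp [h.nf] at f
end St

end CF.Ft.B8
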