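import Cfsg.Agent.Ft.M0
import Cfsg.Agent.Ft.B8
import Cfsg.Agent.Loc.Conj

/-! An involution with centraliser `2 × Sp₆(2)`: definitions. -/

set_option autoImplicit false
set_option maxRecDepth 100000

namespace CF.Ft

open Subgroup CF.Loc

/-- the short root element `x ↦ x + (x,u) v + (x,v) u` for orthogonal `u`, `v` -/
def bb (u v : ℕ) : Sp := τ u * τ v * τ (u ^^^ v)

/-- its code -/
def bc (u v : ℕ) : ℕ := mu (mu (tc (u % 64)) (tc (v % 64))) (tc ((u ^^^ v) % 64))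

/-- the code of the element of `E` with diagonal bits `0,1,2` and bits `3,4,5` for the places `12, 13, 23` -/
def ec (k : ℕ) : ℕ := pk 1 2 4 (8 + k % 2 + 2 * (k / 8 % 2) + 4 * (k / 16 % 2)) (16 + k / 8 % 2 + 2 * (k / 2 % 2) + 4 * (k / 32 % 2))
  (32 + k / 16 % 2 + 2 * (k / 32 % 2) + 4 * (k / 4 % 2))

/-- the elements of `E` -/
def ee (k : ℕ) : Sp := el (ec k)

/-- cross product of three bit vectors -/
def cr (x y : ℕ) : ℕ := (x / 2 * (y / 4) + x / 4 * (y / 2)) % 2 + 2 * ((x / 4 * y + x * (y / 4)) % 2) +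
  4 * ((x * (y / 2) + x / 2 * y) % 2)

/-- the code of the Levi element with `e₁, e₂, e₃ ↦ c % 8, c / 8 % 8, c / 64 % 8` -/
def lc (c : ℕ) : ℕ := pk (c % 8) (c / 8 % 8) (c / 64 % 8) (8 * cr (c / 8 % 8) (c / 64 % 8)) (8 * cr (c / 64 % 8) (c % 8))
  (8 * cr (c % 8) (c / 8 % 8))

/-- the elements of the Levi complement -/
def lv (c : ℕ) : Sp := el (lc c)

/-- the code of `e₂ ↦ e₂ + i₀ e₁`, `e₃ ↦ e₃ + i₁ e₁ + i₂ e₂` -/
def dc (i : ℕ) : ℕ := lc (1 + 8 * (2 + i % 2) + 64 * (4 + i / 2 % 4))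

/-- the unitriangular elements of the Levi complement -/
def dd (i : ℕ) : Sp := el (dc i)

/-- the stabiliser of a set of vectors -/
def Sb (p : ℕ → Prop) : Subgroup Sp where
  carrier := {g | ∀ v < 64, p v → p (ac g v)}
  one_mem' := fun v k h => by rwa [ac_one k]
  mul_mem' := fun {g h} a b v k e => by rw [ac_mul]; exact a _ (ac_lt _ _) (b v k e)
  inv_mem' := fun {g} a => by
    have : Finite Sp := Nat.finite_of_card_ne_zero (by rw [card_Sp]; decide)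
    have k : ∀ n, ∀ v < 64, p v → p (ac (g ^ n) v) := fun n => by
      induction n with
      | zero => intro v k h; rwa [pow_zero, ac_one k]
      | succ n i => intro v k h; rw [pow_succ', ac_mul]; exact a _ (ac_lt _ _) (i v k h)
    have e : g⁻¹ = g ^ (orderOf g - 1) := by
      rw [inv_eq_iff_mul_eq_one, ← pow_succ', Nat.sub_add_cancel (orderOf_pos g), pow_orderOf_eq_one]
    rw [e]; exact k _

/-- the pointwise stabiliser of the vectors below `n` -/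
def Fx (n : ℕ) : Subgroup Sp where
  carrier := {g | ∀ v < n, ac g v = v % 64}
  one_mem' := fun v _ => by rw [← ac_mod, ac_one (Nat.mod_lt _ (by decide))]
  mul_mem' := fun {g h} a b v k => by rw [ac_mul, b v k, ac_mod, a v k]
  inv_mem' := fun {g} a v k => by
    have := ac_inv g (Nat.mod_lt v (by decide : 0 < 64))
    rwa [ac_mod, a v k, ac_mod] at this

/-- the stabilisers of `e₁`, of `⟨e₁, e₂⟩`, of `W = ⟨e₁, e₂, e₃⟩` and of the flag -/
def P1 : Subgroup Sp := Sb (· < 2)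
def P2 : Subgroup Sp := Sb (· < 4)
def PP : Subgroup Sp := Sb (· < 8)
def SS : Subgroup Sp := P1 ⊓ P2 ⊓ PP
/-- the unipotent radical of `PP` -/
def EE : Subgroup Sp := Fx 8
/-- the Levi complement of `PP` -/
def MM : Subgroup Sp := PP ⊓ Sb (· % 8 = 0)
/-- the alternating elements of `EE` -/
def AL : Subgroup Sp := closure {bb 1 2, bb 1 4, bb 2 4}
/-- the unipotent radical of `P1` -/
def QQ : Subgroup Sp := closure {τ 1, bb 1 2, bb 1 4, bb 1 16, bb 1 32}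
/-- `g v` is orthogonal to `v` for all `v` -/
def Al (g : Sp) : Prop := ∀ v < 64, fm (ac g v) v = 0
/-- elements of order three in `⟨τ e₃, τ f₃⟩` and in `⟨x₁₂, x₂₁⟩` -/
def ρ3 : Sp := τ 4 * τ 32
def σ3 : Sp := bb 1 16 * bb 2 8

variable {G : Type*} [Group G]

/-- `C(t) = ⟨t⟩ × Sp₆(2)` and `t ∈ G'` -/
structure Ct (ι : Sp →* G) (t : G) : Prop where
  inj : Function.Injective ι
  tt : t * t = 1
  nt : ∀ m, t ≠ ι m
  cm : ∀ m, t * ι m = ι m * t
  ct : ∀ g, g * t = t * g → ∃ m, g = ι m ∨ g = t * ι m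
  hd : t ∈ commutator G

/-- conjugate to `t` -/
def Dt (t s : G) : Prop := ∃ g, g * t * g⁻¹ = s

/-- `⟨t⟩ × ι X` -/
def Tm (ι : Sp →* G) (t : G) (X : Subgroup Sp) : Subgroup G := zpowers t ⊔ X.map ι

/-- `x` centralises `ι X` -/
def Cz (ι : Sp →* G) (X : Subgroup Sp) (x : G) : Prop := ∀ m ∈ X, x * ι m = ι m * x

/-- `x` centralises `E` and moves `t` to `t β` -/
def Tr (ι : Sp →* G) (t x : G) (β : Sp) : Prop := Cz ι EE x ∧ x * t * x⁻¹ = t * ι β

/-- `x` lies in `C(E) ⊓ N(⟨t⟩ E)` -/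
def W1 (ι : Sp →* G) (t x : G) : Prop := ∃ β ∈ EE, Tr ι t x β

/-- case I: only `t a` is conjugate to `t` -/
def C1 (ι : Sp →* G) (t : G) : Prop := ∀ m, Dt t (t * ι m) ↔ ∃ v < 64, m = τ v

/-- case II: only `t b` is conjugate to `t` -/
def C2 (ι : Sp →* G) (t : G) : Prop := ∀ e ∈ EE, Dt t (t * ι e) → e ∈ AL

/-- case III: all involutions `t m` are conjugate to `t` -/
def C3 (ι : Sp →* G) (t : G) : Prop := ∀ m, m * m = 1 → Dt t (t * ι m)

/-- the involution moving `t` to `t b` -/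
structure Gy (ι : Sp →* G) (t g : G) (α : ℕ) : Prop where
  gg : g * g = 1
  gt : g * t * g⁻¹ = t * ι (bb 1 2)
  gf : Cz ι (Fx 4) g
  gs : g * ι σ3 = ι σ3 * g
  gx : g * ι (bb 1 16) * g⁻¹ = ι (bb 1 16 * bb 1 2 ^ α)

/-- the involution moving `t` to `t a` -/
structure Y4 (ι : Sp →* G) (t y : G) : Prop where
  yy : y * y = 1
  yt : y * t * y⁻¹ = t * ι (τ 1)
  yc : Cz ι P1 y

/-- the involutions moving `t` to `t b`, `t b'` commute -/
def K0 (ι : Sp →* G) (t : G) : Prop :=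
  ∀ x y, x * x = 1 → y * y = 1 → Tr ι t x (bb 1 2) → Tr ι t y (bb 1 4) → x * y = y * x

/-- no element moving `t` to `t b` centralises `x₁₂` -/
def N1 (ι : Sp →* G) (t : G) : Prop := ∀ v, v * t * v⁻¹ = t * ι (bb 1 2) → v * ι (bb 1 16) ≠ ι (bb 1 16) * v

/-- the normaliser of `⟨t⟩ E` keeps the alternating elements -/
def AI (ι : Sp →* G) (t : G) : Prop :=
  ∀ n ∈ 𝐍(Tm ι t EE), ∀ β ∈ AL, ∃ β' ∈ AL, n * ι β * n⁻¹ = ι β'

/-- an elementary abelian group over `E` with `[U, t] = X` -/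
structure Us (ι : Sp →* G) (t : G) (U : Subgroup G) (X : Subgroup Sp) : Prop where
  sq : ∀ x ∈ U, x * x = 1
  le : ∀ e ∈ EE, ι e ∈ U
  tr : ∀ x ∈ U, ∃ β ∈ X, x * t * x⁻¹ = t * ι β
  ex : ∀ β ∈ X, ∃ x ∈ U, x * t * x⁻¹ = t * ι β
  nt : ∀ m, t * ι m ∉ U
  xe : X = AL ∨ X = EE

/-- `V` is the only elementary abelian group of order `2 ^ 9` in `C(E) ⊓ N(⟨t⟩ E)` -/
def P9 (ι : Sp →* G) (t : G) (V : Subgroup G) : Prop :=
  ∀ B : Subgroup G, (∀ x ∈ B, x * x = 1) → 512 ≤ Nat.card B → (∀ x ∈ B, W1 ι t x) → B ≤ V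

/-- the case `j = 1`: `h = t y` has order four and centralises `V` -/
structure J1 (ι : Sp →* G) (t : G) (V : Subgroup G) (h : G) : Prop extends Us ι t V AL where
  c3 : C3 ι t
  hh : h * h = ι (τ 1)
  ht : h * t * h⁻¹ = t * ι (τ 1)
  hc : Cz ι P1 h
  hv : ∀ x ∈ V, h * x = x * h

/-- the conjugates of `h` belonging to `e₂`, `e₁ + e₂` -/
def h2 (ι : Sp →* G) (h : G) : G := ι (lv (2 + 8 * 1 + 64 * 4)) * h * (ι (lv (2 + 8 * 1 + 64 * 4)))⁻¹
def h3 (ι : Sp →* G) (h : G) : G := ι (bb 1 16) * h2 ι h * (ι (bb 1 16))⁻¹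

end CF.Ft
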