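import Cfsg.Agent.Ft.M2a

/-! Elementary abelian subgroups of `Sp₆(2)`, continued. -/

set_option autoImplicit false
set_option maxRecDepth 100000
set_option synthInstance.maxSize 4000

namespace CF.Ft

open Subgroup CF.Loc M2
open scoped commutatorElement

attribute [local irreducible] ac cd el ee lv dd τ bb mi ak

variable {g m : Sp} {B : Subgroup Sp} {i j k l w : ℕ}

theorem S_sq (a : i < 8) (b : k < 64) (e : dd i * ee k * (dd i * ee k) = 1) : ak i k = k := by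
  rw [S_mul a a b, ← ee_val.1, ← ee_S 0] at e
  exact Nat.xor_eq_zero_iff.1 (S_inj (mi_lt _ _) (by decide) (xor_lt (ak_lt a b) b) (by decide) e).2

theorem cm_E (a : i < 8) (b : l < 64) (k : ℕ) : ⁅(dd i * ee k)⁻¹, ee l⁆ = ee (ak i l ^^^ l) := by
  rw [commutatorElement_def, inv_inv, S_cj a b, inv_eq_of_mul_eq_one_right (EE_sq (ee_EE l)), ee_mul]

theorem cm_E' (a : i < 8) (b : l < 64) : ⁅ee l, (dd i * ee 0)⁻¹⁆ = ee (ak i l ^^^ l) := by
  rw [← commutatorElement_inv, cm_E a b, inv_eq_of_mul_eq_one_right (EE_sq (ee_EE _))]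

theorem n5 (s : ∀ x ∈ B, x * x = 1) (le : B ≤ SS) (n : SS ≤ 𝐍(B)) (c : 32 ≤ Nat.card B) (ne : ¬ B ≤ EE) :
    bb 1 32 ∈ B ∧ bb 1 4 ∈ ⁅B, SS⁆ := by
  obtain ⟨w, lt, a, v, f, b, d⟩ := key s le
  have cj : ∀ {i k j}, i < 8 → k < 64 → j ∈ [1, 4] → dd i * ee k ∈ B →
      dd (mi i (mi (mi j i) j)) * ee (ak (mi (mi j i) j) k ^^^ ak j k) ∈ B := fun {i k j} hi hk hj m => by
    have u : j < 8 := by simp at hj; omega
    have e : (dd j)⁻¹ = dd j * ee 0 := by
      rw [dd_S, inv_eq_iff_mul_eq_one, dd_mul u u, (by decide +kernel : ∀ j ∈ [1, 4], mi j j = 0) j hj, dd_val.1]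
    have := mul_mem m (conj_mem_of_mem_normalizer (n (dd_SS j)) m)
    rwa [e, ← mul_assoc (dd j), dd_mul u hi, S_mul (mi_lt _ _) u hk, S_mul hi (mi_lt _ _) hk, Nat.xor_zero] at this
  have ce : ∀ {i k} l, i < 8 → l < 64 → dd i * ee k ∈ B → ee (ak i l ^^^ l) ∈ ⁅B, SS⁆ := fun {i k} l hi hl m =>
    cm_E hi hl k ▸ commutator_mem_commutator (inv_mem m) (EE_le (ee_EE l))
  have k : dd 2 ∈ B ∧ ee (ak 1 2 ^^^ 2) ∈ ⁅B, SS⁆ := by
    rcases d2 w lt v (c.trans b) (by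
      by_contra! z
      exact ne (le_E le fun i hi p => z i hi ((a i hi).2 p))) (fun i hi p => by
        obtain ⟨k, hk, m⟩ := (a i hi).1 p
        exact ⟨f _ (xor_lt (ak_lt hi (by decide)) (by decide)) (commutator_le_left_of_le_normalizer n (ce 4 hi (by decide) m)),
          fun j hj => (a _ (mi_lt _ _)).2 ⟨_, xor_lt (ak_lt (mi_lt _ _) hk) (ak_lt (by simp at hj; omega) hk),
            cj hi hk hj m⟩⟩) with rfl | rfl
    · obtain ⟨k, hk, m⟩ := (a 2 (by decide)).1 (by decide)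
      have d := d (le_trans (by decide +kernel) c)
      refine ⟨(mul_mem_cancel_right (d k hk ((by decide +kernel : ∀ k < 64, ak 2 k = k → fx 5 k) k hk
        (S_sq (by decide) hk (s _ m))))).1 m, ?_⟩
      exact cm_E' (i := 1) (l := 2) (by decide) (by decide) ▸ commutator_mem_commutator (d 2 (by decide) (by decide +kernel))
        (inv_mem (mul_mem (dd_SS 1) (EE_le (ee_EE 0))))
    · obtain ⟨k, hk, m⟩ := (a 1 (by decide)).1 (by decide)
      have d := d (le_trans (by decide +kernel) c)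
      have u := cj (j := 4) (by decide) hk (by simp) m
      rw [show mi (mi 4 1) 4 = 3 by decide +kernel, show mi 1 3 = 2 by decide +kernel] at u
      have q : ak 3 k ^^^ ak 4 k < 64 := xor_lt (ak_lt (by decide) hk) (ak_lt (by decide) hk)
      exact ⟨(mul_mem_cancel_right (d _ q ((by decide +kernel : ∀ k < 64, ak 2 (ak 3 k ^^^ ak 4 k) = ak 3 k ^^^ ak 4 k →
        ak 1 k = k → fx 15 (ak 3 k ^^^ ak 4 k)) k hk (S_sq (by decide) q (s _ u)) (S_sq (by decide) hk (s _ m))))).1 u,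
        ce 2 (by decide) (by decide) m⟩
  refine ⟨dd_val.2.2.1 ▸ k.1, ?_⟩
  rw [← dd_S] at k
  have := mul_mem (mul_mem k.2 (ce 4 (by decide) (by decide) k.1)) (ce 32 (by decide) (by decide) k.1)
  rwa [ee_mul, ee_mul, show _ ^^^ _ = 16 by decide +kernel, ee_val.2.2.2.2.2.1] at this

theorem c32 {m : Sp} (le : B ≤ EE) (n : SS ≤ 𝐍(B)) (c : 32 ≤ Nat.card B) (h : ∀ x ∈ B, m * x = x * m) : m ∈ EE := by
  by_cases e : EE ≤ B
  · exact C_EE fun x hx => h x (e hx)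
  have r : B.relIndex EE = 2 := by
    have a := card_mul_relIndex le
    have b : B.relIndex EE ≠ 1 := fun k => e (relIndex_eq_one.1 k)
    rw [card_EE] at a
    generalize B.relIndex EE = r at a b
    rcases r with _ | _ | _ | r <;> first | rfl | omega | nlinarith
  have k : ∀ i < 8, ∀ l < 64, m * ee (ak i l ^^^ l) = ee (ak i l ^^^ l) * m := fun i hi l hl =>
    h _ (commutator_le_of_relIndex_two r n (fun _ hx => mem_normalizer_of_conj_mem fun _ => EE_cj (SS_le hx)) (cm_E' hi hl ▸ commutator_mem_commutator (ee_EE l)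
      (inv_mem (mul_mem (dd_SS i) (EE_le (ee_EE 0))))))
  have k1 := k 1 (by decide) 2 (by decide)
  have k2 := k 2 (by decide) 4 (by decide)
  have k3 := k 2 (by decide) 32 (by decide)
  rw [show ak 1 2 ^^^ 2 = 1 ^^^ 8 by decide +kernel, ← ee_mul] at k1
  rw [show ak 2 4 ^^^ 4 = 1 ^^^ 16 by decide +kernel, ← ee_mul] at k2
  rw [show ak 2 32 ^^^ 32 = 8 by decide +kernel] at k3
  have a : m * ee 1 = ee 1 * m := mul_right_cancel (by rw [mul_assoc, k1, mul_assoc, mul_assoc, k3])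
  have b : m * ee 16 = ee 16 * m := mul_left_cancel (by rw [← mul_assoc, ← a, mul_assoc, k2, mul_assoc])
  obtain ⟨-, v1, -, -, v8, v16, -⟩ := ee_val
  rw [v1, τ_cm (by decide)] at a
  have p := (mem_P2.1 (C_b.1 (v8 ▸ k3))).2
  rw [v16, ← mul_inv_eq_iff_eq_mul, bb_cj m (by decide) (by decide), a] at b
  have q : ac m 4 < 8 := by
    have := congrArg (ac · 8) b
    simp only [ac_bb (by decide : 1 < 64) (ac_lt m 4) (by decide : 8 < 64),
      ac_bb (by decide : 1 < 64) (by decide : 4 < 64) (by decide : 8 < 64)] at this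
    exact (by decide +kernel : ∀ v < 64, tv 1 (tv v (tv (1 ^^^ v) 8)) = tv 1 (tv 4 (tv (1 ^^^ 4) 8)) → v < 8) _ (ac_lt m 4) this
  obtain ⟨i, hi, l, hl, rfl⟩ := mem_SS'.1 (mem_SS.2 ⟨a, p, q⟩)
  by_cases z : i = 0
  · rw [z, ee_S]; exact ee_EE l
  have : Nat.card B ≤ ((Finset.range 64).filter fun k => ak i k = k).card := by
    classical
    refine le_trans ?_ (Finset.card_image_le (f := ee))
    rw [← Set.ncard_coe_finset]
    refine Set.ncard_le_ncard (s := (B : Set Sp)) (fun x hx => ?_) (Finset.finite_toSet _)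
    obtain ⟨k, hk, rfl⟩ := mem_EE.1 (le hx)
    simp only [Finset.coe_image, Set.mem_image, Finset.mem_coe, Finset.mem_filter, Finset.mem_range]
    exact ⟨k, ⟨hk, ee_inj (ak_lt hi hk) hk (by rw [← S_cj hi hk l, mul_assoc, ← h _ hx, inv_mul_cancel_left])⟩, rfl⟩
  have := (by decide +kernel : ∀ i < 8, i ≠ 0 → ((Finset.range 64).filter fun k => ak i k = k).card ≤ 16) i hi z
  omega

theorem t4 {u v w x : ℕ} (a : u < 64 ∧ v < 64 ∧ w < 64 ∧ x < 64) (b : u ≠ 0 ∧ v ≠ 0 ∧ u ≠ v) (c : τ u * τ v = τ v * τ u)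
    (e : τ u * τ v = τ w * τ x) : w = u ∨ w = v := by
  obtain ⟨a1, a2, a3, a4⟩ := a
  rw [τ_cm a2, ac_tv a1 a2] at c
  obtain ⟨g, rfl, rfl⟩ := ex_2 a1 a2 b ((by decide +kernel : ∀ u < 64, ∀ v < 64, u ≠ 0 → tv u v = v → fm u v = 0) u a1 v a2 b.1 c)
  rw [← ac_inv' g a3, ← ac_inv' g a4, ← τ_cj g (ac_lt _ _), ← τ_cj g (ac_lt _ _), ← τ_cj g (by decide), ← τ_cj g (by decide),
    conj_mul, conj_mul, mul_left_inj, mul_right_inj] at e
  rw [← ac_inv' g a3]
  have p := ac_lt g⁻¹ w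
  have q := ac_lt g⁻¹ x
  generalize ac g⁻¹ w = w at *
  generalize ac g⁻¹ x = x at *
  refine ((by decide +kernel : ∀ w < 64, ∀ x < 64, (∀ y ∈ [8, 16, 32, 1, 2, 4], tv 1 (tv 2 y) = tv w (tv x y)) → w = 1 ∨ w = 2)
    w p x q fun y hy => ?_).imp (congrArg _) (congrArg _)
  have k : y < 64 := by simp at hy; omega
  rw [← ac_tv (by decide) (tv_lt (by decide) k), ← ac_tv (by decide) k, ← ac_mul, e, ac_mul, ac_tv q k, ac_tv p (tv_lt q k)]

theorem dd_MM (i : ℕ) : dd i ∈ MM := dd_lv i ▸ lv_MM (by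
  rw [show i % 2 = i % 8 % 2 by omega, show i / 2 % 4 = i % 8 / 2 % 4 by omega]
  exact (by decide +kernel : ∀ i < 8, ok (lc (1 + 8 * (2 + i % 2) + 64 * (4 + i / 2 % 4))) = true) _ (Nat.mod_lt _ (by decide)))

theorem l8 : ∃ u v ρ σ : MM, L8 u v ρ σ := by
  have o1 : ok (lc 177) = true := by decide +kernel
  have o2 : ok (lc 267) = true := by decide +kernel
  have z : dd 1 * dd 4 * (dd 1 * dd 4) = dd 2 := cd_inj (by simp only [cd_mul, cd_dd]; decide +kernel)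
  have key : ∀ m : MM, m ∈ Subgroup.closure {(⟨dd 1, dd_MM 1⟩ : MM), ⟨dd 4, dd_MM 4⟩} ↔ m.1 ∈ SS := fun m => by
    refine ⟨fun hm => (closure_le (SS.subgroupOf MM)).2 (by rintro _ (rfl | rfl) <;> exact dd_SS _) hm, fun hm => ?_⟩
    obtain ⟨i, hi, k, hk, e⟩ := mem_SS'.1 hm
    rw [MM_EE ((mul_mem_cancel_left (dd_MM i)).1 (e ▸ m.2)) (ee_EE k), mul_one] at e
    rw [← mem_map_iff_mem MM.subtype_injective, MonoidHom.map_closure, coe_subtype, e]
    generalize hK : (Subgroup.closure _ : Subgroup Sp) = K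
    have p1 : dd 1 ∈ K := hK ▸ subset_closure ⟨_, .inl rfl, rfl⟩
    have p4 : dd 4 ∈ K := hK ▸ subset_closure ⟨_, .inr rfl, rfl⟩
    have p : ∀ i ∈ [0, 1, 2, 4], dd i ∈ K := by
      simpa [p1, p4, dd_val.1] using z ▸ mul_mem (mul_mem p1 p4) (mul_mem p1 p4)
    obtain ⟨j, hj, l, hl, rfl⟩ := (by decide +kernel : ∀ i < 8, ∃ j ∈ [0, 1, 2, 4], ∃ l ∈ [0, 1, 2, 4], mi j l = i) i hi
    exact dd_mul (i := j) (j := l) (by simp at hj; omega) (by simp at hl; omega) ▸ mul_mem (p j hj) (p l hl)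
  refine ⟨⟨dd 1, dd_MM 1⟩, ⟨dd 4, dd_MM 4⟩, ⟨_, lv_MM o1⟩, ⟨_, lv_MM o2⟩, ?_, ?_, fun e => ?_, ?_, ?_, ?_, ?_, ?_, ?_, ?_, ?_, ?_,
    fun m e => ?_, fun m e => (key m).2 ?_, fun Q p le m hm => (key m).2 ?_⟩
  pick_goal 3
  · exact absurd (z.symm.trans (congrArg Subtype.val e)) (cd_ne (by rw [cd_dd, coe_one, cd_one]; decide +kernel))
  iterate 11
    refine Subtype.ext (cd_inj ?_)
    simp only [coe_mul, coe_inv, coe_one, cd_mul, cd_inv, cd_one, cd_dd, cd_lv o1, cd_lv o2]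
    decide +kernel
  · obtain ⟨m, hm⟩ := m
    obtain ⟨c, hc, o, rfl⟩ := mem_MM.1 hm
    have := congrArg (fun x : MM => cd x.1) e
    simp only [coe_mul, coe_one, cd_mul, cd_one, cd_lv o] at this
    refine ((by decide +kernel : ∀ c < 512, ok (lc c) = true → mu (lc c) (lc c) = c1 → lc c = c1 ∨ ∃ d ∈ [85, 93, 142, 94, 87, 143,
      99, 98, 84, 86, 161, 95, 140, 92, 141, 273, 177, 266, 106, 107, 267], ok (lc d) = true ∧
        mu (mu (lc d) (dc 2)) (iv (lc d)) = lc c) c hc o this).imp (fun a => Subtype.ext (cd_inj ?_)) fun ⟨d, _, a, b⟩ =>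
          ⟨⟨_, lv_MM a⟩, Subtype.ext (cd_inj ?_)⟩
    · rw [cd_lv o, a, coe_one, cd_one]
    · simp only [coe_mul, coe_inv, z, cd_mul, cd_inv, cd_dd, cd_lv o, cd_lv a, b]
  · obtain ⟨m, hm⟩ := m
    obtain ⟨c, hc, o, rfl⟩ := mem_MM.1 hm
    have := congrArg (fun x : MM => cd x.1) e
    simp only [coe_mul, z, cd_mul, cd_dd, cd_lv o] at this
    simp only [mem_SS, ac_cd, cd_lv o]
    exact (by decide +kernel : ∀ c < 512, ok (lc c) = true → mu (lc c) (dc 2) = mu (dc 2) (lc c) →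
      ap (lc c) 1 = 1 ∧ ap (lc c) 2 < 4 ∧ ap (lc c) 4 < 8) c hc o this
  · refine SS_max ((p.map MM.subtype).to_sup_of_normal_right' (SS_p.to_le EE_le) ?_) (fun x hx => ?_)
      (mem_sup_left ⟨m, hm, rfl⟩)
    · rintro _ ⟨x, -, rfl⟩
      exact mem_normalizer_of_conj_mem fun _ => EE_cj x.2.1
    · obtain ⟨i, -, k, -, rfl⟩ := mem_SS'.1 hx
      exact mul_mem_sup ⟨⟨_, dd_MM i⟩, le ((key _).2 (dd_SS i)), rfl⟩ (ee_EE k)

end CF.Ft
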