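import Cfsg.Agent.Ft.U
import Cfsg.Agent.Ft.M2b

/-! Rigidity. -/

set_option autoImplicit false
set_option linter.unusedSectionVars false
set_option linter.unusedVariables false

namespace CF.Ft

open Cfsg Subgroup CF.Loc U
open scoped commutatorElement

variable {G : Type*} [Group G] [Finite G] {ι : Sp →* G} {t g v : G} {m : Sp} {X : Subgroup Sp} {U V W : Subgroup G}

theorem U.idx2 {A : Type*} [Group A] {H K : Subgroup A} (h : ∀ a ∈ K, ∀ b ∈ K, a ∉ H → b ∉ H → a * b ∈ H) : H.relIndex K ≤ 2 := by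
  by_cases e : K ≤ H
  · rw [relIndex_eq_one.2 e]; norm_num
  obtain ⟨w, hw, nw⟩ := SetLike.not_le_iff_exists.1 e
  exact (relIndex_eq_two_iff_exists_notMem_and.2 ⟨w, hw, nw, fun b hb => or_iff_not_imp_right.2 fun nb => h b hb w hw nb nw⟩).le

theorem U.s23 : ∃ q : Sp, q * bb 1 4 * q⁻¹ = bb 1 2 ∧ q * bb 1 32 * q⁻¹ = bb 1 16 :=
  have := cd_lv (by decide +kernel : ok (lc 161) = true)
  ⟨lv 161, cd_inj (by rw [cd_mul, cd_mul, cd_inv, cd_bb, cd_bb, this]; decide +kernel),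
    cd_inj (by rw [cd_mul, cd_mul, cd_inv, cd_bb, cd_bb, this]; decide +kernel)⟩
theorem U.x13 : ∃ s : Sp, s * bb 1 2 * s⁻¹ = bb 1 32 :=
  let ⟨s, s₁, s₂⟩ := ex_2 (u := 1) (v := 32) (by decide) (by decide) (by decide) (by decide)
  ⟨s, by rw [bb_cj s (by decide) (by decide), s₁, s₂]⟩

/-- an elementary abelian group without conjugates of `t` normalised by `T` -/
structure Wd (ι : Sp →* G) (t : G) (W : Subgroup G) : Prop where
  sq : ∀ x ∈ W, x * x = 1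
  nD : ∀ x ∈ W, ¬ Dt t x
  nt : t ∈ 𝐍(W)
  nS : ∀ m ∈ SS, ι m ∈ 𝐍(W)

theorem Us.wd (u : Us ι t U X) (c : Ct ι t) (a : ∀ x ∈ Tm ι t SS, g * x * g⁻¹ ∈ 𝐍(U)) : Wd ι t (cj[g⁻¹] U) := by
  have k : ∀ x ∈ Tm ι t SS, x ∈ 𝐍(cj[g⁻¹] U) := fun x i => by rw [← cj_normalizer, mem_cj, inv_inv]; exact a x i
  refine ⟨fun x i => ?_, fun x i ⟨h, e⟩ => u.nD c (mem_cj.1 i) ⟨g * h, by rw [← e]; group⟩, k t (mem_sup_left (mem_zpowers t)),
    fun m i => k _ (c.mem_Tm.2 ⟨m, i, .inl rfl⟩)⟩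
  simpa [mul_assoc] using sqj (u.sq _ (mem_cj.1 i)) g⁻¹

namespace Wd
variable (w : Wd ι t W) (c : Ct ι t)
include w
theorem tW : t ∉ W := fun i => w.nD t i ⟨1, by simp⟩
include c
theorem tr (i : v ∈ W) : ∃ m, ι m ∈ W ∧ v * t * v⁻¹ = t * ι m := by
  have j : t * (v * t * v⁻¹) ∈ W := by
    simpa [c.ti, mul_assoc] using mul_mem (conj_mem_of_mem_normalizer w.nt i) (inv_mem i)
  obtain ⟨m, e | e⟩ := c.ct (t * (v * t * v⁻¹)) (by
    rw [← mul_assoc t t, c.tt, one_mul, ← si (w.sq _ j), mul_inv_rev, c.ti, si (sqj c.tt v), mul_assoc _ t t, c.tt, mul_one])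
  · exact ⟨m, e ▸ j, by rw [← e, ← mul_assoc, c.tt, one_mul]⟩
  · exact (c.nD m ⟨v, mul_left_cancel e⟩).elim
theorem card : Nat.card W = Nat.card (c.Bb W) * Nat.card (c.Xx w.sq) := c.cardW w.sq w.tW fun _ => w.tr c
theorem XB : c.Xx w.sq ≤ c.Bb W := fun _ i => .inl i.1
theorem sqB (i : m ∈ c.Bb W) : m * m = 1 := c.inj (by
  rcases i with i | i <;> have := w.sq _ i
  · rw [map_mul, this, map_one]
  · rwa [mul_assoc, ← mul_assoc (ι m), ← c.cm, mul_assoc, ← mul_assoc t, c.tt, one_mul, ← map_mul, ← map_one ι] at this)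
theorem nB : SS ≤ 𝐍(c.Bb W) := fun s j => mem_normalizer_of_conj_mem fun m i => i.imp (fun i => by
    simpa using conj_mem_of_mem_normalizer (w.nS s j) i) fun i => by
  simpa [← mul_assoc, ← c.cm] using conj_mem_of_mem_normalizer (w.nS s j) i
theorem nX : SS ≤ 𝐍(c.Xx w.sq) := fun s j => mem_normalizer_of_conj_mem fun m ⟨i, v, a, e⟩ =>
  ⟨by simpa using conj_mem_of_mem_normalizer (w.nS s j) i, _, conj_mem_of_mem_normalizer (w.nS s j) a, by
    have := c.tcj s⁻¹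
    rw [map_inv] at this
    calc _ = ι s * (v * ((ι s)⁻¹ * t * (ι s)⁻¹⁻¹) * v⁻¹) * (ι s)⁻¹ := by group
      _ = ι s * t * (ι s)⁻¹ * (ι s * ι m * (ι s)⁻¹) := by rw [this, e]; group
      _ = _ := by rw [c.tcj, map_mul, map_mul, map_inv]⟩
theorem BS : c.Bb W ≤ SS := le_sup_right.trans (SS_max (SS_p.to_sup_of_normal_right' (isPGroup_iff_forall.2 fun m i =>
  ⟨1, (pow_two m).trans (w.sqB c i)⟩) (w.nB c)) le_sup_left)
theorem mD (i : m ∈ c.Bb W) (d : Dt t (t * ι m)) : ι m ∈ W := i.resolve_right fun j => w.nD _ j d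
theorem cle : Nat.card (c.Xx w.sq) ≤ Nat.card (c.Bb W) := card_le_of_le (w.XB c)
end Wd

namespace Us
theorem dt0 (u : Us ι t U EE) (c : Ct ι t) (k : C3 ι t) (a : ∀ x ∈ Tm ι t SS, g * x * g⁻¹ ∈ 𝐍(U)) : g ∈ 𝐍(U) := by
  have w := u.wd c a
  have n := w.card c
  rw [card_cj, u.card c, card_EE] at n
  have := w.cle c
  have l : 64 ≤ Nat.card (c.Bb (cj[g⁻¹] U)) := by nlinarith
  have e : c.Bb (cj[g⁻¹] U) = EE := eq_of_le_of_card_ge (jS (fun _ => w.sqB c) (w.BS c) (by omega)) (card_EE ▸ l)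
  refine inv_mem_iff.1 (mem_normalizer_of_cj_le fun v i => ?_)
  obtain ⟨m, j, r⟩ := w.tr c i
  by_cases m1 : m = 1
  · obtain ⟨p, rfl | rfl⟩ := c.ct v (mul_inv_eq_iff_eq_mul.1 (by simpa [m1] using r))
    exacts [u.le p (e.le (.inl i)), (w.nD _ i (k p (EE_sq (e.le (.inr i))))).elim]
  · exact u.mem c (w.sq v i) (e.le (.inl j)) m1 ⟨fun p o => elc w.sq i (w.mD c (e.ge o) (k p (EE_sq o))), r⟩
variable (u : Us ι t V AL) (c : Ct ι t)
include u c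
theorem p9 (k : C2 ι t) : P9 ι t V := fun B sq n w x i => by
  obtain ⟨β, j, d⟩ := w x i
  by_cases r : β = 1
  · obtain ⟨e, l, rfl | rfl⟩ := c.cA (mul_inv_eq_iff_eq_mul.1 (by simpa [r] using d.2)) d.1
    · exact u.le e l
    have := c.rk (B := B) (s := t) ⟨1, by simp⟩ sq fun y o => mul_right_cancel (b := ι e) (by
      obtain ⟨_, -, d⟩ := w y o
      rw [mul_assoc, elc sq o i, mul_assoc, mul_assoc, d.1 e l])
    omega
  · exact u.mem c (sq x i) (k β j ⟨x, d.2⟩) r d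
theorem dtA (w : Wd ι t W) (n : 512 = Nat.card (c.Bb W) * Nat.card (c.Xx w.sq)) (l : 32 ≤ Nat.card (c.Bb W))
    (k : C2 ι t ∨ C3 ι t) (e : c.Bb W ≤ EE) : 32 ≤ Nat.card (W.comap ι) := by
  obtain k | k := k
  · have := card_le_of_le (K := AL) (H := c.Xx w.sq) fun m i => k m (e (w.XB c i)) (let ⟨v, _, r⟩ := i.2; ⟨v, r⟩)
    have r : Nat.card (c.Bb W) ≤ 2 * Nat.card (W.comap ι) := by
      rw [← ((W.comap ι).subgroupOf (c.Bb W)).card_mul_index, Nat.card_congr (subgroupOfEquivOfLe (fun m i => Or.inl i :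
        W.comap ι ≤ c.Bb W)).toEquiv, mul_comm]
      refine Nat.mul_le_mul_right _ (idx2 fun a a' b b' i j => ?_)
      have := mul_mem (a'.resolve_left i) (b'.resolve_left j)
      rwa [mul_assoc, ← mul_assoc (ι a), ← c.cm, mul_assoc, ← mul_assoc t, c.tt, one_mul, ← map_mul] at this
    rw [card_AL] at this
    have := Nat.mul_le_mul r this
    omega
  · exact l.trans (card_le_of_le fun m i => w.mD c i (k m (w.sqB c i)))
theorem dtB (w : Wd ι t W) (l' : 32 ≤ Nat.card (W.comap ι)) (k : C2 ι t ∨ (C3 ι t ∧ ∀ e ∈ EE, ∃ w, Tr ι t w e))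
    (le : W.comap ι ≤ EE) (i : v ∈ W) : W1 ι t v := by
  obtain ⟨m, j, r⟩ := w.tr c i
  obtain ⟨y, d⟩ : ∃ y, Tr ι t y m := k.elim (fun k => (u.ex' c (k m (le j) ⟨v, r⟩)).imp fun _ h => h.2) fun k => k.2 m (le j)
  obtain ⟨q, o⟩ := c.ct (y⁻¹ * v) (by rw [mul_assoc, mul_inv_eq_iff_eq_mul.1 (r.trans d.2.symm)]; group)
  have z : q ∈ EE := c32 le (fun s i => mem_normalizer_of_conj_mem fun m j => by
      simpa using conj_mem_of_mem_normalizer (w.nS s i) j) l' fun b h => c.inj (by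
    have : y⁻¹ * v * ι b = ι b * (y⁻¹ * v) := by
      rw [mul_assoc, elc w.sq i h, ← mul_assoc, (show Commute y (ι b) from d.1 b (le h)).inv_left, mul_assoc]
    rw [map_mul, map_mul]
    rcases o with o | o <;> rw [o] at this
    exacts [this, mul_left_cancel (a := t) (by rw [← mul_assoc, this, ← mul_assoc, ← mul_assoc, c.cm])])
  refine ⟨m, le j, fun b h => ?_, r⟩
  have := (c.tr_E z).1 b h
  rcases o with o | o <;> rw [inv_mul_eq_iff_eq_mul.1 o, mul_assoc]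
  · rw [this, ← mul_assoc, d.1 b h, mul_assoc]
  · rw [mul_assoc, this, ← mul_assoc t, c.cm, mul_assoc, ← mul_assoc, d.1 b h, mul_assoc]
theorem dtC (n1 : N1 ι t) (w : Wd ι t W) (n : 512 = Nat.card (c.Bb W) * Nat.card (c.Xx w.sq)) (l : 32 ≤ Nat.card (c.Bb W)) :
    c.Bb W ≤ EE := by
  by_contra e
  have l' : Nat.card (c.Bb W) = 32 := le_antisymm (not_lt.1 fun r => e (jS (fun _ => w.sqB c) (w.BS c) r)) l
  obtain ⟨h1, h2⟩ := n5 (fun _ => w.sqB c) (w.BS c) (w.nB c) l e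
  have i2 : (c.Xx w.sq).relIndex (c.Bb W) = 2 := by
    have := ((c.Xx w.sq).subgroupOf (c.Bb W)).card_mul_index
    rw [Nat.card_congr (subgroupOfEquivOfLe (w.XB c)).toEquiv, l', show Nat.card (c.Xx w.sq) = 16 by rw [l'] at n; omega] at this
    change 16 * (c.Xx w.sq).relIndex (c.Bb W) = 32 at this
    omega
  have h3 : ⁅c.Bb W, SS⁆ ≤ c.Xx w.sq := commutator_le.2 fun b i s j => by
    have o := conj_mem_of_mem_normalizer (w.nB c j) (inv_mem i)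
    rw [show ⁅b, s⁆ = b * (s * b⁻¹ * s⁻¹) by rw [commutatorElement_def]; group]
    exact (mul_mem_iff_of_index_two i2 (a := ⟨b, i⟩) (b := ⟨_, o⟩)).2 ((inv_mem_iff (x := b)).symm.trans (mem_normalizer_iff.1 (w.nX c j) _))
  obtain ⟨v, i, r⟩ : ∃ v ∈ W, v * t * v⁻¹ = t * ι (bb 1 4) := (h3 h2).2
  obtain ⟨s, s₁⟩ := x13
  obtain ⟨y, -, d⟩ := u.ex _ bA
  have j := w.mD c h1 ⟨ι s * y, by
    rw [← s₁, show ι s * y * t * (ι s * y)⁻¹ = ι s * (y * t * y⁻¹) * (ι s)⁻¹ by group, d, ← mul_assoc, ← c.cm]; simp [mul_assoc]⟩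
  obtain ⟨q, e₁, e₂⟩ := s23
  refine (n1 (ι q * v * (ι q)⁻¹) ?_ ?_).elim
  · have := c.tcj q⁻¹
    rw [map_inv] at this
    calc _ = ι q * (v * ((ι q)⁻¹ * t * (ι q)⁻¹⁻¹) * v⁻¹) * (ι q)⁻¹ := by group
      _ = ι q * t * (ι q)⁻¹ * (ι q * ι (bb 1 4) * (ι q)⁻¹) := by rw [this, r]; group
      _ = _ := by rw [c.tcj, ← e₁, map_mul, map_mul, map_inv]
  · rw [← e₂, map_mul, map_mul, map_inv]
    simp only [mul_assoc, inv_mul_cancel_left]
    rw [← mul_assoc v, elc w.sq i j, mul_assoc]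
theorem dt (n1 : N1 ι t) (k : C2 ι t ∨ (C3 ι t ∧ ∀ e ∈ EE, ∃ w, Tr ι t w e)) (p : P9 ι t V)
    (a : ∀ x ∈ Tm ι t SS, g * x * g⁻¹ ∈ 𝐍(V)) : g ∈ 𝐍(V) := by
  have w := u.wd c a
  have n' : Nat.card (cj[g⁻¹] V) = 512 := by rw [card_cj, u.card c, card_AL]
  have n := n'.symm.trans (w.card c)
  have l : 32 ≤ Nat.card (c.Bb (cj[g⁻¹] V)) := not_lt.1 fun l =>
    (by decide +kernel : ∀ a < 32, ∀ b < 32, 512 ≠ a * b) _ l _ ((w.cle c).trans_lt l) n
  have e := u.dtC c n1 w n l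
  exact inv_mem_iff.1 (mem_normalizer_of_cj_le (p _ w.sq n'.ge fun v =>
    u.dtB c w (u.dtA c w n l (k.imp_right And.left) e) k fun m i => e (.inl i)))
end Us

end CF.Ft
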