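import Cfsg.Agent.Ft.M2a
import Cfsg.Agent.Ft.TR

/-! An involution with centraliser `2 × Sp₆(2)`: basics. -/

set_option autoImplicit false
set_option maxRecDepth 100000

namespace CF.Ft

open Cfsg Subgroup CF.Loc CF.Transfer

variable {G : Type*} [Group G] {ι : Sp →* G} {t g x y s n h : G} {m l : Sp} {X Y : Subgroup Sp} {B : Subgroup G}

/-- `x` is `m` up to `t` -/
def Im (ι : Sp →* G) (t x : G) (m : Sp) : Prop := x = ι m ∨ x = t * ι m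

/-- the projection of a subgroup -/
def Ct.bar (c : Ct ι t) (B : Subgroup G) : Subgroup Sp where
  carrier := {m | ι m ∈ B ∨ t * ι m ∈ B}
  one_mem' := .inl (by rw [map_one]; exact one_mem _)
  mul_mem' := fun {a b} p q => by
    have e : ∀ x, ι a * (t * x) = t * (ι a * x) := fun x => by rw [← mul_assoc, ← c.cm, mul_assoc]
    rw [Set.mem_setOf_eq, map_mul]
    rcases p with p | p <;> rcases q with q | q <;> have := mul_mem p q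
    · exact .inl this
    · exact .inr (e _ ▸ this)
    · exact .inr (mul_assoc t _ _ ▸ this)
    · exact .inl (by rwa [mul_assoc, e, ← mul_assoc, c.tt, one_mul] at this)
  inv_mem' := fun {a} p => p.imp (fun p => map_inv ι a ▸ inv_mem p) fun p => by
    have := inv_mem p
    rwa [mul_inv_rev, inv_eq_of_mul_eq_one_right c.tt, ← map_inv, ← c.cm] at this

theorem Dt.rfl : Dt t t := ⟨1, by simp⟩

theorem Dt.cj (d : Dt t s) (g : G) : Dt t (g * s * g⁻¹) := let ⟨k, e⟩ := d; ⟨g * k, by rw [← e]; group⟩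

theorem Dt.cj_iff : Dt t (g * s * g⁻¹) ↔ Dt t s := ⟨fun d => by simpa [mul_assoc] using d.cj g⁻¹, fun d => d.cj g⟩

theorem Im.of (m : Sp) : Im ι t (ι m) m := .inl rfl

theorem Im.of' (m : Sp) : Im ι t (t * ι m) m := .inr rfl

theorem Im.tt : Im ι t t 1 := .inr (by simp)

namespace Ct

variable (c : Ct ι t)
include c

theorem ti : t⁻¹ = t := inv_eq_of_mul_eq_one_right c.tt

theorem ttx (x : G) : t * (t * x) = x := by rw [← mul_assoc, c.tt, one_mul]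

theorem it (m : Sp) : ι m * t = t * ι m := (c.cm m).symm

theorem itx (m : Sp) (x : G) : ι m * (t * x) = t * (ι m * x) := by rw [← mul_assoc, c.it, mul_assoc]

theorem ii : ι m = ι l ↔ m = l := c.inj.eq_iff

theorem i1 : ι m = 1 ↔ m = 1 := map_eq_one_iff ι c.inj

theorem ne1 (m l : Sp) : t * ι m ≠ ι l := fun e => c.nt (l * m⁻¹) (by rw [map_mul, map_inv, ← e]; simp)

theorem t1 : t ≠ 1 := fun e => c.nt 1 (e.trans ι.map_one.symm)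

theorem ex (a : x * t = t * x) : ∃ m, Im ι t x m := c.ct x a

theorem sq (d : Dt t s) : s * s = 1 := by obtain ⟨g, rfl⟩ := d; rw [conj_mul, c.tt]; simp

theorem mul (a : Im ι t x m) (b : Im ι t y l) : Im ι t (x * y) (m * l) := by
  rcases a with rfl | rfl <;> rcases b with rfl | rfl <;> simp [Im, c.itx, c.ttx, mul_assoc]

theorem inv (a : Im ι t x m) : Im ι t x⁻¹ m⁻¹ := by
  rcases a with rfl | rfl
  exacts [.inl (by simp), .inr (by rw [mul_inv_rev, c.ti, ← map_inv, c.it])]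

theorem uq (a : Im ι t x m) (b : Im ι t x l) : m = l := by
  rcases a with rfl | rfl <;> rcases b with b | b
  exacts [c.inj b, absurd b.symm (c.ne1 _ _), absurd b (c.ne1 _ _), c.inj (mul_left_cancel b)]

theorem im_t (a : Im ι t x m) : x * t = t * x := by
  rcases a with rfl | rfl
  exacts [c.it m, by rw [mul_assoc, c.it]]

theorem cjt (a : Im ι t x m) : x * t * x⁻¹ = t := by rw [c.im_t a, mul_inv_cancel_right]

theorem cji (a : Im ι t x m) (l : Sp) : x * ι l * x⁻¹ = ι (m * l * m⁻¹) := by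
  rcases a with rfl | rfl
  · simp
  · rw [mul_inv_rev, c.ti, ← map_inv]
    simp only [mul_assoc, c.it, c.itx, c.ttx, map_mul]

theorem cjt' (a : Im ι t x m) (l : Sp) : x * (t * ι l) * x⁻¹ = t * ι (m * l * m⁻¹) := by
  rw [← conj_mul, c.cjt a, c.cji a]

theorem cj (a : Im ι t x m) (b : Im ι t y l) : Im ι t (x * y * x⁻¹) (m * l * m⁻¹) := c.mul (c.mul a b) (c.inv a)

theorem im_sq (a : Im ι t x m) : x * x = ι (m * m) := by
  rcases a with rfl | rfl <;> simp [c.itx, c.ttx, mul_assoc]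

theorem im_cm (a : Im ι t x m) (b : Im ι t y l) : x * y * x⁻¹ * y⁻¹ = ι (m * l * m⁻¹ * l⁻¹) := by
  rcases b with rfl | rfl
  · rw [c.cji a, ← map_inv, ← map_mul]
  · rw [c.cjt' a, mul_inv_rev, c.ti, ← map_inv, c.it, mul_assoc, c.itx, c.ttx, ← map_mul]

theorem cm_iff (a : Im ι t x m) (b : Im ι t y l) : x * y = y * x ↔ m * l = l * m := by
  rw [← mul_inv_eq_iff_eq_mul, ← mul_inv_eq_one, c.im_cm a b, c.i1, mul_inv_eq_one, mul_inv_eq_iff_eq_mul]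

theorem im_one (a : Im ι t x 1) : x = 1 ∨ x = t := by simpa [Im] using a

theorem mem_bar : m ∈ c.bar B ↔ ∃ x ∈ B, Im ι t x m :=
  ⟨fun a => a.elim (fun a => ⟨_, a, .of m⟩) fun a => ⟨_, a, .of' m⟩, by
    rintro ⟨_, a, rfl | rfl⟩
    exacts [.inl a, .inr a]⟩

theorem mem_Tm : x ∈ Tm ι t X ↔ ∃ m ∈ X, x = ι m ∨ x = t * ι m := by
  let K : Subgroup G :=
    { carrier := {x | ∃ m ∈ X, Im ι t x m}
      one_mem' := ⟨1, one_mem _, .inl (by simp)⟩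
      mul_mem' := fun ⟨_, a, b⟩ ⟨_, d, e⟩ => ⟨_, mul_mem a d, c.mul b e⟩
      inv_mem' := fun ⟨_, a, b⟩ => ⟨_, inv_mem a, c.inv b⟩ }
  refine ⟨fun a => (show Tm ι t X ≤ K from sup_le (zpowers_le.2 ⟨1, one_mem _, .tt⟩) ?_) a, ?_⟩
  · rintro _ ⟨m, a, rfl⟩
    exact ⟨m, a, .of m⟩
  · rintro ⟨m, a, rfl | rfl⟩
    exacts [mem_sup_right ⟨m, a, rfl⟩, mul_mem_sup (mem_zpowers t) ⟨m, a, rfl⟩]

theorem mem_Tm' : x ∈ Tm ι t X ↔ ∃ m ∈ X, Im ι t x m := c.mem_Tm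

theorem im_Tm (a : Im ι t x m) : x ∈ Tm ι t X ↔ m ∈ X :=
  c.mem_Tm'.trans ⟨fun ⟨_, b, d⟩ => c.uq a d ▸ b, fun b => ⟨m, b, a⟩⟩

theorem i_Tm : ι m ∈ Tm ι t X ↔ m ∈ X := c.im_Tm (.of m)

theorem ti_Tm : t * ι m ∈ Tm ι t X ↔ m ∈ X := c.im_Tm (.of' m)

theorem t_Tm : t ∈ Tm ι t X := (c.im_Tm .tt).2 (one_mem _)

theorem Tm_t (a : x ∈ Tm ι t X) : x * t = t * x := let ⟨_, _, b⟩ := c.mem_Tm'.1 a; c.im_t b

theorem le_Tm (a : ∀ x ∈ B, x * t = t * x) (b : c.bar B ≤ X) : B ≤ Tm ι t X := fun x hx =>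
  let ⟨_, e⟩ := c.ex (a x hx); (c.im_Tm e).2 (b (c.mem_bar.2 ⟨x, hx, e⟩))

theorem bar_le (a : B ≤ Tm ι t X) : c.bar B ≤ X := fun _ hm =>
  let ⟨_, d, e⟩ := c.mem_bar.1 hm; (c.im_Tm e).1 (a d)

theorem card_Tm : Nat.card (Tm ι t X) = 2 * Nat.card X := by
  rw [← Nat.card_congr (Equiv.ofBijective (Sum.elim (fun m : X => (⟨ι m.1, c.i_Tm.2 m.2⟩ : Tm ι t X))
    fun m : X => ⟨t * ι m.1, c.ti_Tm.2 m.2⟩) ⟨?_, fun ⟨x, hx⟩ => ?_⟩), Nat.card_sum, two_mul]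
  · rintro (a | a) (b | b) e <;> replace e := congrArg Subtype.val e
    exacts [congrArg _ (Subtype.ext (c.inj e)), absurd e.symm (c.ne1 _ _), absurd e (c.ne1 _ _),
      congrArg _ (Subtype.ext (c.inj (mul_left_cancel e)))]
  · obtain ⟨m, a, rfl | rfl⟩ := c.mem_Tm.1 hx
    exacts [⟨.inl ⟨m, a⟩, rfl⟩, ⟨.inr ⟨m, a⟩, rfl⟩]

theorem p_Tm (p : IsPGroup 2 X) : IsPGroup 2 (Tm ι t X) :=
  (Loc.isPGroup_zpowers (k := 1) (by rw [pow_one, pow_two, c.tt])).to_sup_of_normal_left' (p.map ι) (by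
    rintro _ ⟨m, -, rfl⟩
    exact centralizer_le_normalizer _ (centralizer_zpowers t ▸ mem_centralizer_singleton_iff.2 (c.it m)))

theorem p_bar (p : IsPGroup 2 B) : IsPGroup 2 (c.bar B) := isPGroup_iff_forall.2 fun m hm => by
  obtain ⟨x, a, b⟩ := c.mem_bar.1 hm
  obtain ⟨k, e⟩ := isPGroup_iff_forall.1 p x a
  exact ⟨k + 1, c.i1.1 (by rw [pow_succ', pow_mul, map_pow, pow_two, ← c.im_sq b, ← pow_two, ← pow_mul, mul_comm, pow_mul, e,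
    one_pow])⟩

theorem sq_bar (a : ∀ x ∈ B, x * x = 1) : ∀ m ∈ c.bar B, m * m = 1 := fun _ hm =>
  let ⟨x, d, e⟩ := c.mem_bar.1 hm; c.i1.1 ((c.im_sq e).symm.trans (a x d))

theorem A_sq (a : x ∈ Tm ι t EE) : x * x = 1 := by
  obtain ⟨m, b, d⟩ := c.mem_Tm'.1 a
  rw [c.im_sq d, EE_sq b, map_one]

theorem A_cm (a : x ∈ Tm ι t EE) (b : y ∈ Tm ι t EE) : x * y = y * x :=
  let ⟨_, d, e⟩ := c.mem_Tm'.1 a; let ⟨_, d', e'⟩ := c.mem_Tm'.1 b; (c.cm_iff e e').2 (EE_cm d d')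

theorem card_A : Nat.card (Tm ι t EE) = 128 := by rw [c.card_Tm, card_EE]

/-- the action of the normaliser of `⟨t⟩ X` -/
theorem nor (a : n ∈ 𝐍(Tm ι t X)) (b : m ∈ X) : ∃ l ∈ X, Im ι t (n * ι m * n⁻¹) l :=
  c.mem_Tm'.1 (Loc.conj_mem_of_mem_normalizer a (c.i_Tm.2 b))

theorem cA (a : x * t = t * x) (b : Cz ι EE x) : ∃ e ∈ EE, x = ι e ∨ x = t * ι e :=
  let ⟨m, e⟩ := c.ex a; ⟨m, C_EE fun l hl => (c.cm_iff e (.of l)).1 (b l hl), e⟩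

theorem nP (a : Im ι t x m) (b : x ∈ 𝐍(Tm ι t EE)) : m ∈ PP := N_EE fun _ hl =>
  c.i_Tm.1 (c.cji a _ ▸ Loc.conj_mem_of_mem_normalizer b (c.i_Tm.2 hl))

variable [Finite G]

theorem nX (a : Im ι t x m) (b : ∀ l ∈ X, m * l * m⁻¹ ∈ X) : x ∈ 𝐍(Tm ι t X) :=
  mem_normalizer_of_conj_mem fun _ hy => let ⟨l, d, e⟩ := c.mem_Tm'.1 hy; (c.im_Tm (c.cj a e)).2 (b l d)

theorem nP' (a : Im ι t x m) (b : m ∈ PP) : x ∈ 𝐍(Tm ι t EE) := c.nX a fun _ => EE_cj b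

theorem card_le (a : ∀ x ∈ B, x * t = t * x) : Nat.card B ≤ 2 * Nat.card (c.bar B) :=
  c.card_Tm ▸ card_le_of_le (c.le_Tm a le_rfl)

theorem syl : IsSylowIn 2 (Tm ι t SS) (centralizer {t}) :=
  isSylowIn_of_maximal (c.p_Tm SS_p) (fun _ a => mem_centralizer_singleton_iff.2 (c.Tm_t a)) fun _ p a b =>
    c.le_Tm (fun _ hx => mem_centralizer_singleton_iff.1 (b hx)) (SS_max (c.p_bar p) fun _ hm => .inl (a (c.i_Tm.2 hm)))

omit c [Finite G] in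
theorem back (cm : ∀ x ∈ B, x * (g * t * g⁻¹) = g * t * g⁻¹ * x) : ∀ x ∈ cj[g⁻¹] B, x * t = t * x := by
  rintro _ ⟨x, hx, rfl⟩
  calc _ = g⁻¹ * (x * (g * t * g⁻¹)) * g := by simp [mul_assoc]
    _ = _ := by rw [cm x hx]; simp [mul_assoc]

omit c [Finite G] in
theorem sq_cj (g : G) (sq : ∀ x ∈ B, x * x = 1) : ∀ x ∈ cj[g] B, x * x = 1 := by
  rintro _ ⟨x, hx, rfl⟩
  rw [← map_mul, sq x hx, map_one]

theorem rk (d : Dt t s) (sq : ∀ x ∈ B, x * x = 1) (cm : ∀ x ∈ B, x * s = s * x) : Nat.card B ≤ 128 := by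
  obtain ⟨g, rfl⟩ := d
  have := c.card_le (back cm)
  have := jL (c.sq_bar (sq_cj g⁻¹ sq))
  rw [← Loc.card_cj g⁻¹]
  omega

theorem jA (a : g * t * g⁻¹ = s) (sq : ∀ x ∈ B, x * x = 1) (cm : ∀ x ∈ B, x * s = s * x) (k : 128 ≤ Nat.card B) :
    ∃ n, n * t * n⁻¹ = s ∧ cj[n] (Tm ι t EE) = B := by
  subst a
  have a := c.card_le (back cm)
  rw [Loc.card_cj] at a
  obtain ⟨l, e⟩ := jL' (c.sq_bar (sq_cj g⁻¹ sq)) (by omega)
  refine ⟨g * (ι l)⁻¹, by rw [mul_assoc g, ← map_inv, c.it]; simp [mul_assoc], (eq_of_le_of_card_ge (fun x hx => ?_)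
    (by rwa [Loc.card_cj, c.card_A])).symm⟩
  have m : g⁻¹ * x * g⁻¹⁻¹ ∈ cj[g⁻¹] B := Loc.conj_mem_cj _ hx
  obtain ⟨u, b⟩ := c.ex (back cm _ m)
  have := (c.im_Tm (c.cj (.of l) b)).2 ((e u).1 (c.mem_bar.2 ⟨_, m, b⟩))
  rw [Loc.mem_cj]
  simpa [mul_assoc] using this

theorem nA (a : s ∈ Tm ι t EE) (d : Dt t s) : ∃ n ∈ 𝐍(Tm ι t EE), n * t * n⁻¹ = s :=
  let ⟨_, e⟩ := d
  let ⟨n, b, k⟩ := c.jA e (fun _ => c.A_sq) (fun _ hx => c.A_cm hx a) c.card_A.ge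
  ⟨n, Loc.cj_eq_self_iff.1 k, b⟩

theorem ny (z : ∀ m' ∈ SS, m * m' = m' * m) (d : Dt t (t * ι m)) : ∃ y ∈ 𝐍(Tm ι t SS), y * t * y⁻¹ = t * ι m := by
  obtain ⟨g, e⟩ := d
  have a := c.syl.cj g
  rw [show Transfer.cj g (centralizer {t}) = _ from cj_centralizer_singleton g t, e] at a
  obtain ⟨k, hk, b⟩ := a.exists_cj_eq (a.of_card_ge c.syl.isPGroup (fun x hx => by
    obtain ⟨l, d, b⟩ := c.mem_Tm'.1 hx
    exact mem_centralizer_singleton_iff.2 ((c.cm_iff b (.of' m)).2 (z l d).symm)) (Loc.card_cj g _).le)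
  refine ⟨k * g, mem_normalizer_iff_cj.2 (by rw [Transfer.cj_mul, b]), ?_⟩
  rw [show k * g * t * (k * g)⁻¹ = k * (g * t * g⁻¹) * k⁻¹ by group, e, mem_centralizer_singleton_iff.1 hk,
    mul_inv_cancel_right]

theorem nTA (a : y ∈ 𝐍(Tm ι t SS)) : y ∈ 𝐍(Tm ι t EE) := by
  have le : cj[y] (Tm ι t EE) ≤ Tm ι t SS := cj_le_of_mem_normalizer a (sup_le_sup_left (map_mono EE_le) _)
  have k := c.card_le fun _ hx => c.Tm_t (le hx)
  rw [Loc.card_cj, c.card_A] at k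
  exact mem_normalizer_of_cj_le (c.le_Tm (fun _ hx => c.Tm_t (le hx))
    (jS (c.sq_bar (sq_cj y fun _ => c.A_sq)) (c.bar_le le) (by omega)))

end Ct

theorem mem_S (i : ℕ) (k : ℕ) (a : i < 8 := by decide) (b : k < 64 := by decide) : dd i * ee k ∈ SS :=
  mem_SS'.2 ⟨i, a, k, b, rfl⟩

theorem nsq_a (a : m ∈ SS) : m * m ≠ τ 1 := by
  obtain ⟨i, hi, k, hk, rfl⟩ := mem_SS'.1 a
  refine cd_ne ?_
  simp only [cd_mul, cd_dd, cd_ee, cd_τ]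
  clear a
  revert i k
  decide +kernel

theorem cm3 {e u v : Sp} (a : e ∈ EE) (b : u ∈ SS) (d : v ∈ SS) :
    e * u * e⁻¹ * u⁻¹ * v * (e * u * e⁻¹ * u⁻¹)⁻¹ * v⁻¹ ≠ τ 1 * bb 1 2 := by
  have k : ∀ {e u : Sp}, e ∈ EE → u ∈ SS → e * u * e⁻¹ * u⁻¹ ∈ EE ∧
      ∃ i < 8, e * u * e⁻¹ * u⁻¹ = e * dd i * e⁻¹ * (dd i)⁻¹ := fun {e u} a b => by
    refine ⟨by simpa only [mul_assoc] using mul_mem a (EE_cj (SS_le b) (inv_mem a)), ?_⟩
    obtain ⟨i, hi, k, hk, rfl⟩ := mem_SS'.1 b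
    refine ⟨i, hi, ?_⟩
    calc _ = e * dd i * (ee k * e⁻¹) * (ee k)⁻¹ * (dd i)⁻¹ := by group
      _ = _ := by rw [EE_cm (mem_EE.2 ⟨k, hk, rfl⟩) (inv_mem a)]; group
  obtain ⟨p, i, hi, q⟩ := k a b
  obtain ⟨-, j, hj, r⟩ := k p d
  obtain ⟨k, hk, rfl⟩ := mem_EE.1 a
  rw [r, q]
  refine cd_ne ?_
  simp only [cd_mul, cd_inv, cd_dd, cd_ee, cd_τ, cd_bb]
  clear * - hi hj hk
  revert i j k
  decide +kernel

theorem Ct.nT [Finite G] (c : Ct ι t) (a : y ∈ 𝐍(Tm ι t SS)) :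
    y * ι (τ 1) = ι (τ 1) * y ∧ y * ι (bb 1 2) = ι (bb 1 2) * y ∧ y ∈ 𝐍(Tm ι t EE) := by
  have b := c.nTA a
  have z : ∀ {u v}, (∀ m ∈ SS, u * m = m * u) → u ≠ 1 → y * ι u * y⁻¹ = ι v →
      v = τ 1 ∨ v = bb 1 2 ∨ v = τ 1 * bb 1 2 := fun {u v} p q e => (C_SS fun m hm => by
    obtain ⟨l, d, k⟩ := c.nor (inv_mem a) hm
    have := (c.cm_iff (.of u) k).2 (p l d)
    refine c.inj ?_
    rw [map_mul, map_mul, ← e]
    calc _ = y * (ι u * (y⁻¹ * ι m * y⁻¹⁻¹)) * y⁻¹ := by group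
      _ = _ := by rw [this]; group).resolve_left fun k => q (c.i1.1 (by simpa [k] using e))
  have cm : ∀ {u v u' v'}, Im ι t (y * ι u * y⁻¹) u' → Im ι t (y * ι v * y⁻¹) v' →
      y * ι (u * v * u⁻¹ * v⁻¹) * y⁻¹ = ι (u' * v' * u'⁻¹ * v'⁻¹) := fun p q => by
    rw [← c.im_cm p q]; simp [mul_assoc]
  have za : ∀ m ∈ SS, τ 1 * m = m * τ 1 := fun m hm => ((τ_cm (by decide)).2 (mem_SS.1 hm).1).symm
  have zb : ∀ m ∈ SS, bb 1 2 * m = m * bb 1 2 := fun m hm => (C_b.2 hm.1.2).symm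
  have ea : y * ι (τ 1) * y⁻¹ = ι (τ 1) := by
    obtain ⟨_, -, p1⟩ := c.nor a (mem_S 0 2)
    obtain ⟨_, -, p2⟩ := c.nor a (mem_S 1 0)
    obtain ⟨_, -, p3⟩ := c.nor a (mem_S 0 16)
    obtain ⟨_, -, p4⟩ := c.nor a (mem_S 4 0)
    have e := congrArg₂ (· * ·) (cm p1 p2) (cm p3 p4)
    simp only [conj_mul, ← map_mul] at e
    rw [show _ * _ = τ 1 from cd_inj (by simp only [cd_mul, cd_inv, cd_dd, cd_ee, cd_τ]; decide +kernel)] at e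
    have sq : ∀ {u v}, u ∈ SS → u * u = v → y * ι (τ 1) * y⁻¹ ≠ ι v := fun {u v} hu k e => by
      obtain ⟨l, d, p⟩ := c.nor (inv_mem a) hu
      refine nsq_a d (c.inj ?_)
      rw [← c.im_sq p, conj_mul, ← map_mul, k, ← e]
      group
    rcases z za (cd_ne (by rw [cd_τ, cd_one]; decide +kernel)) e with k | k | k <;> rw [k] at e
    · exact e
    · exact absurd e (sq (mem_S 4 16) (cd_inj (by simp only [cd_mul, cd_dd, cd_ee, cd_bb]; decide +kernel)))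
    · exact absurd e (sq (mem_S 1 2) (cd_inj (by simp only [cd_mul, cd_dd, cd_ee, cd_bb, cd_τ]; decide +kernel)))
  refine ⟨mul_inv_eq_iff_eq_mul.1 ea, mul_inv_eq_iff_eq_mul.1 ?_, b⟩
  obtain ⟨_, q1, p1⟩ := c.nor b (mem_EE.2 ⟨32, by decide, rfl⟩)
  obtain ⟨_, q2, p2⟩ := c.nor a (mem_S 1 0)
  obtain ⟨_, q3, p3⟩ := c.nor a (mem_S 4 0)
  have e := cm (.inl (cm p1 p2)) p3
  rw [show _ * _ = bb 1 2 from cd_inj (by simp only [cd_mul, cd_inv, cd_dd, cd_ee, cd_bb]; decide +kernel)] at e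
  rcases z zb (cd_ne (by rw [cd_bb, cd_one]; decide +kernel)) e with k | k | k
  · rw [k, ← ea, mul_left_inj, mul_right_inj, c.ii] at e
    exact absurd e (cd_ne (by rw [cd_τ, cd_bb]; decide +kernel))
  · rwa [k] at e
  · exact absurd k (cm3 q1 q2 q3)

end CF.Ft
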