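import Cfsg.Agent.Ft.F0

/-! An involution with centraliser `2 × Sp₆(2)`: the fusion pattern. -/

set_option autoImplicit false
set_option maxRecDepth 100000

namespace CF.Ft

open Cfsg Subgroup CF.Loc CF.Transfer

variable {G : Type*} [Group G] {ι : Sp →* G} {t g x y s n h : G} {m l : Sp} {X Y : Subgroup Sp} {B : Subgroup G}

namespace F1

/-- membership in the pattern `w` -/
def pb (w k : ℕ) : Bool := w.testBit (kl (k % 64) + 5 * (k / 64))

def n1 (w s : ℕ) : ℕ := ∑ x ∈ Finset.range 128, if pb w x && pb w (x ^^^ s) then 1 else 0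

def n2 (w s : ℕ) : ℕ := ∑ x ∈ Finset.range 128, if pb w x then n1 w (x ^^^ s) else 0

theorem d1 : ∀ w < 1024, (∀ i < 4, w.testBit i = false) → w.testBit 4 = true → w.testBit 5 = true →
    n1 w 12 ≠ n1 w 64 := by decide +kernel

theorem d2 : ∀ w < 1024, (∀ i ∈ [0, 1, 2, 3, 4, 7], w.testBit i = false) → w.testBit 5 = true →
    (∀ i ∈ [8, 9], w.testBit i = false) ∨ ∃ s ∈ [65, 73, 76], pb w s = true ∧ n2 w s ≠ n2 w 64 := by decide +kernel

theorem x128 {k l : ℕ} (a : k < 128) (b : l < 128) : k ^^^ l < 128 := Nat.xor_lt_two_pow (n := 7) a b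

theorem inv {w : ℕ} {φ : ℕ → ℕ} (lt : ∀ k < 128, φ k < 128) (ij : ∀ k < 128, ∀ l < 128, φ k = φ l → k = l)
    (ad : ∀ k < 128, ∀ l < 128, φ (k ^^^ l) = φ k ^^^ φ l) (p : ∀ k < 128, pb w (φ k) = pb w k) :
    (∀ s < 128, n1 w (φ s) = n1 w s) ∧ ∀ s < 128, n2 w (φ s) = n2 w s := by
  have k : ∀ f g : ℕ → ℕ, (∀ k < 128, f k = g (φ k)) → ∑ x ∈ Finset.range 128, f x = ∑ x ∈ Finset.range 128, g x :=
    fun f g e => by
      have a : ∀ k ∈ Finset.range 128, φ k ∈ Finset.range 128 := by simpa using lt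
      have b : Set.InjOn φ (Finset.range 128) := fun k hk l hl => ij k (by simpa using hk) l (by simpa using hl)
      exact Finset.sum_nbij φ a b (Finset.surjOn_of_injOn_of_card_le φ a b le_rfl) (by simpa using e)
  have a : ∀ s < 128, n1 w (φ s) = n1 w s := fun s hs =>
    (k _ _ fun x hx => by rw [← ad x hx s hs, p x hx, p _ (x128 hx hs)]).symm
  exact ⟨a, fun s hs => (k _ _ fun x hx => by rw [← ad x hx s hs, p x hx, a _ (x128 hx hs)]).symm⟩

/-- the elements of `A` -/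
def aa (ι : Sp →* G) (t : G) (k : ℕ) : G := t ^ (k / 64) * ι (ee (k % 64))

/-- representatives of the classes -/
def rp (ι : Sp →* G) (t : G) (i : ℕ) : G := t ^ (i / 5) * ι ([1, τ 1, bb 1 2, τ 1 * bb 1 2, τ 4 * bb 1 2].getD (i % 5) 1)

variable (c : Ct ι t)
include c

theorem aa_mul {k l : ℕ} (a : k < 128) (b : l < 128) : aa ι t (k ^^^ l) = aa ι t k * aa ι t l := by
  rw [aa, show 64 = 2 ^ 6 by rfl, Nat.xor_div_two_pow, Nat.xor_mod_two_pow, ← ee_mul, aa, aa]
  have : k / 64 < 2 := by omega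
  have : l / 64 < 2 := by omega
  generalize k / 64 = i at *
  generalize l / 64 = j at *
  interval_cases i <;> interval_cases j <;> simp [c.itx, c.ttx, mul_assoc]

theorem aa_im {k : ℕ} (a : k < 128) : Im ι t (aa ι t k) (ee (k % 64)) := by
  have : k / 64 < 2 := by omega
  rw [aa]
  generalize k / 64 = i at *
  interval_cases i <;> simp [Im]

theorem aa_inj {k l : ℕ} (a : k < 128) (b : l < 128) (e : aa ι t k = aa ι t l) : k = l := by
  have r := ee_inj (Nat.mod_lt _ (by decide)) (Nat.mod_lt _ (by decide)) (c.uq (aa_im c a) (e ▸ aa_im c b))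
  rw [aa, aa, r, mul_left_inj] at e
  have : k / 64 = l / 64 := by
    have : k / 64 < 2 := by omega
    have : l / 64 < 2 := by omega
    generalize k / 64 = i at *
    generalize l / 64 = j at *
    have := c.t1
    interval_cases i <;> interval_cases j <;> simp_all
  omega

theorem mem_A : x ∈ Tm ι t EE ↔ ∃ k < 128, aa ι t k = x := by
  refine ⟨fun a => ?_, fun ⟨k, a, e⟩ => e ▸ (c.im_Tm (aa_im c a)).2 (mem_EE.2 ⟨_, Nat.mod_lt _ (by decide), rfl⟩)⟩
  obtain ⟨_, b, e⟩ := c.mem_Tm.1 a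
  obtain ⟨k, d, rfl⟩ := mem_EE.1 b
  rcases e with rfl | rfl
  · exact ⟨k, by omega, by simp [aa, Nat.div_eq_of_lt d, Nat.mod_eq_of_lt d]⟩
  · exact ⟨k + 64, by omega, by simp [aa, Nat.div_eq_of_lt d, Nat.mod_eq_of_lt d]⟩

theorem pt [Finite G] : ∃ w < 1024, (∀ i < 10, w.testBit i = true ↔ Dt t (rp ι t i)) ∧
    (∀ k < 128, pb w k = true ↔ Dt t (aa ι t k)) ∧ ∀ s < 128, pb w s = true → n1 w s = n1 w 64 ∧ n2 w s = n2 w 64 := by
  classical
  have a : ∀ i < 10, (Nat.ofBits fun i : Fin 10 => decide (Dt t (rp ι t i))).testBit i = true ↔ Dt t (rp ι t i) :=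
    fun i hi => by rw [Nat.testBit_ofBits_lt _ _ hi, decide_eq_true_iff]
  have lt := Nat.ofBits_lt_two_pow fun i : Fin 10 => decide (Dt t (rp ι t i))
  generalize (Nat.ofBits fun i : Fin 10 => decide (Dt t (rp ι t i))) = w at a lt
  have b : ∀ k < 128, pb w k = true ↔ Dt t (aa ι t k) := fun k hk => by
    have u : k % 64 < 64 := Nat.mod_lt _ (by decide)
    have v := (by decide +kernel : ∀ k < 64, kl k < 5) _ u
    obtain ⟨l, -, e⟩ := cls_E u
    rw [pb, a _ (by omega), rp, show (kl (k % 64) + 5 * (k / 64)) / 5 = k / 64 by omega,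
      show (kl (k % 64) + 5 * (k / 64)) % 5 = kl (k % 64) by omega, ← e, aa, ← Dt.cj_iff (g := ι l) (s := _ * ι (ee _)), ← conj_mul,
      ← conj_pow, c.cjt (.of l), c.cji (.of l)]
  refine ⟨w, lt, a, b, fun s hs p => ?_⟩
  obtain ⟨n, hn, e⟩ := c.nA ((mem_A c).2 ⟨s, hs, rfl⟩) ((b s hs).1 p)
  have : ∀ k, ∃ l, k < 128 → l < 128 ∧ aa ι t l = n * aa ι t k * n⁻¹ := fun k => by
    by_cases hk : k < 128
    · exact ((mem_A c).1 (Loc.conj_mem_of_mem_normalizer hn ((mem_A c).2 ⟨k, hk, rfl⟩))).imp fun _ a _ => a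
    · exact ⟨0, fun a => absurd a hk⟩
  choose φ q using this
  have := inv (w := w) (fun k hk => (q k hk).1)
    (fun k hk l hl e => aa_inj c hk hl (mul_left_cancel (mul_right_cancel ((q k hk).2.symm.trans (e ▸ (q l hl).2)))))
    (fun k hk l hl => aa_inj c (q _ (x128 hk hl)).1 (x128 (q k hk).1 (q l hl).1) (by
      rw [aa_mul c (q k hk).1 (q l hl).1, (q _ (x128 hk hl)).2, (q k hk).2, (q l hl).2, aa_mul c hk hl, conj_mul]))
    fun k hk => Bool.eq_iff_iff.2 (by rw [b _ (q k hk).1, b k hk, (q k hk).2, Dt.cj_iff])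
  have r : φ 64 = s := aa_inj c (q 64 (by decide)).1 hs (by rw [(q 64 (by decide)).2, ← e]; simp [aa, ee_val.1])
  exact r ▸ ⟨this.1 64 (by decide), this.2 64 (by decide)⟩

theorem nsq (x : G) : ¬ Dt t (x * x) := fun ⟨g, e⟩ => by
  have a : g⁻¹ * x * g * (g⁻¹ * x * g) = t := by
    calc _ = g⁻¹ * (x * x) * g := by group
      _ = _ := by rw [← e]; group
  obtain ⟨m, b⟩ := c.ex (x := g⁻¹ * x * g) (a ▸ (mul_assoc _ _ _).symm)
  exact c.nt _ (a.symm.trans (c.im_sq b))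

theorem four : ∀ i < 4, ¬ Dt t (rp ι t i) := fun i hi => by
  interval_cases i
  · exact fun d => nsq c 1 (by simpa [rp] using d)
  · rintro ⟨g, e⟩
    have k : ∀ i < 8, ∀ k < 64, ∃ m, Im ι t (g⁻¹ * ι (dd i * ee k) * g) m := fun i hi k hk => c.ex (by
      have := congrArg ι ((τ_cm (by decide)).2 (mem_SS.1 (mem_S i k hi hk)).1)
      simp only [rp, Nat.reduceDiv, pow_zero, one_mul, Nat.reduceMod, List.getD_cons_succ, List.getD_cons_zero] at e
      rw [map_mul, map_mul (x := τ 1), ← e] at this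
      calc _ = g⁻¹ * (ι (dd i * ee k) * (g * t * g⁻¹)) * g := by group
        _ = _ := by rw [this]; group)
    obtain ⟨_, p1⟩ := k 0 (by decide) 2 (by decide)
    obtain ⟨_, p2⟩ := k 1 (by decide) 0 (by decide)
    obtain ⟨_, p3⟩ := k 0 (by decide) 16 (by decide)
    obtain ⟨_, p4⟩ := k 4 (by decide) 0 (by decide)
    refine c.nt _ (Eq.trans ?_ ((congrArg₂ (· * ·) (c.im_cm p1 p2) (c.im_cm p3 p4)).trans (map_mul ι _ _).symm))
    have u : τ 1 = dd 0 * ee 2 * (dd 1 * ee 0) * (dd 0 * ee 2)⁻¹ * (dd 1 * ee 0)⁻¹ *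
        (dd 0 * ee 16 * (dd 4 * ee 0) * (dd 0 * ee 16)⁻¹ * (dd 4 * ee 0)⁻¹) :=
      cd_inj (by simp only [cd_mul, cd_inv, cd_dd, cd_ee, cd_τ]; decide +kernel)
    simp only [rp, Nat.reduceDiv, pow_zero, one_mul, Nat.reduceMod, List.getD_cons_succ, List.getD_cons_zero] at e
    rw [show t = g⁻¹ * ι (τ 1) * g by rw [← e]; group, u]
    generalize dd 0 * ee 2 = u1, dd 1 * ee 0 = u2, dd 0 * ee 16 = u3, dd 4 * ee 0 = u4
    simp [mul_assoc]
  · have := nsq c (ι (dd 4 * ee 16))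
    rw [← map_mul, show _ * _ = bb 1 2 from cd_inj (by simp only [cd_mul, cd_dd, cd_ee, cd_bb]; decide +kernel)] at this
    simpa [rp] using this
  · have := nsq c (ι (dd 1 * ee 2))
    rw [← map_mul, show _ * _ = τ 1 * bb 1 2 from
      cd_inj (by simp only [cd_mul, cd_dd, cd_ee, cd_bb, cd_τ]; decide +kernel)] at this
    simpa [rp] using this

theorem five [Finite G] : ∀ i < 5, ¬ Dt t (rp ι t i) := fun i hi d => by
  by_cases k : i < 4
  · exact four c i k d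
  obtain rfl : i = 4 := by omega
  obtain ⟨w, lt, a, -, b⟩ := pt c
  have f : ∀ i < 4, w.testBit i = false := fun i hi => Bool.eq_false_iff.2 fun e => four c i hi ((a i (by omega)).1 e)
  have e := (a 4 (by decide)).2 d
  exact d1 w lt f e
    ((a 5 (by decide)).2 (by simpa [rp] using Dt.rfl)) (b 12 (by decide) e).1

theorem cl {u : G} (a : Im ι t u 1) (d : Dt t (u * ι m)) : ∃ g, ∃ i < 5,
    g * m * g⁻¹ = [1, τ 1, bb 1 2, τ 1 * bb 1 2, τ 4 * bb 1 2].getD i 1 ∧ Dt t (u * rp ι t i) := by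
  have b := c.mul a (.of m)
  obtain ⟨g, e⟩ := cls (m := m) (c.i1.1 (by simpa using (c.im_sq b).symm.trans (c.sq d)))
  have k : ι g * (u * ι m) * (ι g)⁻¹ = u * ι (g * m * g⁻¹) := by
    rw [← conj_mul, c.cji (.of g), ← (c.cm_iff a (.of g)).2 (by simp), mul_inv_cancel_right]
  have := k ▸ d.cj (ι g)
  rcases e with e | e | e | e | e <;> rw [e] at this
  exacts [⟨g, 0, by decide, e, by simpa [rp] using this⟩, ⟨g, 1, by decide, e, by simpa [rp] using this⟩,
    ⟨g, 2, by decide, e, by simpa [rp] using this⟩, ⟨g, 3, by decide, e, by simpa [rp] using this⟩,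
    ⟨g, 4, by decide, e, by simpa [rp] using this⟩]

end F1

open F1

namespace Ct

variable [Finite G] (c : Ct ι t)
include c

theorem nD (m : Sp) : ¬ Dt t (ι m) := fun d =>
  let ⟨_, i, a, _, b⟩ := cl c (u := 1) (m := m) (.inl (by simp)) (by rwa [one_mul])
  five c i a (one_mul (rp ι t i) ▸ b)

theorem im_D (a : Im ι t s m) (d : Dt t s) : s = t * ι m := a.resolve_left fun e => c.nD m (e ▸ d)

theorem nE (a : n ∈ 𝐍(Tm ι t EE)) (k : C3 ι t) (b : m ∈ EE) : ∃ e ∈ EE, n * ι m * n⁻¹ = ι e :=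
  let ⟨e, p, q⟩ := c.nor a b
  ⟨e, p, q.resolve_right fun r => c.nD m (Dt.cj_iff.1 (r ▸ k e (EE_sq p)))⟩

theorem comm_le : ⁅Tm ι t X, Tm ι t X⁆ ≤ X.map ι := commutator_le.2 fun _ a _ b =>
  let ⟨_, p, q⟩ := c.mem_Tm'.1 a
  let ⟨_, r, u⟩ := c.mem_Tm'.1 b
  ⟨_, mul_mem (mul_mem (mul_mem p r) (inv_mem p)) (inv_mem r), (c.im_cm q u).symm⟩

theorem pat : C1 ι t ∨ Dt t (t * ι (bb 1 2)) := or_iff_not_imp_right.2 fun nb => by
  obtain ⟨w, lt, a, b, d⟩ := pt c
  have f : ∀ i < 5, w.testBit i = false := fun i hi => Bool.eq_false_iff.2 fun e => five c i hi ((a i (by omega)).1 e)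
  have f7 : w.testBit 7 = false := Bool.eq_false_iff.2 fun e => nb (by simpa [rp] using (a 7 (by decide)).1 e)
  have f8 := (d2 w lt (by simp [f, f7]) ((a 5 (by decide)).2 (by simpa [rp] using Dt.rfl))).resolve_right fun ⟨s, hs, p, q⟩ =>
      q (d s ((by decide : ∀ s ∈ [65, 73, 76], s < 128) s hs) p).2
  have k : ∀ m, Dt t (t * ι m) → m = 1 ∨ Dt t (t * ι (τ 1)) ∧ ∃ v < 64, m = τ v := fun m p => by
    obtain ⟨g, i, hi, e, q⟩ := cl c .tt p
    have r : w.testBit (i + 5) = true := (a _ (by omega)).2 (by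
      simpa [rp, Nat.div_eq_of_lt hi, Nat.mod_eq_of_lt hi] using q)
    interval_cases i
    · exact .inl (conj_eq_one_iff.1 e)
    · refine .inr ⟨by simpa [rp] using q, _, ac_lt g⁻¹ 1, ?_⟩
      rw [← τ_cj g⁻¹ (by decide), ← show _ = τ 1 from e]
      group
    all_goals simp_all
  by_cases p : Dt t (t * ι (τ 1))
  · refine fun m => ⟨fun q => (k m q).elim (fun e => ⟨0, by decide, e.trans τ_zero.symm⟩) And.right, ?_⟩
    rintro ⟨v, hv, rfl⟩
    by_cases z : v = 0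
    · simpa [z, τ_zero] using Dt.rfl
    obtain ⟨g, rfl⟩ := ex_1 hv z
    rw [← τ_cj g (by decide), ← c.cjt' (.of g)]
    exact p.cj _
  obtain ⟨m, -, e⟩ := tr c.tt c.hd c.syl c.t_Tm le_rfl c.comm_le fun g hg => .inr ⟨1, one_mem _, by
    obtain ⟨m, -, q⟩ := c.mem_Tm'.1 (hg t c.t_Tm)
    have r := c.im_D q ⟨g, rfl⟩
    rw [r, (k m ⟨g, r⟩).resolve_right fun e => p e.1]
    simp⟩
  exact absurd e.symm (c.nt m)

end Ct

end CF.Ft
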