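import Cfsg.Agent.Ft.W2
import Cfsg.Agent.Ft.DT

/-! The case that `h` has order four. -/

set_option autoImplicit false
set_option linter.unusedSectionVars false
set_option linter.unusedVariables false
set_option synthInstance.maxSize 4000
set_option maxRecDepth 100000

namespace CF.Ft

open Cfsg Subgroup CF.Loc U W

attribute [local irreducible] ac cd el ee lv dd τ bb

variable {G : Type*} [Group G] [Finite G] {ι : Sp →* G} {t g x y n h s : G} {m p e β β' : Sp} {V : Subgroup G} {u w j : ℕ}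

theorem W.d6 : ∀ k ∈ [0, 1, 8, 9], cc (bc 4 16) (ec k) = ec k → k = 0 ∨ k = 1 := by decide +kernel
theorem W.d7 : ∀ k < 64, mu (mu (ec k) (bc 1 2)) (cc (bc 1 16) (ec k)) ≠ c1 := by decide +kernel
theorem W.d8 : ∀ x < 8, ∀ y < 8, ∀ z < 8, (∀ v ∈ [8, 16, 32], fm (tv x (tv y (tv z v))) v = 0) → z = x ^^^ y := by decide +kernel
theorem W.xsq : bb 1 16 * bb 1 16 = 1 ∧ bb 1 32 * bb 1 32 = 1 ∧ bb 2 32 * bb 2 32 = 1 ∧ bb 4 16 * bb 4 16 = 1 := by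
  refine ⟨cd_inj ?_, cd_inj ?_, cd_inj ?_, cd_inj ?_⟩ <;> simp only [cd_mul, cd_bb, cd_one] <;> decide +kernel
theorem W.bbe : bb 3 2 = bb 1 2 ∧ bb 2 1 = bb 1 2 ∧ bb 1 2 * bb 1 16 = bb 1 16 * bb 1 2 ∧ τ 3 * τ 2 * τ 1 = bb 1 2 := by
  refine ⟨cd_inj ?_, cd_inj ?_, cd_inj ?_, cd_inj ?_⟩ <;> simp only [cd_mul, cd_bb, cd_τ] <;> decide +kernel
theorem W.τA (a : w < 8) (i : τ w ∈ AL) : w = 0 := by
  have := (Al_AL (AL_le i)).2 i
  simp only [Al, ac_cd, cd_τ] at this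
  exact (by decide +kernel : ∀ w < 8, (∀ v < 64, fm (ap (tc (w % 64)) v) v = 0) → w = 0) w a this

theorem Ct.n1_of' (c : Ct ι t) (a : g * t * g⁻¹ = t * ι (bb 1 2)) (b : g * ι (bb 1 16) * g⁻¹ = ι (bb 1 16 * bb 1 2))
    (e : g * ι (bb 1 2) = ι (bb 1 2) * g) : N1 ι t := fun v d r => by
  obtain ⟨m, o⟩ := c.ex (x := v⁻¹ * g) (by rw [mul_assoc, mul_inv_eq_iff_eq_mul.1 (a.trans d.symm)]; group)
  have := c.cji o (bb 1 16 * bb 1 2)
  rw [map_mul, show v⁻¹ * g * (ι (bb 1 16) * ι (bb 1 2)) * (v⁻¹ * g)⁻¹ = v⁻¹ * (g * ι (bb 1 16) * g⁻¹ * (g * ι (bb 1 2) * g⁻¹)) * v by group,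
    b, cj_eq e, ← map_mul, mul_assoc (bb 1 16), EE_sq (AL_le bA), mul_one, mul_assoc, ← r, inv_mul_cancel_left] at this
  have q := Al_cj m⁻¹ (c.inj this ▸ (Al_iff.2 (by rw [cd_bb]; decide +kernel) : Al (bb 1 16)))
  rw [show m⁻¹ * (m * (bb 1 16 * bb 1 2) * m⁻¹) * m⁻¹⁻¹ = bb 1 16 * bb 1 2 by group, Al_iff, cd_mul, cd_bb, cd_bb] at q
  revert q; decide +kernel

namespace J1
variable (k : J1 ι t V h) (c : Ct ι t)
include k c
theorem H : Hh ι t V h 1 := ⟨by simpa using k.hh, k.ht, k.hc, mem_centralizer_iff'.2 fun x i => (k.hv x i).symm⟩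
theorem sq' (a : w < 8) : hw ι h w * hw ι h w = ι (τ w) := by simpa using (k.H c).sq k.toUs c a
theorem tr' (a : w < 8) : Tr ι t (hw ι h w) (τ w) := (k.H c).tr k.toUs c a
theorem cv (a : w < 8) : hw ι h w ∈ 𝐂(V) := (k.H c).cv k.toUs c a
theorem hv' (a : w < 8) (i : y ∈ V) : y * hw ι h w = hw ι h w * y := mem_centralizer_iff'.1 (k.cv c a) y i
theorem cm' (a : u < 8) (b : w < 8) : hw ι h u * hw ι h w = ι (bb u w) * (hw ι h w * hw ι h u) := by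
  simpa using (k.H c).cm k.toUs c a b
theorem gx : ι (bb 1 16) * (hw ι h 1 * hw ι h 2 * hw ι h 3) * (ι (bb 1 16))⁻¹ = ι (bb 1 2) * (hw ι h 1 * hw ι h 2 * hw ι h 3) := by
  rw [cjm, cjm, hw_cj k.hc xP.1.2 (by decide), hw_cj k.hc xP.1.2 (by decide), hw_cj k.hc xP.1.2 (by decide), acv.2.2.2.1, acv.2.2.2.2.1,
    acv.2.2.2.2.2.1, mul_assoc, k.cm' c (by decide) (by decide), bbe.1, ← mul_assoc, (k.tr' c (by decide)).1 _ (AL_le bA)]; group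
theorem n1 : N1 ι t := c.n1_of' ((k.H c).tr3 k.toUs c).2 (by
  have s := k.sq _ ((k.H c).gV k.toUs c)
  rw [si s, mul_assoc, mul_inv_eq_iff_eq_mul.1 (k.gx c), ← mul_assoc, ← mul_assoc, ((k.H c).tr3 k.toUs c).1 _ (AL_le bA),
    mul_assoc (ι _), s, mul_one, ← map_mul, bbe.2.2.1]) (((k.H c).tr3 k.toUs c).1 _ (AL_le bA))
theorem ex_w (a : m ∈ EE) : ∃ w, Tr ι t w m := let ⟨_, _, _, _, d⟩ := (k.H c).exK k.toUs c a; ⟨_, d⟩
theorem w1 (a : W1 ι t x) : ∃ w < 8, ∃ y ∈ V, x = hw ι h w * y ∨ x = hw ι h w * y * t := by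
  obtain ⟨β, i, d⟩ := a
  obtain ⟨w, b, y, j, d'⟩ := (k.H c).exK k.toUs c i
  obtain ⟨e, l, r⟩ := c.tr_A (d'.2.trans d.2.symm) d'.1 d.1
  exact ⟨w, b, _, mul_mem j (k.le e l), r.imp (fun r => by rw [r, mul_assoc]) fun r => by rw [r, c.cm]; group⟩
theorem hC (a : w < 8) (i : y ∈ V) : hw ι h w * y ∈ 𝐂(V) := mul_mem (k.cv c a) (k.VC c i)
theorem w0 (a : W1 ι t x) (i : x ∈ 𝐂(V)) : ∃ w < 8, ∃ y ∈ V, x = hw ι h w * y := by
  obtain ⟨w, b, y, j, r | rfl⟩ := k.w1 c a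
  exacts [⟨w, b, y, j, r⟩, (k.tC c ((mul_mem_cancel_left (k.hC c b j)).1 i)).elim]
theorem sqh (a : w < 8) (i : y ∈ V) : hw ι h w * y * (hw ι h w * y) = ι (τ w) := by
  rw [mul_assoc, ← mul_assoc y, k.hv' c a i, mul_assoc, k.sq y i, mul_one, k.sq' c a]
theorem invC (a : W1 ι t x) (i : x ∈ 𝐂(V)) (s : x * x = 1) : x ∈ V := by
  obtain ⟨w, b, y, j, rfl⟩ := k.w0 c a i
  rw [k.sqh c b j, ← map_one ι, ← τ_zero] at s
  rwa [τ_inj (by omega) (by decide) (c.inj s), hw_zero, one_mul]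
theorem p9 : P9 ι t V := fun B sq n w x i => by
  by_contra o
  have f : ∀ x ∈ B, x ∉ V → x * t ∈ 𝐂(V) := fun x i o => by
    obtain ⟨u, b, y, j, rfl | rfl⟩ := k.w1 c (w x i)
    exacts [(o (k.invC c (w _ i) (k.hC c b j) (sq _ i))).elim, by rw [mul_assoc, c.tt, mul_one]; exact k.hC c b j]
  have a : V.relIndex B ≤ 2 := idx2 fun a a' b b' i j => k.invC c (w _ (mul_mem a' b')) (by
    simpa [c.ti, mul_assoc, ← mul_assoc t t, c.tt] using mul_mem (f a a' i) (conj_mem_of_mem_normalizer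
      (normalizer_le_normalizer_centralizer _ (k.nt' c)) (f b b' j))) (sq _ (mul_mem a' b'))
  have b : Nat.card ↥(V ⊓ B) ≤ Nat.card (EE.map ι) := card_le_of_le fun y j => by
    obtain ⟨e, l, r⟩ := k.ct c j.1 (mul_left_cancel (a := x) (by
      rw [← mul_assoc, elc sq i j.2, mul_assoc, mem_centralizer_iff'.1 (f x i o) y j.1, mul_assoc]))
    exact ⟨e, l, r.symm⟩
  rw [card_map_of_injective c.inj, card_EE] at b
  have := ((V ⊓ B).subgroupOf B).card_mul_index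
  rw [Nat.card_congr (subgroupOfEquivOfLe inf_le_right).toEquiv, ← relIndex, inf_relIndex_right] at this
  have := Nat.mul_le_mul b a
  omega
theorem acth (a : u < 8) (b : w < 8) (i : y ∈ V) : hw ι h u * y * hw ι h w * (hw ι h u * y)⁻¹ = ι (bb u w) * hw ι h w := by
  rw [mul_assoc (hw ι h u), k.hv' c b i, ← mul_assoc, k.cm' c a b]; group
theorem act (a : u < 8) (b : w < 8) (i : y ∈ V) (j : β ∈ AL) (d : Tr ι t y β) :
    hw ι h u * y * (t * hw ι h w) * (hw ι h u * y)⁻¹ = t * hw ι h w * ι (τ u * β * bb u w) := by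
  rw [cjm, ((k.tr' c a).mul d (AL_le j)).2, k.acth c a b i, mul_assoc t, mul_assoc t, (k.tr' c b).1 _ (mul_mem (mul_mem (τE a) (AL_le j))
    (AL_le (bbA a b))), ← mul_assoc (ι _), ← map_mul]
theorem trK (b : w < 8) (i : e ∈ EE) : ∃ u < 8, ∃ y ∈ V, hw ι h u * y * (t * hw ι h w) * (hw ι h u * y)⁻¹ = t * hw ι h w * ι e := by
  obtain ⟨u, a, β, j, rfl⟩ := dec i
  obtain ⟨y, l, d⟩ := k.ex' c (mul_mem j (bbA a b))
  exact ⟨u, a, y, l, by rw [k.act c a b l (mul_mem j (bbA a b)) d, mul_assoc (τ u), mul_assoc β, EE_sq (AL_le (bbA a b)), mul_one]⟩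
theorem vw (nV : n ∈ 𝐍(V)) (cz : Cz ι EE n) (b : w < 8) (e : n * t * n⁻¹ = t * hw ι h w) (a : u < 8) :
    n⁻¹ * hw ι h u * n * (hw ι h u)⁻¹ ∈ V ∧ Tr ι t (n⁻¹ * hw ι h u * n * (hw ι h u)⁻¹) (bb u w) := by
  have i := mul_mem (τE a) (AL_le (bbA a b))
  have d : Tr ι t (n⁻¹ * hw ι h u * n) (τ u * bb u w) := ⟨(cz.inv.mul (k.tr' c a).1).mul cz, by
    have := k.act c a b (one_mem _) (one_mem _) (by simpa using c.tr_E (one_mem _))
    rw [mul_one, mul_one, ← e] at this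
    calc _ = n⁻¹ * (hw ι h u * (n * t * n⁻¹) * (hw ι h u)⁻¹) * n := by group
      _ = t * (n⁻¹ * (ι (τ u * bb u w) * n)) := by rw [this]; group
      _ = _ := by rw [← cz _ i, inv_mul_cancel_left]⟩
  have := d.mul ((k.tr' c a).inv (τE a)) (τE a)
  rw [EE_cm (τE a) (AL_le (bbA a b)), mul_assoc (bb u w), τ_sq, mul_one] at this
  exact ⟨k.memC c (mul_mem (conj_mem_of_mem_normalizer' (normalizer_le_normalizer_centralizer _ nV) (k.cv c a)) (inv_mem (k.cv c a)))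
    (bbA a b) this.2, this⟩
theorem tcj' (i : p ∈ PP) (b : w < 8) (e : n * t * n⁻¹ = t * hw ι h w) :
    ι p * n * (ι p)⁻¹ * t * (ι p * n * (ι p)⁻¹)⁻¹ = t * hw ι h (ac p w) := by
  have := c.tcj p⁻¹
  rw [map_inv] at this
  calc _ = ι p * (n * ((ι p)⁻¹ * t * (ι p)⁻¹⁻¹) * n⁻¹) * (ι p)⁻¹ := by group
    _ = _ := by rw [this, e, cjm, c.tcj, hw_cj k.hc i b]
theorem nc (i : n ∈ 𝐂(V)) (e : n * t * n⁻¹ = t * hw ι h 1) : n⁻¹ * hw ι h 1 * n = ι (τ 1) * hw ι h 1 := by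
  have V := fun u => k.vw c (u := u) (centralizer_le_normalizer _ i) (k.Cz' c i) (by decide) e
  obtain ⟨f, hf⟩ : ∃ f : ℕ → G, ∀ u, f u = n⁻¹ * hw ι h u * n * (hw ι h u)⁻¹ := ⟨_, fun _ => rfl⟩
  have f' : ∀ u, n⁻¹ * hw ι h u * n = f u * hw ι h u := fun u => by rw [hf, inv_mul_cancel_right]
  simp only [← hf] at V
  have q : ∀ p ∈ P1 ⊓ PP, ∀ u < 8, ι p * f u * (ι p)⁻¹ = f (ac p u) := fun p j u a => by
    have := k.tcj' c j.2 (by decide) e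
    rw [mem_P1.1 j.1] at this
    obtain ⟨z, l, r⟩ := k.ctC c (mul_mem (inv_mem i) (k.nC c j.2 i)) (by rw [mul_assoc, mul_inv_eq_iff_eq_mul.1 (this.trans e.symm)]; group)
    have o := (((k.Cz' c i).inv.mul (k.tr' c (PP_lt j.2 a)).1).mul (k.Cz' c i)) z l
    calc _ = (ι p * n * (ι p)⁻¹)⁻¹ * (ι p * hw ι h u * (ι p)⁻¹) * (ι p * n * (ι p)⁻¹) * (ι p * hw ι h u * (ι p)⁻¹)⁻¹ := by rw [hf]; group
      _ = (ι z)⁻¹ * (n⁻¹ * hw ι h (ac p u) * n * ι z) * (hw ι h (ac p u))⁻¹ := by rw [inv_mul_eq_iff_eq_mul.1 r, hw_cj k.hc j.2 a]; group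
      _ = _ := by rw [o, hf]; group
  obtain ⟨z, l, r⟩ := k.tr1 c (V 1 (by decide)).1 ((bb0 (u := 1) (by decide)).2.2 ▸ (V 1 (by decide)).2)
  obtain ⟨a, l', rfl⟩ := mem_EE.1 l
  have q' : ∀ p ∈ P1 ⊓ PP, cc (cd p) (ec a) = ec a := fun p j => by
    have := q p j 1 (by decide)
    rw [mem_P1.1 j.1, r, ← map_inv, ← map_mul, ← map_mul] at this
    simpa only [cd_mul, cd_inv, cd_ee] using congrArg cd (c.inj this)
  rcases d6 _ (d1 _ l' (cd_bb 1 16 ▸ q' _ xP.1) (cd_bb 1 32 ▸ q' _ xP.2.1) (cd_bb 2 32 ▸ q' _ xP.2.2.1)) (cd_bb 4 16 ▸ q' _ xP.2.2.2) with rfl | rfl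
  swap
  · rw [f', r, ee_val.2.1]
  have g := (k.H c).gV k.toUs c
  obtain ⟨z, l, r'⟩ := k.same c g (V 2 (by decide)).1 ((k.H c).tr3 k.toUs c) (bbe.2.1 ▸ (V 2 (by decide)).2)
  have o := q _ xP.1 2 (by decide)
  rw [acv.2.2.2.2.1, r', cjm, k.gx c] at o
  have := conj_eq_of_mem_centralizer (inv_mem i) g
  rw [cjm, cjm, inv_inv, f', f', f', r, ee_val.1, map_one, one_mul, mul_assoc, mul_assoc (hw ι h 1), mul_left_cancel_iff, ← mul_assoc,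
    mul_right_cancel_iff, mul_assoc, ← k.hv' c (by decide) (V 3 (by decide)).1, ← mul_assoc, mul_eq_right, r', ← o, mul_assoc, ← mul_assoc (ι z),
    ← mul_assoc (ι z), ← map_mul, ← ((k.H c).tr3 k.toUs c).1 _ (mul_mem l (AL_le bA)), mul_assoc _ (ι (z * _)), ← mul_assoc, k.sq _ g, one_mul, ← map_inv,
    ← map_mul, ← map_mul, ← map_mul, ← map_one ι] at this
  obtain ⟨a, l', rfl⟩ := mem_EE.1 l
  have := congrArg cd (c.inj this)
  simp only [cd_mul, cd_inv, cd_ee, cd_bb, cd_one] at this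
  exact (d7 a l' this).elim
theorem ncw (i : n ∈ 𝐂(V)) (b : w < 8) (w0 : w ≠ 0) (e : n * t * n⁻¹ = t * hw ι h w) : n⁻¹ * hw ι h w * n = ι (τ w) * hw ι h w := by
  obtain ⟨p, j, rfl⟩ := exP b w0
  have := k.tcj' c (inv_mem j) b e
  rw [ac_inv p (by decide)] at this
  have := k.nc c (k.nC c (inv_mem j) i) this
  rw [← hw_cj k.hc j (by decide), ← τ_cj p (by decide), map_mul, map_mul, map_inv, ← cjm, ← this, map_inv]; group

theorem c1a (d : Dt t (t * hw ι h 1)) : ∃ n ∈ 𝐍(EE.map ι), n * t * n⁻¹ = t * hw ι h 1 := by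
  obtain ⟨s, hs⟩ : ∃ s, s = t * hw ι h 1 := ⟨_, rfl⟩
  have cz : Cz ι EE s := hs ▸ c.tr_t.1.mul (k.tr' c (by decide)).1
  have D : ∀ e ∈ EE, Dt t (s * ι e) := fun e i => let ⟨_, _, _, _, r⟩ := k.trK c (w := 1) (by decide) i; hs ▸ r ▸ d.cj _
  rw [← hs] at d ⊢
  have ss := c.sq d
  have sE : ∀ e ∈ EE, ι e * s = s * ι e := fun e i => (cz e i).symm
  let B : Subgroup G :=
    { carrier := {x | ∃ e ∈ EE, x = ι e ∨ x = s * ι e}
      one_mem' := ⟨1, one_mem _, .inl (map_one ι).symm⟩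
      inv_mem' := by
        rintro _ ⟨e, i, rfl | rfl⟩
        exacts [⟨e⁻¹, inv_mem i, .inl (map_inv ι e).symm⟩, ⟨e⁻¹, inv_mem i, .inr (by rw [mul_inv_rev, si ss, ← map_inv, sE _ (inv_mem i)])⟩]
      mul_mem' := by
        rintro _ _ ⟨e, i, rfl | rfl⟩ ⟨e', i', rfl | rfl⟩ <;> refine ⟨e * e', mul_mem i i', ?_⟩ <;> rw [map_mul]
        exacts [.inl rfl, .inr (by rw [← mul_assoc, sE e i, mul_assoc]), .inr (mul_assoc ..),
          .inl (by rw [mul_assoc, ← mul_assoc (ι e), sE e i, mul_assoc, ← mul_assoc s, ss, one_mul])] }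
  have le : EE.map ι ≤ B := by rintro _ ⟨e, i, rfl⟩; exact ⟨e, i, .inl rfl⟩
  obtain ⟨g, a⟩ := id d
  obtain ⟨n, a, b⟩ := c.jA (B := B) a (by
    rintro _ ⟨e, i, rfl | rfl⟩
    exacts [by rw [← map_mul, EE_sq i, map_one], c.sq (D e i)]) (by
    rintro _ ⟨e, i, rfl | rfl⟩
    exacts [sE e i, by rw [mul_assoc, sE e i]]) (by
    obtain ⟨r, e⟩ := card_dvd_of_le le
    have : r ≠ 1 := fun z => by
      obtain ⟨e, -, r⟩ := (eq_of_le_of_card_ge le (by rw [e, z, mul_one])).ge (⟨1, one_mem _, .inr (by simp)⟩ : s ∈ B)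
      exact c.nD e (r ▸ d)
    have := Nat.card_pos (α := B)
    rw [card_map_of_injective c.inj, card_EE] at e
    rcases r with _ | _ | r <;> omega)
  refine ⟨n, mem_normalizer_of_conj_mem ?_, a⟩
  rintro _ ⟨e, i, rfl⟩
  obtain ⟨e', i', r | r⟩ := b.le (conj_mem_cj n (c.i_Tm.2 i))
  exacts [⟨e', i', r.symm⟩, (c.nD e (Dt.cj_iff.1 (r ▸ D e' i'))).elim]
theorem tw (nE : n ∈ 𝐍(EE.map ι)) (e : n * t * n⁻¹ = t * hw ι h 1) (a : u < 8) (i : y ∈ V) (j : β ∈ AL) (d : Tr ι t y β) :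
    ∃ ε ∈ EE, ι ε = n⁻¹ * ι (τ u * β * bb u 1) * n ∧ Tr ι t (n⁻¹ * (hw ι h u * y) * n) ε := by
  obtain ⟨ε, l, r⟩ := conj_mem_of_mem_normalizer' nE (mem_map_of_mem ι (mul_mem (mul_mem (τE a) (AL_le j)) (AL_le (bbA a (by decide : 1 < 8)))))
  refine ⟨ε, l, r, fun m o => ?_, ?_⟩
  · obtain ⟨m', o', q⟩ := conj_mem_of_mem_normalizer nE (mem_map_of_mem ι o)
    have := ((k.tr' c a).1.mul d.1) m' o'
    rw [q] at this
    calc _ = n⁻¹ * (hw ι h u * y * (n * ι m * n⁻¹)) * n := by group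
      _ = _ := by rw [this]; group
  · have := k.act c a (by decide : 1 < 8) i j d
    rw [← e] at this
    calc _ = n⁻¹ * (hw ι h u * y * (n * t * n⁻¹) * (hw ι h u * y)⁻¹) * n := by group
      _ = _ := by rw [this, r]; group
theorem c1b (d : Dt t (t * hw ι h 1)) : ∃ n ∈ 𝐍(V), Cz ι EE n ∧ n * t * n⁻¹ = t * hw ι h 1 := by
  obtain ⟨n, nE, e⟩ := k.c1a c d
  have T : ∀ y ∈ V, ∀ β ∈ AL, Tr ι t y β → ∃ ε ∈ EE, ι ε = n⁻¹ * ι β * n ∧ Tr ι t (n⁻¹ * y * n) ε := fun y i β j d => by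
    simpa [hw_zero, τ_zero, (bb0 (u := 1) (by decide)).2.1] using k.tw c nE e (u := 0) (by decide) i j d
  have nV : n ∈ 𝐍(V) := inv_mem_iff.1 (mem_normalizer_of_cj_le (k.p9 c _ (Ct.sq_cj _ k.sq) (by rw [card_cj, k.card c, card_AL]) (by
    rintro _ ⟨y, i, rfl⟩
    obtain ⟨β, j, d⟩ := k.toUs.tr' c i
    obtain ⟨ε, l, -, r⟩ := T y i β j d
    exact ⟨ε, l, by simpa using r⟩)))
  have A : ∀ β ∈ AL, ∃ β' ∈ AL, ι β' = n⁻¹ * ι β * n := fun β j => by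
    obtain ⟨y, i, d⟩ := k.ex' c j
    obtain ⟨ε, l, q, r⟩ := T y i β j d
    obtain ⟨β', j', r'⟩ := k.toUs.tr' c (conj_mem_of_mem_normalizer' nV i)
    exact ⟨β', j', c.tr_un r r' ▸ q⟩
  have P : ∀ u < 8, ∃ z < 8, ι (τ z) = n⁻¹ * ι (τ u) * n := fun u a => by
    obtain ⟨ε, l, -, r⟩ := k.tw c nE e a (one_mem _) (one_mem _) (by simpa using c.tr_E (one_mem _))
    obtain ⟨z, b, y, i, q⟩ := k.w0 c ⟨ε, l, r⟩ (conj_mem_of_mem_normalizer' (normalizer_le_normalizer_centralizer _ nV) (k.hC c a (one_mem _)))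
    exact ⟨z, b, by rw [← k.sqh c b i, ← q, ← k.sqh c a (one_mem _)]; group⟩
  choose! φ lt hφ using P
  have lin : ∀ u < 8, ∀ w < 8, φ (u ^^^ w) = φ u ^^^ φ w := fun u a w b => by
    have x8 : u ^^^ w < 8 := Nat.xor_lt_two_pow (n := 3) a b
    obtain ⟨β, j, r⟩ := A _ (bbA a b)
    have : β = τ (φ u) * τ (φ w) * τ (φ (u ^^^ w)) := c.inj (by
      rw [r, map_mul, map_mul, hφ u a, hφ w b, hφ _ x8, bb, map_mul, map_mul]; group)
    have q := (Al_AL (AL_le j)).2 j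
    have l := fun v (a : v < 8) => (lt v a).trans (by decide : 8 < 64)
    refine d8 _ (lt u a) _ (lt w b) _ (lt _ x8) fun v o => ?_
    have o' : v < 64 := lt6 (by simp only [List.mem_cons] at o ⊢; tauto)
    rw [← q v o', this, ac_mul, ac_mul, ac_tv (l _ x8) o', ac_tv (l _ b) (tv_lt (l _ x8) o'), ac_tv (l _ a) (tv_lt (l _ b) (tv_lt (l _ x8) o'))]
  have inj : ∀ u < 8, ∀ w < 8, φ u = φ w → u = w := fun u a w b r => τ_inj (by omega) (by omega) (c.inj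
    (mul_left_cancel (mul_right_cancel ((hφ u a).symm.trans (r ▸ hφ w b)))))
  have z : φ 0 = 0 := by simpa using lin 0 (by decide) 0 (by decide)
  have ne : ∀ u < 8, ∀ w < 8, u ≠ w → φ u ≠ φ w := fun u a w b r q => r (inj u a w b q)
  obtain ⟨l, o, l₁, l₂, l₃⟩ := ex_MM (lt 1 (by decide)) (lt 2 (by decide)) (lt 4 (by decide)) ⟨z ▸ ne 1 (by decide) 0 (by decide) (by decide),
    z ▸ ne 2 (by decide) 0 (by decide) (by decide), ne 2 (by decide) 1 (by decide) (by decide), z ▸ ne 4 (by decide) 0 (by decide) (by decide),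
    ne 4 (by decide) 1 (by decide) (by decide), ne 4 (by decide) 2 (by decide) (by decide),
    lin 1 (by decide) 2 (by decide) ▸ ne 4 (by decide) _ (by decide) (by decide)⟩
  have l₄ : ac l 3 = φ 3 := by rw [show 3 = 1 ^^^ 2 from rfl, ac_xor, lin 1 (by decide) 2 (by decide), l₁, l₂]
  have q : ∀ u < 8, ac l u = φ u := fun u a => by
    interval_cases u
    exacts [(ac_zero l).trans z.symm, l₁, l₂, l₄, l₃, by rw [show 5 = 1 ^^^ 4 from rfl, ac_xor, lin 1 (by decide) 4 (by decide), l₁, l₃],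
      by rw [show 6 = 2 ^^^ 4 from rfl, ac_xor, lin 2 (by decide) 4 (by decide), l₂, l₃],
      by rw [show 7 = 3 ^^^ 4 from rfl, ac_xor, lin 3 (by decide) 4 (by decide), l₄, l₃]]
  refine ⟨n * ι l, mul_mem nV (k.nP c o.1), fun m i => (mem_centralizer_singleton_iff.1 (gen_EE (H := (centralizer {n * ι l}).comap ι)
    (fun v a => mem_centralizer_singleton_iff.2 ?_) i)).symm, by
      rw [show n * ι l * t * (n * ι l)⁻¹ = n * (ι l * t * (ι l)⁻¹) * n⁻¹ by group, c.tcj, e]⟩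
  have := hφ v a
  rw [← q v a, ← τ_cj l (by omega), map_mul, map_mul, map_inv] at this
  calc _ = n * (n⁻¹ * ι (τ v) * n) * ι l := by group
    _ = _ := by rw [← this]; group
theorem pen (nV : n ∈ 𝐍(V)) (cz : Cz ι EE n) (e : n * t * n⁻¹ = t * hw ι h 1) :
    n⁻¹ * h2 ι n⁻¹ * h3 ι n⁻¹ ∈ 𝐂(V) ∨ t * (n⁻¹ * h2 ι n⁻¹ * h3 ι n⁻¹) ∈ 𝐂(V) := by
  have e₂ := k.tcj' c s12P (by decide) e
  have e₃ := k.tcj' c xP.1.2 (PP_lt s12P (by decide)) e₂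
  rw [acv.1] at e₂ e₃
  rw [acv.2.2.2.2.1] at e₃
  have v₂ := mul_mem (mul_mem (k.nP c s12P) nV) (inv_mem (k.nP c s12P))
  have v₃ := mul_mem (mul_mem (k.nP c xP.1.2) v₂) (inv_mem (k.nP c xP.1.2))
  have z₂ := cz.cj s12P
  have z₃ := z₂.cj xP.1.2
  have r : n⁻¹ * h2 ι n⁻¹ * h3 ι n⁻¹ = (h3 ι n * h2 ι n * n)⁻¹ := by rw [h3, h3, h2, h2]; group
  rw [r]
  change _ ∈ 𝐍(V) at v₂ v₃
  change Cz ι EE (h2 ι n) at z₂
  change Cz ι EE (h3 ι n) at z₃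
  change h2 ι n ∈ 𝐍(V) at v₂
  change h3 ι n ∈ 𝐍(V) at v₃
  change h2 ι n * t * (h2 ι n)⁻¹ = _ at e₂
  change h3 ι n * t * (h3 ι n)⁻¹ = _ at e₃
  generalize h2 ι n = n₂ at *
  generalize h3 ι n = n₃ at *
  have f : ∀ {n w}, n ∈ 𝐍(V) → Cz ι EE n → w < 8 → n * t * n⁻¹ = t * hw ι h w → ∀ u < 8, ∃ y ∈ V, n * hw ι h u * n⁻¹ = hw ι h u * y :=
    fun {n w} nV cz b e u a => ⟨_, inv_mem (conj_mem_of_mem_normalizer nV (k.vw c nV cz b e a).1), by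
      rw [← k.hv' c a (inv_mem (conj_mem_of_mem_normalizer nV (k.vw c nV cz b e a).1))]; group⟩
  obtain ⟨y₁, i₁, q₁⟩ := f v₂ z₂ (by decide) e₂ 1 (by decide)
  obtain ⟨y₂, i₂, q₂⟩ := f v₃ z₃ (by decide) e₃ 2 (by decide)
  obtain ⟨y₃, i₃, q₃⟩ := f v₃ z₃ (by decide) e₃ 1 (by decide)
  have g : hw ι h 3 * hw ι h 2 * hw ι h 1 ∈ V := k.memC c (mul_mem (mul_mem (k.cv c (by decide)) (k.cv c (by decide))) (k.cv c (by decide))) bA
    (bbe.2.2.2 ▸ ((k.tr' c (by decide)).mul (k.tr' c (by decide)) (τE (by decide))).mul (k.tr' c (by decide)) (τE (by decide))).2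
  have i := mul_mem (mul_mem (mul_mem g i₂) i₃) (conj_mem_of_mem_normalizer v₃ i₁)
  have q : n₃ * n₂ * n * t * (n₃ * n₂ * n)⁻¹ = t * (hw ι h 3 * hw ι h 2 * hw ι h 1 * y₂ * y₃ * (n₃ * y₁ * n₃⁻¹)) := by
    rw [show n₃ * n₂ * n * t * (n₃ * n₂ * n)⁻¹ = n₃ * (n₂ * (n * t * n⁻¹) * n₂⁻¹) * n₃⁻¹ by group, e, cjm n₂, e₂, q₁, cjm n₃, cjm n₃, cjm n₃,
      e₃, q₂, q₃, mul_assoc _ (hw ι h 1) y₂, ← k.hv' c (w := 1) (by decide) i₂]; group
  generalize hw ι h 3 * hw ι h 2 * hw ι h 1 * y₂ * y₃ * (n₃ * y₁ * n₃⁻¹) = z at i q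
  obtain ⟨ε, l, rfl⟩ := k.ct c i (by
    have := sqj c.tt (n₃ * n₂ * n)
    rw [q] at this
    rw [← si this, mul_inv_rev, c.ti, si (k.sq z i)])
  obtain ⟨w, b, y, j, r | r⟩ := k.w1 c ⟨ε, l, (z₃.mul z₂).mul cz, q⟩ <;> rw [r]
  · exact .inl (inv_mem (k.hC c b j))
  · exact .inr (by simpa [c.ti, c.ttx] using inv_mem (k.hC c b j))
theorem c1 (d : Dt t (t * hw ι h 1)) : ∃ n ∈ 𝐂(V), n * t * n⁻¹ = t * hw ι h 1 := by
  obtain ⟨n, nV, cz, e⟩ := k.c1b c d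
  refine (k.psi c (n := n⁻¹) (fun x i β d => ⟨conj_mem_of_mem_normalizer (inv_mem nV) i, ?_⟩) cz.inv (fun p l x i => ?_)
    (k.pen c nV cz e)).elim (fun r => ⟨n, inv_mem_iff.1 r, e⟩) fun r => ⟨n * t, by
      simpa [c.ti] using inv_mem (conj_mem_of_mem_normalizer (normalizer_le_normalizer_centralizer _ nV) r), by rw [← e]; group⟩
  · obtain ⟨β', j, d'⟩ := k.toUs.tr' c i
    obtain rfl := c.tr_un d d'
    obtain ⟨ε, l, q, r⟩ := k.tw c (mem_normalizer_of_conj_mem (by rintro _ ⟨m, o, rfl⟩; exact ⟨m, o, (cj_eq (cz m o)).symm⟩)) e (u := 0)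
      (by decide) i j d
    rw [τ_zero, one_mul, (bb0 (u := 1) (by decide)).2.1, mul_one, mul_assoc, ← cz _ (AL_le j), inv_mul_cancel_left] at q
    simpa [hw_zero, c.inj q] using r
  have j : p ∈ P1 ⊓ PP ∧ p * p = 1 := by
    simp only [List.mem_cons, List.not_mem_nil, or_false] at l
    rcases l with rfl | rfl | rfl | rfl
    exacts [⟨xP.1, xsq.1⟩, ⟨xP.2.1, xsq.2.1⟩, ⟨xP.2.2.1, xsq.2.2.1⟩, ⟨xP.2.2.2, xsq.2.2.2⟩]
  have := k.tcj' c j.1.2 (by decide) e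
  rw [mem_P1.1 j.1.1] at this
  obtain ⟨z, o, r | r⟩ := c.cA (x := n⁻¹ * (ι p * n * (ι p)⁻¹)) (by rw [mul_assoc, mul_inv_eq_iff_eq_mul.1 (this.trans e.symm)]; group)
    (cz.inv.mul (cz.cj j.1.2))
  · have a := (k.cz c (conj_mem_of_mem_normalizer (k.nP c j.1.2) (conj_mem_of_mem_normalizer (inv_mem nV) i))) z o
    calc _ = n⁻¹ * (ι p * n * (ι p)⁻¹) * (ι p * (n⁻¹ * x * n⁻¹⁻¹) * (ι p)⁻¹) * (n⁻¹ * (ι p * n * (ι p)⁻¹))⁻¹ := by group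
      _ = _ := by rw [r, ← a]; group
  · have q : n⁻¹ * ι p * n⁻¹⁻¹ = t * ι (z * p) := by rw [map_mul, ← mul_assoc, ← r]; group
    have s := sqj (show ι p * ι p = 1 by rw [← map_mul, j.2, map_one]) n⁻¹
    rw [q, c.im_sq (.of' _), c.i1] at s
    exact (c.nD p (Dt.cj_iff.1 (q ▸ k.c3 _ s))).elim
theorem c1w (b : w < 8) (i : e ∈ EE) (d : Dt t (t * (hw ι h w * ι e))) : ∃ n ∈ 𝐂(V), n * t * n⁻¹ = t * (hw ι h w * ι e) := by
  obtain ⟨u, a, y, j, r⟩ := k.trK c b i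
  suffices ∃ n ∈ 𝐂(V), n * t * n⁻¹ = t * hw ι h w from
    let ⟨n, l, q⟩ := this; ⟨_, mul_mem (k.hC c a j) l, by rw [← mul_assoc t, ← r, ← q]; group⟩
  by_cases w0 : w = 0
  · exact ⟨1, one_mem _, by simp [w0, hw_zero]⟩
  rw [← mul_assoc, ← r, Dt.cj_iff] at d
  obtain ⟨p, l, rfl⟩ := exP b w0
  rw [← hw_cj k.hc l (by decide), ← c.tcj p, ← cjm, c.tcj, Dt.cj_iff] at d
  obtain ⟨n, o, q⟩ := k.c1 c d
  exact ⟨_, k.nC c l o, k.tcj' c l (by decide) q⟩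
theorem L2 (i : x ∈ 𝐂(V)) (e : SemiconjBy t x⁻¹ x) (s : x ^ 4 = 1) : ∃ w < 8, ∃ e ∈ EE, x = hw ι h w * ι e := by
  have s' : x * x * (x * x) = 1 := by rw [← s]; simp only [pow_succ, pow_zero, one_mul, mul_assoc]
  have q : x * t * x⁻¹ = t * (x * x) := by rw [← e.eq, mul_assoc, ← mul_inv_rev, si s']
  obtain ⟨z, l, r⟩ := k.ctC c (mul_mem i i) (by rw [← (e.mul_right e).eq, ← mul_inv_rev, si s'])
  obtain ⟨w, b, y, j, rfl⟩ := k.w0 c ⟨z, l, k.Cz' c i, r ▸ q⟩ i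
  obtain ⟨β, o, d⟩ := k.toUs.tr' c j
  have := c.tm_inj (((k.tr' c b).mul d (AL_le o)).2.symm.trans (k.sqh c b j ▸ q))
  obtain ⟨e', l, rfl⟩ := k.tr1 c j (mul_eq_left.1 this ▸ d)
  exact ⟨w, b, e', l, rfl⟩
theorem L3 (i : x ∈ 𝐂(V)) (e : SemiconjBy t x⁻¹ x) (s : x ^ 8 = 1) : x ^ 4 = 1 := by
  obtain ⟨w, b, z, l, r⟩ := k.L2 c (x := x⁻¹ * x⁻¹) (mul_mem (inv_mem i) (inv_mem i)) (by simpa using (e.mul_right e).inv_right)
    (by rw [← inv_eq_one, ← s]; group)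
  by_cases w0 : w = 0
  · rw [w0, hw_zero, one_mul] at r
    rw [← inv_eq_one, show (x ^ 4)⁻¹ = x⁻¹ * x⁻¹ * (x⁻¹ * x⁻¹) by group, r, ← map_mul, EE_sq l, map_one]
  obtain ⟨u, a, y, j, q⟩ := k.trK c b l
  have := k.ncw c (mul_mem (inv_mem (k.hC c a j)) i) b w0 (by
    rw [show (hw ι h u * y)⁻¹ * x * t * ((hw ι h u * y)⁻¹ * x)⁻¹ = (hw ι h u * y)⁻¹ * (x * t * x⁻¹) * (hw ι h u * y) by group, ← e.eq,
      mul_assoc t, r, ← mul_assoc t, ← q]; group)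
  have o : x * hw ι h w = hw ι h w * x := mul_right_cancel (b := ι z) (by rw [mul_assoc, ← r, mul_assoc _ x, k.Cz' c i z l, ← mul_assoc (hw ι h w), ← r]; group)
  rw [show ((hw ι h u * y)⁻¹ * x)⁻¹ * hw ι h w * ((hw ι h u * y)⁻¹ * x) = x⁻¹ * (hw ι h u * y * hw ι h w * (hw ι h u * y)⁻¹) * x by group,
    k.acth c a b j, mul_assoc, mul_assoc, ← o, ← mul_assoc (ι _), ← k.Cz' c i _ (AL_le (bbA a b)), mul_assoc, inv_mul_cancel_left,
    mul_right_cancel_iff] at this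
  exact (w0 (τA b (c.inj this ▸ bbA a b))).elim
theorem L4 (j : ℕ) (i : x ∈ 𝐂(V)) (e : SemiconjBy t x⁻¹ x) (s : x ^ 2 ^ j = 1) : x ^ 4 = 1 := by
  induction j with
  | zero => rw [show x = 1 by simpa using s, one_pow]
  | succ j ih =>
    rcases j with _ | _ | j
    · rw [show 4 = 2 ^ (0 + 1) * 2 from rfl, pow_mul, s, one_pow]
    · exact s
    refine ih ?_
    rw [pow_succ, pow_succ, mul_assoc, pow_mul]
    exact k.L3 c (pow_mem i _) (by simpa using e.pow_right (2 ^ j)) (by rw [← pow_mul, ← s]; congr 1; ring)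
theorem fus (d : Dt t s) (a : t * s ∈ 𝐂(V)) : ∃ k ∈ 𝐂(V), k * t * k⁻¹ = s := by
  obtain ⟨x, rfl⟩ : ∃ x, s = t * x := ⟨t * s, (c.ttx s).symm⟩
  rw [c.ttx] at a
  have e : SemiconjBy t x⁻¹ x := by
    rw [SemiconjBy, ← c.ti, ← mul_inv_rev, ← inv_inj, inv_inv, c.ti, eq_inv_iff_mul_eq_one]
    simpa [mul_assoc, c.ti, c.ttx] using sqj (c.sq d) t⁻¹
  obtain ⟨j, n, ⟨r, rfl⟩, o⟩ := Nat.exists_eq_two_pow_mul_odd (orderOf_pos x).ne'
  have q : (x ^ r)⁻¹ * (t * x) * (x ^ r)⁻¹⁻¹ = t * x ^ (2 * r + 1) := by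
    rw [← mul_assoc, ← (by simpa using (e.pow_right r).inv_right.eq : t * x ^ r = (x ^ r)⁻¹ * t)]; group
  have e' : SemiconjBy t (x ^ (2 * r + 1))⁻¹ (x ^ (2 * r + 1)) := by simpa using e.pow_right _
  obtain ⟨w, b, z, l, p⟩ := k.L2 c (pow_mem a _) e' (k.L4 c j (pow_mem a _) e' (by rw [← pow_mul, mul_comm, ← o, pow_orderOf_eq_one]))
  obtain ⟨n, i, f⟩ := k.c1w c b l (p ▸ q ▸ d.cj _)
  exact ⟨x ^ r * n, mul_mem (pow_mem a r) i, by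
    rw [show x ^ r * n * t * (x ^ r * n)⁻¹ = x ^ r * (n * t * n⁻¹) * (x ^ r)⁻¹ by group, f, ← p, ← q]; group⟩
end J1

end CF.Ft
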