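import Cfsg.Agent.Bt.Xc

/-! A bit model of the symplectic group of dimension six over the field with two elements. -/

set_option autoImplicit false
set_option maxRecDepth 100000

namespace CF.Ft

open Matrix

/-- the symplectic group -/
abbrev Sp : Type := Matrix.symplecticGroup (Fin 3) (ZMod 2)

/-- the index set -/
abbrev I6 : Type := Fin 3 ⊕ Fin 3

/-- bit position of an index -/
def ix : I6 → ℕ := Sum.elim (fun i => i.1) (fun i => i.1 + 3)

/-- the vector with the given bits -/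
def vc (v : ℕ) : I6 → ZMod 2 := fun i => if v.testBit (ix i) then 1 else 0

/-- the number of a vector -/
def nv (x : I6 → ZMod 2) : ℕ := (x (.inl 0)).val + 2 * (x (.inl 1)).val + 4 * (x (.inl 2)).val +
  8 * (x (.inr 0)).val + 16 * (x (.inr 1)).val + 32 * (x (.inr 2)).val

/-- the action on numbers; `1, 2, 4` are `e₁, e₂, e₃` and `8, 16, 32` are `f₁, f₂, f₃` -/
def ac (g : Sp) (v : ℕ) : ℕ := nv (g.1 *ᵥ vc v)

/-- the symplectic form (values `0`, `1`) -/
def fm (u v : ℕ) : ℕ := 0x6996966996696996 >>> (u &&& (v / 8 % 8 + 8 * (v % 8))) % 2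

/-- the code of six columns -/
def pk (a b c d e f : ℕ) : ℕ := a + 64 * (b + 64 * (c + 64 * (d + 64 * (e + 64 * f))))

/-- apply a code to a vector -/
def ap (c v : ℕ) : ℕ := v % 2 * (c % 64) ^^^ v / 2 % 2 * (c / 64 % 64) ^^^ v / 4 % 2 * (c / 4096 % 64) ^^^
  v / 8 % 2 * (c / 262144 % 64) ^^^ v / 16 % 2 * (c / 16777216 % 64) ^^^ v / 32 % 2 * (c / 1073741824 % 64)

/-- product of codes -/
def mu (c d : ℕ) : ℕ := pk (ap c d) (ap c (d / 64)) (ap c (d / 4096)) (ap c (d / 262144)) (ap c (d / 16777216))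
  (ap c (d / 1073741824))

/-- the code of an element -/
def cd (g : Sp) : ℕ := pk (ac g 1) (ac g 2) (ac g 4) (ac g 8) (ac g 16) (ac g 32)

/-- the inverse applied to a vector -/
def ivv (c x : ℕ) : ℕ := fm x (c / 262144 % 64) + 2 * fm x (c / 16777216 % 64) + 4 * fm x (c / 1073741824 % 64) +
  8 * fm x (c % 64) + 16 * fm x (c / 64 % 64) + 32 * fm x (c / 4096 % 64)

/-- the code of the inverse -/
def iv (c : ℕ) : ℕ := pk (ivv c 1) (ivv c 2) (ivv c 4) (ivv c 8) (ivv c 16) (ivv c 32)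

/-- the code of the identity -/
def c1 : ℕ := pk 1 2 4 8 16 32

theorem nv_lt (x : I6 → ZMod 2) : nv x < 64 := by
  have h : ∀ a : ZMod 2, a.val < 2 := fun a => a.val_lt
  have := h (x (.inl 0)); have := h (x (.inl 1)); have := h (x (.inl 2))
  have := h (x (.inr 0)); have := h (x (.inr 1)); have := h (x (.inr 2))
  unfold nv; omega

theorem vc_nv (x : I6 → ZMod 2) : vc (nv x) = x := by
  have : ∀ a b c d e f : ZMod 2, ∀ i : I6, vc (a.val + 2 * b.val + 4 * c.val + 8 * d.val + 16 * e.val + 32 * f.val) i =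
    Sum.elim ![a, b, c] ![d, e, f] i := by decide +kernel
  ext i
  rw [nv, this]
  rcases i with i | i <;> fin_cases i <;> rfl

theorem vc_mod (v : ℕ) : vc (v % 64) = vc v := by
  ext i
  have : ix i < 6 := by rcases i with i | i <;> simp only [ix, Sum.elim_inl, Sum.elim_inr] <;> omega
  simp only [vc, show 64 = 2 ^ 6 by rfl, Nat.testBit_mod_two_pow, this, decide_true, Bool.true_and]

theorem nv_vc {v : ℕ} (h : v < 64) : nv (vc v) = v := by
  revert v; decide +kernel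

theorem vc_xor (u v : ℕ) : vc (u ^^^ v) = vc u + vc v := by
  ext i
  simp only [vc, Nat.testBit_xor, Pi.add_apply]
  cases u.testBit (ix i) <;> cases v.testBit (ix i) <;> decide

theorem xor_lt {u v : ℕ} (h : u < 64) (k : v < 64) : u ^^^ v < 64 := Nat.xor_lt_two_pow (n := 6) h k

theorem nv_add (x y : I6 → ZMod 2) : nv (x + y) = nv x ^^^ nv y := by
  rw [← nv_vc (xor_lt (nv_lt x) (nv_lt y)), vc_xor, vc_nv, vc_nv]

variable {g h : Sp} {u v w c : ℕ}

theorem ac_lt (g : Sp) (v : ℕ) : ac g v < 64 := nv_lt _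

theorem ac_mul (g h : Sp) (v : ℕ) : ac (g * h) v = ac g (ac h v) := by
  simp only [ac, vc_nv, mulVec_mulVec]; rfl

theorem ac_one (k : v < 64) : ac 1 v = v := by
  simp only [ac]; rw [show ((1 : Sp).1) = 1 from rfl, one_mulVec, nv_vc k]

theorem ac_xor (g : Sp) (u v : ℕ) : ac g (u ^^^ v) = ac g u ^^^ ac g v := by
  simp only [ac, vc_xor, mulVec_add, nv_add]

theorem ac_zero (g : Sp) : ac g 0 = 0 := by
  have := ac_xor g 0 0
  rwa [Nat.xor_self, Nat.xor_self] at this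

theorem ac_mod (g : Sp) (v : ℕ) : ac g (v % 64) = ac g v := by simp only [ac, vc_mod]

theorem ac_inv (g : Sp) (k : v < 64) : ac g⁻¹ (ac g v) = v := by rw [← ac_mul, inv_mul_cancel, ac_one k]

theorem ac_inv' (g : Sp) (k : v < 64) : ac g (ac g⁻¹ v) = v := by rw [← ac_mul, mul_inv_cancel, ac_one k]

theorem ac_inj (k : u < 64) (l : v < 64) (e : ac g u = ac g v) : u = v := by rw [← ac_inv g k, e, ac_inv g l]

theorem ac_bit (g : Sp) (b v : ℕ) : ac g (b % 2 * v) = b % 2 * ac g v := by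
  rcases Nat.mod_two_eq_zero_or_one b with e | e <;> simp [e, ac_zero]

theorem fm_eq (k : u < 64) (l : v < 64) : (fm u v : ZMod 2) = vc u ⬝ᵥ (J (Fin 3) (ZMod 2) *ᵥ vc v) := by
  have : ∀ u < 64, ∀ v < 64, (fm u v : ZMod 2) = vc u (.inl 0) * vc v (.inr 0) + vc u (.inl 1) * vc v (.inr 1) +
    vc u (.inl 2) * vc v (.inr 2) + (vc u (.inr 0) * vc v (.inl 0) + vc u (.inr 1) * vc v (.inl 1) +
    vc u (.inr 2) * vc v (.inl 2)) := by decide +kernel
  rw [this u k v l]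
  simp [J, dotProduct, mulVec, Fin.sum_univ_three, fromBlocks, Matrix.one_apply, CharTwo.neg_eq]

theorem fm_lt (u v : ℕ) : fm u v < 2 := Nat.mod_lt _ two_pos

theorem cast_inj {a b : ℕ} (h : a < 2) (k : b < 2) (e : (a : ZMod 2) = b) : a = b := by
  interval_cases a <;> interval_cases b <;> first | rfl | exact absurd e (by decide)

theorem ac_fm (g : Sp) (k : u < 64) (l : v < 64) : fm (ac g u) (ac g v) = fm u v := by
  refine cast_inj (fm_lt _ _) (fm_lt _ _) ?_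
  rw [fm_eq (ac_lt _ _) (ac_lt _ _), fm_eq k l, ac, ac, vc_nv, vc_nv, mulVec_mulVec, dotProduct_mulVec, vecMul_mulVec,
    ← dotProduct_mulVec, ← Matrix.mul_assoc, SymplecticGroup.mem_iff'.1 g.2]

theorem pk_col {a b c d e f : ℕ} (ha : a < 64) (hb : b < 64) (hc : c < 64) (hd : d < 64) (he : e < 64) (hf : f < 64) :
    pk a b c d e f % 64 = a ∧ pk a b c d e f / 64 % 64 = b ∧ pk a b c d e f / 4096 % 64 = c ∧
    pk a b c d e f / 262144 % 64 = d ∧ pk a b c d e f / 16777216 % 64 = e ∧ pk a b c d e f / 1073741824 % 64 = f := by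
  unfold pk; omega

theorem cd_col (g : Sp) : cd g % 64 = ac g 1 ∧ cd g / 64 % 64 = ac g 2 ∧ cd g / 4096 % 64 = ac g 4 ∧
    cd g / 262144 % 64 = ac g 8 ∧ cd g / 16777216 % 64 = ac g 16 ∧ cd g / 1073741824 % 64 = ac g 32 :=
  pk_col (ac_lt _ _) (ac_lt _ _) (ac_lt _ _) (ac_lt _ _) (ac_lt _ _) (ac_lt _ _)

theorem bits (v : ℕ) : v % 64 = v % 2 * 1 ^^^ v / 2 % 2 * 2 ^^^ v / 4 % 2 * 4 ^^^ v / 8 % 2 * 8 ^^^ v / 16 % 2 * 16 ^^^
    v / 32 % 2 * 32 := by
  have : ∀ v < 64, v = v % 2 * 1 ^^^ v / 2 % 2 * 2 ^^^ v / 4 % 2 * 4 ^^^ v / 8 % 2 * 8 ^^^ v / 16 % 2 * 16 ^^^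
    v / 32 % 2 * 32 := by decide +kernel
  rw [this (v % 64) (Nat.mod_lt _ (by decide))]
  congr 1; congr 1; congr 1; congr 1; congr 1
  all_goals omega

theorem ap_cd (g : Sp) (v : ℕ) : ap (cd g) v = ac g v := by
  obtain ⟨a, b, c, d, e, f⟩ := cd_col g
  rw [ap, a, b, c, d, e, f, ← ac_mod g v, bits]
  simp only [ac_xor, ac_bit]

theorem cd_mul (g h : Sp) : cd (g * h) = mu (cd g) (cd h) := by
  obtain ⟨a, b, c, d, e, f⟩ := cd_col h
  simp only [mu, ap_cd]
  rw [← ac_mod g (cd h), ← ac_mod g (cd h / 64), ← ac_mod g (cd h / 4096), ← ac_mod g (cd h / 262144),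
    ← ac_mod g (cd h / 16777216), ← ac_mod g (cd h / 1073741824), a, b, c, d, e, f]
  simp only [cd, ac_mul]

theorem cd_one : cd 1 = c1 := by simp only [cd, c1, ac_one, Nat.reduceLT]

theorem ac_ext (e : ∀ v < 64, ac g v = ac h v) : g = h := by
  refine Subtype.ext (Matrix.ext fun i j => ?_)
  have : g.1 *ᵥ Pi.single j 1 = h.1 *ᵥ Pi.single j 1 := by
    have := congrArg vc (e _ (nv_lt (Pi.single j 1)))
    simpa only [ac, vc_nv] using this
  simpa using congrFun this i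

theorem cd_inj (e : cd g = cd h) : g = h := ac_ext fun v _ => by rw [← ap_cd, e, ap_cd]

theorem cd_ne (e : cd g ≠ cd h) : g ≠ h := fun k => e (k ▸ rfl)

theorem ivv_cd (g : Sp) (k : v < 64) : ivv (cd g) v = ac g⁻¹ v := by
  obtain ⟨a, b, c, d, e, f⟩ := cd_col g
  have : ∀ z < 64, z = fm z 8 + 2 * fm z 16 + 4 * fm z 32 + 8 * fm z 1 + 16 * fm z 2 + 32 * fm z 4 := by decide +kernel
  rw [ivv, a, b, c, d, e, f, this _ (ac_lt g⁻¹ v)]
  simp only [← ac_fm g (ac_lt g⁻¹ v), ac_inv' g k, Nat.reduceLT]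

theorem cd_inv (g : Sp) : cd g⁻¹ = iv (cd g) := by simp only [iv, ivv_cd, Nat.reduceLT]; rfl

/-- the matrix of a code -/
def mt (c : ℕ) : Matrix I6 I6 (ZMod 2) := of fun i j => vc (c / 64 ^ ix j) i

/-- the code is the code of a symplectic matrix -/
def ok (c : ℕ) : Bool := decide (c < 68719476736 ∧ ∀ i < 6, ∀ j < 6, fm (c / 64 ^ i % 64) (c / 64 ^ j % 64) = fm (2 ^ i) (2 ^ j))

theorem ix_lt (i : I6) : ix i < 6 := by rcases i with i | i <;> simp only [ix, Sum.elim_inl, Sum.elim_inr] <;> omega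

theorem vc_pow (i : I6) : vc (2 ^ ix i) = Pi.single i 1 := by revert i; decide +kernel

theorem mt_mem (k : ok c = true) : mt c ∈ symplecticGroup (Fin 3) (ZMod 2) := by
  refine SymplecticGroup.mem_iff'.2 (Matrix.ext fun i j => ?_)
  have l : ∀ i : I6, 2 ^ ix i < 64 := fun i => Nat.pow_lt_pow_right (a := 2) (n := 6) one_lt_two (ix_lt i)
  have := congrArg (Nat.cast (R := ZMod 2)) ((of_decide_eq_true k).2 _ (ix_lt i) _ (ix_lt j))
  rw [fm_eq (Nat.mod_lt _ (by decide)) (Nat.mod_lt _ (by decide)), fm_eq (l i) (l j), vc_mod, vc_mod, vc_pow, vc_pow] at this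
  rw [Matrix.mul_assoc, Matrix.mul_apply]
  simpa [dotProduct, mulVec, mt, Matrix.mul_apply, Pi.single_apply] using this

/-- the element with a given code -/
def el (c : ℕ) : Sp := if k : ok c = true then ⟨mt c, mt_mem k⟩ else 1

theorem cd_el (k : ok c = true) : cd (el c) = c := by
  have : ∀ i : I6, ac (el c) (2 ^ ix i) = c / 64 ^ ix i % 64 := fun i => by
    rw [ac, vc_pow, el, dif_pos k, ← nv_vc (Nat.mod_lt (c / 64 ^ ix i) (by decide)), vc_mod]
    congr 1; ext j; simp [mt]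
  have a1 := this (.inl 0); have a2 := this (.inl 1); have a3 := this (.inl 2)
  have a4 := this (.inr 0); have a5 := this (.inr 1); have a6 := this (.inr 2)
  have := (of_decide_eq_true k).1
  simp only [ix, Sum.elim_inl, Sum.elim_inr, Fin.val_zero, Fin.val_one, Fin.val_two] at a1 a2 a3 a4 a5 a6
  norm_num at a1 a2 a3 a4 a5 a6
  rw [cd, a1, a2, a3, a4, a5, a6, pk]; omega

/-- the code of a transvection -/
def tc (v : ℕ) : ℕ := pk (1 ^^^ fm 1 v * v) (2 ^^^ fm 2 v * v) (4 ^^^ fm 4 v * v) (8 ^^^ fm 8 v * v) (16 ^^^ fm 16 v * v)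
  (32 ^^^ fm 32 v * v)

/-- the transvection with centre `v` -/
def τ (v : ℕ) : Sp := el (tc (v % 64))

theorem cd_τ (v : ℕ) : cd (τ v) = tc (v % 64) :=
  cd_el ((by decide +kernel : ∀ v < 64, ok (tc v) = true) _ (Nat.mod_lt _ (by decide)))

theorem ac_τ (k : v < 64) (l : w < 64) : ac (τ v) w = w ^^^ fm w v * v := by
  rw [← ap_cd, cd_τ, Nat.mod_eq_of_lt k]
  exact (by decide +kernel : ∀ v < 64, ∀ w < 64, ap (tc v) w = w ^^^ fm w v * v) v k w l

theorem τ_cj (g : Sp) (k : v < 64) : g * τ v * g⁻¹ = τ (ac g v) := ac_ext fun x hx => by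
  have := ac_bit g (fm (ac g⁻¹ x) v) v
  rw [Nat.mod_eq_of_lt (fm_lt _ _)] at this
  rw [ac_mul, ac_mul, ac_τ k (ac_lt _ _), ac_xor, this, ac_inv' g hx, ac_τ (ac_lt _ _) hx, ← ac_fm g (ac_lt _ _) k,
    ac_inv' g hx]

theorem τ_sq (v : ℕ) : τ v * τ v = 1 := cd_inj (by
  rw [cd_mul, cd_τ, cd_one]
  exact (by decide +kernel : ∀ v < 64, mu (tc v) (tc v) = c1) _ (Nat.mod_lt _ (by decide)))

theorem τ_inv (v : ℕ) : (τ v)⁻¹ = τ v := inv_eq_of_mul_eq_one_right (τ_sq v)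

theorem τ_zero : τ 0 = 1 := cd_inj (by rw [cd_τ, cd_one]; decide +kernel)

theorem τ_inj (k : u < 64) (l : v < 64) (e : τ u = τ v) : u = v := by
  have := congrArg cd e
  rw [cd_τ, cd_τ, Nat.mod_eq_of_lt k, Nat.mod_eq_of_lt l] at this
  exact (by decide +kernel : ∀ u < 64, ∀ v < 64, tc u = tc v → u = v) u k v l this

theorem τ_cm (k : v < 64) : g * τ v = τ v * g ↔ ac g v = v := by
  rw [← mul_inv_eq_iff_eq_mul, τ_cj g k]
  exact ⟨τ_inj (ac_lt _ _) k, fun e => by rw [e]⟩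

theorem τ_comm (k : u < 64) (l : v < 64) (e : fm v u = 0) : τ u * τ v = τ v * τ u :=
  (τ_cm l).2 (by rw [ac_τ k l, e]; simp)

theorem card_Sp : Nat.card Sp = 1451520 := Bt.card_Sp6

end CF.Ft
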