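import Cfsg.Agent.Ft.M1b

/-! The model of `Sp₆(2)`: transitivity, generation, Sylow subgroup, classes. -/

set_option autoImplicit false
set_option maxRecDepth 100000
set_option synthInstance.maxSize 4000

namespace CF.Ft

open Subgroup CF.Loc

attribute [local irreducible] ac cd el ee lv dd τ bb

variable {g m l e : Sp} {u v w c i k : ℕ} {H Q : Subgroup Sp}

theorem ac_2 {x y : ℕ} (a : x < 64) (b : y < 64) (c : w < 64) : ac (τ y * τ x) w = tv y (tv x w) := by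
  rw [ac_mul, ac_tv a c, ac_tv b (tv_lt a c)]

/-- two transvections move `1` to `u` -/
theorem mv1 (a : u < 64) (h : u ≠ 0) : ∃ x < 64, ∃ y < 64, ac (τ y * τ x) 1 = u := by
  obtain ⟨z, k, e⟩ := (by decide +kernel : ∀ u < 64, u ≠ 0 → ∃ z < 64, tv (z ^^^ u) (tv (1 ^^^ z) 1) = u) u a h
  exact ⟨_, xor_lt (by decide) k, _, xor_lt k a, (ac_2 (xor_lt (by decide) k) (xor_lt k a) (by decide)).trans e⟩

theorem mv2 (a : u < 64) (h : 1 < u) (b : fm u 1 = 0) : ∃ x < 64, ∃ y < 64, fm x 1 = 0 ∧ fm y 1 = 0 ∧ ac (τ y * τ x) 2 = u := by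
  obtain ⟨z, k, p, q, e⟩ := (by decide +kernel : ∀ u < 64, 1 < u → fm u 1 = 0 → ∃ z < 64, fm (2 ^^^ z) 1 = 0 ∧ fm (z ^^^ u) 1 = 0 ∧
    tv (z ^^^ u) (tv (2 ^^^ z) 2) = u) u a h b
  exact ⟨_, xor_lt (by decide) k, _, xor_lt k a, p, q, (ac_2 (xor_lt (by decide) k) (xor_lt k a) (by decide)).trans e⟩

theorem mv3 (a : u < 64) (h : 3 < u) (b : fm u 1 = 0) : ∃ x < 64, ∃ y < 64, (fm x 1 = 0 ∧ fm x 2 = 0) ∧ (fm y 1 = 0 ∧ fm y 2 = 0) ∧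
    ac (τ y * τ x) (if fm 2 u = 1 then 16 else 4) = u := by
  obtain ⟨z, k, p, q, e⟩ := (by decide +kernel : ∀ u < 64, 3 < u → fm u 1 = 0 → ∃ z < 64,
    (fm ((if fm 2 u = 1 then 16 else 4) ^^^ z) 1 = 0 ∧ fm ((if fm 2 u = 1 then 16 else 4) ^^^ z) 2 = 0) ∧ (fm (z ^^^ u) 1 = 0 ∧ fm (z ^^^ u) 2 = 0) ∧
    tv (z ^^^ u) (tv ((if fm 2 u = 1 then 16 else 4) ^^^ z) (if fm 2 u = 1 then 16 else 4)) = u) u a h b
  have l : (if fm 2 u = 1 then 16 else 4) < 64 := by split_ifs <;> decide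
  exact ⟨_, xor_lt l k, _, xor_lt k a, p, q, (ac_2 (xor_lt l k) (xor_lt k a) l).trans e⟩

theorem ex_1 (a : u < 64) (h : u ≠ 0) : ∃ g, ac g 1 = u := by
  obtain ⟨x, -, y, -, e⟩ := mv1 a h
  exact ⟨τ y * τ x, e⟩

theorem ex_P1' (a : u < 64) (h : 1 < u) (b : fm u 1 = 0) : ∃ g ∈ P1, ac g 2 = u := by
  obtain ⟨x, p, y, q, r, s, e⟩ := mv2 a h b
  exact ⟨τ y * τ x, mul_mem (τ_P1 q s) (τ_P1 p r), e⟩

theorem P1_fm (h : g ∈ P1) (a : v < 64) : fm (ac g v) 1 = fm v 1 := by rw [← ac_fm g a (by decide), mem_P1.1 h]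

theorem P1_lt (h : g ∈ P1) (a : v < 64) (b : 1 < v) : 1 < ac g v := not_le.1 fun z => by
  have : ac g⁻¹ (ac g v) < 2 := mem_Sb.1 (inv_mem h) _ (ac_lt g v) (show ac g v < 2 by omega)
  rw [ac_inv g a] at this; omega

theorem P2_lt (h : g ∈ P2) (a : v < 64) (b : 3 < v) : 3 < ac g v := not_le.1 fun z => by
  have : ac g⁻¹ (ac g v) < 4 := mem_Sb.1 (inv_mem h) _ (ac_lt g v) (show ac g v < 4 by omega)
  rw [ac_inv g a] at this; omega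

theorem ex_2 (a : u < 64) (b : v < 64) (h : u ≠ 0 ∧ v ≠ 0 ∧ u ≠ v) (k : fm u v = 0) : ∃ g, ac g 1 = u ∧ ac g 2 = v := by
  obtain ⟨g, rfl⟩ := ex_1 a h.1
  have n0 := ac_ne g⁻¹ b h.2.1
  have n1 : ac g⁻¹ v ≠ 1 := fun z => h.2.2 (by rw [← z, ac_inv' g b])
  obtain ⟨p, m, e⟩ := ex_P1' (ac_lt g⁻¹ v) (by omega) (by rw [← ac_fm g (ac_lt _ _) (by decide), ac_inv' g b, fm_symm b a, k])
  exact ⟨g * p, by rw [ac_mul, mem_P1.1 m], by rw [ac_mul, e, ac_inv' g b]⟩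

theorem ex_P1 (a : u < 64) (b : v < 64) (h : 1 < u ∧ 1 < v ∧ 1 < u ^^^ v) (k : fm u 1 = 0 ∧ fm v 1 = 0) :
    ∃ g ∈ P1, ac g 2 = u ∧ ac g (if fm u v = 1 then 16 else 4) = v := by
  obtain ⟨g, m, rfl⟩ := ex_P1' a h.1 k.1
  have n1 := P1_lt (inv_mem m) b h.2.1
  have n2 := P1_lt (inv_mem m) (xor_lt a b) h.2.2
  rw [ac_xor, ac_inv g (by decide)] at n2
  have n3 : 3 < ac g⁻¹ v := not_le.1 fun z => by generalize ac g⁻¹ v = x at *; interval_cases x <;> simp at n2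
  obtain ⟨x, p, y, q, r, s, e⟩ := mv3 (ac_lt g⁻¹ v) n3 ((P1_fm (inv_mem m) b).trans k.2)
  have f := mul_mem (τ_F4 q s.1 s.2) (τ_F4 p r.1 r.2)
  rw [← ac_fm g (by decide) (ac_lt _ _), ac_inv' g b] at e
  exact ⟨g * _, mul_mem m (F4_P1 f), by rw [ac_mul, (mem_F4.1 f).2], by rw [ac_mul, e, ac_inv' g b]⟩

theorem ex_lev {u3 v2 v3 : ℕ} (a : u < 64 ∧ u3 < 64 ∧ v2 < 64 ∧ v3 < 64) (b : fm u 1 = 0 ∧ fm u3 1 = 0 ∧ fm v2 1 = 0 ∧ fm v3 1 = 0)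
    (c : fm u u3 = 0 ∧ fm u v2 = 1 ∧ fm u v3 = 0 ∧ fm u3 v2 = 0 ∧ fm u3 v3 = 1 ∧ fm v2 v3 = 0) :
    ∃ g ∈ P1, ac g 2 = u ∧ ac g 4 = u3 ∧ ac g 16 = v2 ∧ ac g 32 = v3 := by
  obtain ⟨g, m, e, f⟩ := ex_P1 a.1 a.2.2.1 ((by decide +kernel : ∀ u < 64, ∀ v < 64, fm u 1 = 0 → fm v 1 = 0 → fm u v = 1 →
    1 < u ∧ 1 < v ∧ 1 < u ^^^ v) _ a.1 _ a.2.2.1 b.1 b.2.2.1 c.2.1) ⟨b.1, b.2.2.1⟩
  rw [if_pos c.2.1] at f
  have t : ∀ {x y}, x < 64 → y < 64 → fm x (ac g⁻¹ y) = fm (ac g x) y := fun p q => by rw [← ac_fm g p (ac_lt _ _), ac_inv' g q]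
  obtain ⟨z, hz, k⟩ := (by decide +kernel : ∀ x < 64, fm x 1 = 0 ∧ fm 2 x = 0 ∧ fm 16 x = 0 → ∀ y < 64, fm y 1 = 0 ∧ fm 2 y = 0 ∧ fm 16 y = 0 →
    fm x y = 1 → ∃ z < 64, ok (pk 1 2 x z 16 y) = true) _ (ac_lt g⁻¹ u3)
      ⟨(P1_fm (inv_mem m) a.2.1).trans b.2.1, by rw [t (by decide) a.2.1, e, c.1], by rw [t (by decide) a.2.1, f, fm_symm a.2.2.1 a.2.1, c.2.2.2.1]⟩
      _ (ac_lt g⁻¹ v3) ⟨(P1_fm (inv_mem m) a.2.2.2).trans b.2.2.2, by rw [t (by decide) a.2.2.2, e, c.2.2.1],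
        by rw [t (by decide) a.2.2.2, f, c.2.2.2.2.2]⟩ (by rw [ac_fm _ a.2.1 a.2.2.2, c.2.2.2.2.1])
  obtain ⟨p1, p2, p3, -, p5, p6⟩ := cd_col (el (pk 1 2 (ac g⁻¹ u3) z 16 (ac g⁻¹ v3)))
  obtain ⟨q1, q2, q3, -, q5, q6⟩ := pk_col (a := 1) (b := 2) (e := 16) (by decide) (by decide) (ac_lt g⁻¹ u3) hz (by decide) (ac_lt g⁻¹ v3)
  rw [cd_el k] at p1 p2 p3 p5 p6
  generalize el _ = h at p1 p2 p3 p5 p6
  exact ⟨g * h, mul_mem m (mem_P1.2 (p1.symm.trans q1)), by rw [ac_mul, ← p2, q2, e], by rw [ac_mul, ← p3, q3, ac_inv' g a.2.1],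
    by rw [ac_mul, ← p5, q5, f], by rw [ac_mul, ← p6, q6, ac_inv' g a.2.2.2]⟩

theorem gen_F4 (h : ∀ v < 64, fm v 1 = 0 → fm v 2 = 0 → τ v ∈ H) : Fx 4 ≤ H := fun g m => by
  obtain ⟨a, b⟩ := mem_F4.1 m
  obtain ⟨x, p, y, q, r, s, e⟩ := mv3 (ac_lt g 4) (P2_lt (F4_P2 m) (by decide) (by decide)) (P1_fm (F4_P1 m) (by decide))
  rw [if_neg (by have := ac_fm g (u := 2) (v := 4) (by decide) (by decide); rw [b] at this; rw [this]; decide)] at e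
  obtain ⟨c, d⟩ := mem_F4.1 (inv_mem (mul_mem (τ_F4 q s.1 s.2) (τ_F4 p r.1 r.2)))
  have := gen_EE (H := H) (fun v l => h v (by omega) ((by decide : ∀ v < 8, fm v 1 = 0) v l) ((by decide : ∀ v < 8, fm v 2 = 0) v l))
    (mem_EE'.2 (show ac ((τ y * τ x)⁻¹ * g) 1 = 1 ∧ _ from ⟨by rw [ac_mul, a, c], by rw [ac_mul, b, d], by rw [ac_mul, ← e, ac_inv _ (by decide)]⟩))
  exact (mul_mem_cancel_left (inv_mem (mul_mem (h y q s.1 s.2) (h x p r.1 r.2)))).1 this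

theorem gen_F2 (h : ∀ v < 64, fm v 1 = 0 → τ v ∈ H) : P1 ≤ H := fun g m => by
  obtain ⟨x, p, y, q, r, s, e⟩ := mv2 (ac_lt g 2) (P1_lt m (by decide) (by decide)) (P1_fm m (by decide))
  have := gen_F4 (H := H) (fun v l a _ => h v l a) (mem_F4.2 (show ac ((τ y * τ x)⁻¹ * g) 1 = 1 ∧ _ from
    ⟨mem_P1.1 (mul_mem (inv_mem (mul_mem (τ_P1 q s) (τ_P1 p r))) m), by rw [ac_mul, ← e, ac_inv _ (by decide)]⟩))
  exact (mul_mem_cancel_left (inv_mem (mul_mem (h y q s) (h x p r)))).1 this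

theorem τ_step {x : ℕ} (a : x < 64) (b : v < 64) (p : τ x ∈ H) (q : τ v ∈ H) : τ (tv x v) ∈ H := by
  rw [← ac_tv a b, ← τ_cj _ b]; exact mul_mem (mul_mem p q) (inv_mem p)

/-- closure of a list of centres under the listed steps -/
def run : List (ℕ × ℕ) → List ℕ → List ℕ
  | [], s => s
  | p :: l, s => if p.1 ∈ s ∧ p.2 ∈ s then run l (tv p.1 p.2 :: s) else s

theorem run_mem (l : List (ℕ × ℕ)) : ∀ s : List ℕ, (∀ v ∈ s, v < 64 ∧ τ v ∈ H) → ∀ v ∈ run l s, v < 64 ∧ τ v ∈ H := by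
  induction l with
  | nil => exact fun _ h => h
  | cons p l i =>
    intro s h
    rw [run]
    split_ifs with c
    · exact i _ (List.forall_mem_cons.2 ⟨⟨tv_lt (h _ c.1).1 (h _ c.2).1, τ_step (h _ c.1).1 (h _ c.2).1 (h _ c.1).2 (h _ c.2).2⟩, h⟩)
    · exact h

theorem gen_P1 (h : ∀ v ∈ [1, 2, 3, 4, 6, 16, 32], τ v ∈ H) : P1 ≤ H := gen_F2 fun v a b => by
  obtain rfl | m := (by decide +kernel : ∀ v < 64, fm v 1 = 0 → v = 0 ∨ v ∈ run [(2, 16), (3, 16), (3, 18), (4, 32), (6, 16), (6, 32), (6, 18),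
    (6, 19), (6, 17), (6, 36), (16, 38), (16, 23), (16, 34), (32, 20), (32, 21), (32, 23), (32, 7), (2, 50), (3, 50), (3, 48), (4, 39), (6, 39),
    (6, 35), (32, 37)] [1, 2, 3, 4, 6, 16, 32]) v a b
  · exact τ_zero ▸ one_mem H
  · exact (run_mem _ _ (fun v m => ⟨(by decide : ∀ v ∈ [1, 2, 3, 4, 6, 16, 32], v < 64) v m, h v m⟩) v m).2

theorem gen_P2 (h : Fx 4 ≤ H) (a : bb 1 16 ∈ H) (b : σ3 ∈ H) : P2 ≤ H := fun g m => by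
  obtain ⟨p, q⟩ := mem_P2.1 m
  obtain ⟨i, -, j, -, e1, e2⟩ := (by decide +kernel : ∀ u < 4, ∀ v < 4, u ≠ 0 → v ≠ 0 → u ≠ v → ∃ i < 3, ∃ j < 2,
    (ap (mu (bc 1 16) (bc 2 8)))^[i] 1 = u ∧ (ap (mu (bc 1 16) (bc 2 8)))^[i] ((ap (bc 1 16))^[j] 2) = v) _ p _ q (ac_ne g (by decide) (by decide))
    (ac_ne g (by decide) (by decide)) fun z => absurd (ac_inj (by decide) (by decide) z) (by decide)
  have w : ∀ (x : Sp) (n : ℕ), ∀ v < 64, ac (x ^ n) v = (ap (cd x))^[n] v := fun x n => by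
    induction n with
    | zero => exact fun v l => by rw [pow_zero, ac_one l]; rfl
    | succ n i => exact fun v l => by rw [pow_succ, ac_mul, i _ (ac_lt _ _), ac_cd]; rfl
  rw [← cd_σ, ← w _ _ _ (by decide)] at e1
  replace e1 : ac (σ3 ^ i * bb 1 16 ^ j) 1 = ac g 1 := by rw [ac_mul, mem_P1.1 (pow_mem (SS_P1 x_SS.1) j), e1]
  rw [← cd_σ, ← cd_bb, ← w _ j 2 (by decide), ← w _ _ _ (ac_lt _ _), ← ac_mul] at e2
  exact (mul_mem_cancel_left (inv_mem (mul_mem (pow_mem b i) (pow_mem a j)))).1 (h (mem_F4.2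
    ⟨by rw [ac_mul, ← e1, ac_inv _ (by decide)], by rw [ac_mul, ← e2, ac_inv _ (by decide)]⟩))

theorem gen_all (h : ∀ v < 64, τ v ∈ H) : H = ⊤ := eq_top_iff.2 fun g _ => by
  obtain ⟨x, p, y, q, e⟩ := mv1 (ac_lt g 1) (ac_ne g (by decide) (by decide))
  exact (mul_mem_cancel_left (inv_mem (mul_mem (h y q) (h x p)))).1
    (gen_F2 (fun v l _ => h v l) (mem_P1.2 (by rw [ac_mul, ← e, ac_inv _ (by decide)])))

theorem gen_top (h : P1 ≤ H) (a : g ∈ H) (b : g ∉ P1) : H = ⊤ := by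
  obtain ⟨x, p, q, r⟩ := (by decide +kernel : ∀ u < 64, u ≠ 0 → u ≠ 1 → ∃ x < 64, fm x 1 = 0 ∧ fm x u = 1) _ (ac_lt g⁻¹ 1)
    (ac_ne _ (by decide) (by decide)) fun z => b (inv_mem_iff.1 (mem_P1.2 z))
  rw [← ac_fm g p (ac_lt _ _), ac_inv' g (by decide)] at r
  have t : τ (ac g x) ∈ H := τ_cj g p ▸ mul_mem (mul_mem a (h (τ_P1 p q))) (inv_mem a)
  refine gen_all fun v l => ?_
  obtain k | ⟨z, k, c, d, e⟩ := (by decide +kernel : ∀ u < 64, fm u 1 = 1 → ∀ v < 64, fm v 1 = 0 ∨ ∃ z < 64, fm (u ^^^ z) 1 = 0 ∧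
    fm (z ^^^ v) 1 = 0 ∧ tv (z ^^^ v) (tv (u ^^^ z) u) = v) _ (ac_lt g x) r v l
  · exact h (τ_P1 l k)
  · have k' := xor_lt (ac_lt g x) k
    exact e ▸ τ_step (xor_lt k l) (tv_lt k' (ac_lt _ _)) (h (τ_P1 (xor_lt k l) d)) (τ_step k' (ac_lt _ _) (h (τ_P1 k' c)) t)

theorem card_EE : Nat.card EE = 64 :=
  (Nat.card_eq_of_bijective (fun k : Fin 64 => (⟨ee k, ee_EE k⟩ : EE)) ⟨fun a b e => Fin.ext (ee_inj a.2 b.2 (congrArg Subtype.val e)),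
    fun ⟨_, m⟩ => have ⟨k, a, e⟩ := mem_EE.1 m; ⟨⟨k, a⟩, Subtype.ext e.symm⟩⟩).symm.trans (Nat.card_fin 64)

theorem card_AL : Nat.card AL = 8 :=
  (Nat.card_eq_of_bijective (fun k : Fin 8 => (⟨ee (8 * k), mem_AL.2 ⟨k, k.2, rfl⟩⟩ : AL)) ⟨fun a b e => Fin.ext (by
    have := ee_inj (by omega) (by omega) (congrArg Subtype.val e); omega),
    fun ⟨_, m⟩ => have ⟨k, a, e⟩ := mem_AL.1 m; ⟨⟨k, a⟩, Subtype.ext e.symm⟩⟩).symm.trans (Nat.card_fin 8)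

theorem dd_inj {j l : ℕ} (a : i < 8) (b : j < 8) (c : k < 64) (d : l < 64) (e : dd i * ee k = dd j * ee l) : i = j ∧ k = l := by
  have p := congrArg (ac · 2) e
  have q := congrArg (ac · 4) e
  simp only [ac_mul, (mem_EE'.1 (ee_EE _)).2.1, (mem_EE'.1 (ee_EE _)).2.2] at p q
  simp only [ac_cd, cd_dd] at p q
  obtain rfl := (by decide +kernel : ∀ i < 8, ∀ j < 8, ap (dc i) 2 = ap (dc j) 2 → ap (dc i) 4 = ap (dc j) 4 → i = j) i a j b p q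
  exact ⟨rfl, ee_inj c d (mul_left_cancel e)⟩

theorem card_SS : Nat.card SS = 512 :=
  (Nat.card_eq_of_bijective (fun k : Fin 8 × Fin 64 => (⟨dd k.1 * ee k.2, mem_SS'.2 ⟨_, k.1.2, _, k.2.2, rfl⟩⟩ : SS))
    ⟨fun a b e => have z := dd_inj a.1.2 b.1.2 a.2.2 b.2.2 (congrArg Subtype.val e); Prod.ext (Fin.ext z.1) (Fin.ext z.2),
    fun ⟨_, m⟩ => have ⟨i, a, k, b, e⟩ := mem_SS'.1 m; ⟨(⟨i, a⟩, ⟨k, b⟩), Subtype.ext e.symm⟩⟩).symm.trans (by simp)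

theorem SS_p : IsPGroup 2 SS := .of_card (n := 9) card_SS

theorem SS_index : ¬ 2 ∣ SS.index := by
  have := SS.card_mul_index
  rw [card_SS, card_Sp] at this
  omega

theorem SS_max (p : IsPGroup 2 Q) (h : SS ≤ Q) : Q ≤ SS := ((SS_p.toSylow SS_index).3 p h).le

theorem SS_syl (p : IsPGroup 2 Q) : ∃ g, ∀ x ∈ Q, g * x * g⁻¹ ∈ SS := by
  obtain ⟨R, le⟩ := p.exists_le_sylow
  obtain ⟨g, e⟩ := MulAction.exists_smul_eq Sp R (SS_p.toSylow SS_index)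
  refine ⟨g, fun x m => ?_⟩
  have : g * x * g⁻¹ ∈ (g • R : Sylow 2 Sp) := smul_mem_pointwise_smul x (MulAut.conj g) R (le m)
  rwa [e] at this

/-- the class `0 … 4` (`1, a, b, c, d`) of `ee k` -/
def kl (k : ℕ) : ℕ := 0x1334344244433442443443423143434243444432341344323444133243313110 / 16 ^ k % 16

theorem cls_E (h : k < 64) : ∃ l ∈ MM, l * ee k * l⁻¹ = [1, τ 1, bb 1 2, τ 1 * bb 1 2, τ 4 * bb 1 2].getD (kl k) 1 := by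
  obtain ⟨c, a, b, e⟩ : ∃ c, ok (lc c) = true ∧ kl k < 5 ∧ mu (lc c) (ec k) =
      mu ([c1, tc 1, bc 1 2, mu (tc 1) (bc 1 2), mu (tc 4) (bc 1 2)].getD (kl k) c1) (lc c) :=
    ⟨_, (by decide +kernel : ∀ k < 64, let c := 0x53caa2b2e52d9ae92ea99a8aa669b998e86639d2a6b0e2b43aa90e99a70ea54ab230a8542bcbaa32a3958a632a8b9b94662b9189426253d3ae30a52c2a230abba71465489a314254 / 512 ^ k % 512
      ok (lc c) = true ∧ kl k < 5 ∧ mu (lc c) (ec k) =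
        mu ([c1, tc 1, bc 1 2, mu (tc 1) (bc 1 2), mu (tc 4) (bc 1 2)].getD (kl k) c1) (lc c)) k h⟩
  refine ⟨lv c, lv_MM a, mul_inv_eq_iff_eq_mul.2 (cd_inj ?_)⟩
  rw [cd_mul, cd_mul, cd_lv a, cd_ee, e]
  generalize kl k = j at b
  interval_cases j <;> simp only [List.getD_cons_zero, List.getD_cons_succ, cd_one, cd_mul, cd_τ, cd_bb]

theorem cls_EE (h : m * m = 1) : ∃ g, g * m * g⁻¹ ∈ EE := by
  obtain ⟨g, a⟩ := SS_syl (Q := zpowers m) (.of_card (n := (orderOf m).log2) (by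
    rw [Nat.card_zpowers]
    rcases (Nat.dvd_prime Nat.prime_two).1 (orderOf_dvd_of_pow_eq_one (sq m ▸ h)) with e | e <;> rw [e] <;> rfl))
  obtain ⟨i, p, k, q, e⟩ := mem_SS'.1 (a m (mem_zpowers m))
  have s : mu (mu (dc i) (ec k)) (mu (dc i) (ec k)) = c1 := by
    rw [← cd_dd, ← cd_ee, ← cd_mul, ← cd_mul, ← e, conj_mul, h, ← cd_one]; simp
  obtain ⟨c, -, o, f⟩ := (by decide +kernel : ∀ i < 8, ∀ k < 64, mu (mu (dc i) (ec k)) (mu (dc i) (ec k)) = c1 →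
    ∃ c ∈ [c1, 4565631105, 4565647489, 2686517505, 2686525697, 4565696897, 4599259521], ok c = true ∧
      ∀ v ∈ [1, 2, 4], ap (dc i) (ap (ec k) (ap c v)) = ap c v) i p k q s
  rw [← cd_el o, ← cd_dd, ← cd_ee] at f
  simp only [ap_cd, ← ac_mul, List.forall_mem_cons, ← mul_assoc, ← e] at f
  generalize el c = x at f
  refine ⟨x⁻¹ * g, mem_EE'.2 ?_⟩
  have z : x⁻¹ * g * m * (x⁻¹ * g)⁻¹ = x⁻¹ * (g * m * g⁻¹ * x) := by group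
  rw [z, ac_mul, ac_mul x⁻¹, ac_mul x⁻¹, f.1, f.2.1, f.2.2.1]
  exact ⟨ac_inv x (by decide), ac_inv x (by decide), ac_inv x (by decide)⟩

theorem cls (h : m * m = 1) : ∃ g, g * m * g⁻¹ = 1 ∨ g * m * g⁻¹ = τ 1 ∨ g * m * g⁻¹ = bb 1 2 ∨ g * m * g⁻¹ = τ 1 * bb 1 2 ∨
    g * m * g⁻¹ = τ 4 * bb 1 2 := by
  obtain ⟨g, a⟩ := cls_EE h
  obtain ⟨k, b, e⟩ := mem_EE.1 a
  obtain ⟨l, -, f⟩ := cls_E b
  refine ⟨l * g, ?_⟩
  rw [show l * g * m * (l * g)⁻¹ = l * (g * m * g⁻¹) * l⁻¹ by group, e, f]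
  have := (by decide +kernel : ∀ k < 64, kl k < 5) k b
  generalize kl k = j at this
  interval_cases j <;> simp

end CF.Ft
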