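import Cfsg.Agent.Ft.D

/-! The model of `Sp₆(2)`: membership in the parabolic subgroups. -/

set_option autoImplicit false
set_option maxRecDepth 100000
set_option synthInstance.maxSize 4000

namespace CF.Ft

open Subgroup CF.Loc

attribute [local irreducible] ac cd el ee lv dd τ bb

variable {g m l e : Sp} {u v w c i k : ℕ} {H Q : Subgroup Sp}

instance : Finite Sp := Nat.finite_of_card_ne_zero (by rw [card_Sp]; decide)

theorem cd_bb (u v : ℕ) : cd (bb u v) = bc u v := by simp only [bb, bc, cd_mul, cd_τ]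

theorem ec_mod (k : ℕ) : ec (k % 64) = ec k := by unfold ec; congr 1 <;> omega

theorem ee_mod (k : ℕ) : ee (k % 64) = ee k := by rw [ee, ec_mod, ee]

theorem cd_ee (k : ℕ) : cd (ee k) = ec k :=
  ee.eq_1 k ▸ cd_el (ec_mod k ▸ (by decide +kernel : ∀ k < 64, ok (ec k) = true) _ (Nat.mod_lt _ (by decide)))

theorem cd_lv (h : ok (lc c) = true) : cd (lv c) = lc c := lv.eq_1 c ▸ cd_el h

theorem dc_mod (i : ℕ) : dc (i % 8) = dc i := by unfold dc; congr 1; omega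

theorem cd_dd (i : ℕ) : cd (dd i) = dc i :=
  dd.eq_1 i ▸ cd_el (dc_mod i ▸ (by decide +kernel : ∀ k < 8, ok (dc k) = true) _ (Nat.mod_lt _ (by decide)))

theorem cd_ρ : cd ρ3 = mu (tc 4) (tc 32) := by simp only [ρ3, cd_mul, cd_τ]

theorem cd_σ : cd σ3 = mu (bc 1 16) (bc 2 8) := by simp only [σ3, cd_mul, cd_bb]

theorem bb_cj (g : Sp) (k : u < 64) (l : v < 64) : g * bb u v * g⁻¹ = bb (ac g u) (ac g v) := by
  rw [bb, bb, ← ac_xor, ← τ_cj g k, ← τ_cj g l, ← τ_cj g (xor_lt k l)]; group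

theorem ac_cd (g : Sp) (v : ℕ) : ac g v = ap (cd g) v := (ap_cd g v).symm

theorem ac_bits (g : Sp) (v : ℕ) : ac g v = v % 2 * ac g 1 ^^^ v / 2 % 2 * ac g 2 ^^^ v / 4 % 2 * ac g 4 ^^^ v / 8 % 2 * ac g 8 ^^^
    v / 16 % 2 * ac g 16 ^^^ v / 32 % 2 * ac g 32 := by
  rw [← ac_mod g v, bits]; simp only [ac_xor, ac_bit]

theorem ac_ne (g : Sp) (k : v < 64) (h : v ≠ 0) : ac g v ≠ 0 := fun e => h (ac_inj k (by decide) (e.trans (ac_zero g).symm))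

theorem fm_symm (k : u < 64) (l : v < 64) : fm u v = fm v u :=
  (by decide +kernel : ∀ u < 64, ∀ v < 64, fm u v = fm v u) u k v l

theorem mem_Sb {p : ℕ → Prop} : g ∈ Sb p ↔ ∀ v < 64, p v → p (ac g v) := Iff.rfl

theorem mem_Fx {n : ℕ} : g ∈ Fx n ↔ ∀ v < n, ac g v = v % 64 := Iff.rfl

theorem mem_P1 : g ∈ P1 ↔ ac g 1 = 1 := ⟨fun h => by
  have := h 1 (by decide) (by decide); have := ac_ne g (v := 1) (by decide) (by decide); omega, fun h v _ k => by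
  interval_cases v <;> simp [ac_zero, h]⟩

theorem mem_P2 : g ∈ P2 ↔ ac g 1 < 4 ∧ ac g 2 < 4 := ⟨fun h => ⟨h 1 (by decide) (by decide), h 2 (by decide) (by decide)⟩, fun h v _ k => by
  have := Nat.xor_lt_two_pow (n := 2) h.1 h.2
  rw [ac_bits]; interval_cases v <;> simp_all⟩

theorem mem_PP : g ∈ PP ↔ ac g 1 < 8 ∧ ac g 2 < 8 ∧ ac g 4 < 8 :=
  ⟨fun h => ⟨h 1 (by decide) (by decide), h 2 (by decide) (by decide), h 4 (by decide) (by decide)⟩, fun h v _ k => by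
    rw [ac_bits]
    exact (by decide +kernel : ∀ a < 8, ∀ b < 8, ∀ c < 8, ∀ v < 8, v % 2 * a ^^^ v / 2 % 2 * b ^^^ v / 4 % 2 * c < 8) _ h.1 _ h.2.1 _ h.2.2 v k
      |>.trans_le' (by simp [show v / 8 = 0 by omega, show v / 16 = 0 by omega, show v / 32 = 0 by omega])⟩

theorem mem_SS : g ∈ SS ↔ ac g 1 = 1 ∧ ac g 2 < 4 ∧ ac g 4 < 8 := by
  simp only [SS, mem_inf, mem_P1, mem_P2, mem_PP]; omega

theorem mem_F4 : g ∈ Fx 4 ↔ ac g 1 = 1 ∧ ac g 2 = 2 := ⟨fun h => ⟨h 1 (by decide), h 2 (by decide)⟩, fun h v k => by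
  rw [ac_bits, h.1, h.2]; interval_cases v <;> simp⟩

theorem mem_EE' : g ∈ EE ↔ ac g 1 = 1 ∧ ac g 2 = 2 ∧ ac g 4 = 4 :=
  ⟨fun h => ⟨h 1 (by decide), h 2 (by decide), h 4 (by decide)⟩, fun h v k => by
    rw [ac_bits, h.1, h.2.1, h.2.2]; interval_cases v <;> simp⟩

theorem mem_MM' : g ∈ MM ↔ g ∈ PP ∧ ac g 8 % 8 = 0 ∧ ac g 16 % 8 = 0 ∧ ac g 32 % 8 = 0 := and_congr_right fun _ =>
  ⟨fun h => ⟨h 8 (by decide) (by decide), h 16 (by decide) (by decide), h 32 (by decide) (by decide)⟩, fun h v k l => by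
    have x : ∀ a b : ℕ, a % 8 = 0 → b % 8 = 0 → (a ^^^ b) % 8 = 0 := fun a b p q => by
      rw [show 8 = 2 ^ 3 by rfl, Nat.xor_mod_two_pow] at *; rw [p, q]; rfl
    rw [ac_bits, show v % 2 = 0 by omega, show v / 2 % 2 = 0 by omega, show v / 4 % 2 = 0 by omega]
    refine x _ _ (x _ _ (x _ _ (by simp) ?_) ?_) ?_ <;> simp [Nat.mul_mod, h.1, h.2.1, h.2.2]⟩

theorem ee_mul1 (k b : ℕ) (h : i ∈ [1, 2, 4, 8, 16, 32]) : ee k * ee (b % 2 * i) = ee (k ^^^ b % 2 * i) := cd_inj (by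
  have := (by decide +kernel : ∀ k < 64, ∀ l ∈ [0, 1, 2, 4, 8, 16, 32], l < 64 ∧ mu (ec k) (ec l) = ec (k ^^^ l)) _
    (Nat.mod_lt k (by decide)) (b % 2 * i) (by rcases Nat.mod_two_eq_zero_or_one b with e | e <;> simp [e, List.mem_cons_of_mem _ h])
  rw [cd_mul, cd_ee, cd_ee, cd_ee, ← ec_mod k, ← ec_mod (k ^^^ _), show 64 = 2 ^ 6 by rfl, Nat.xor_mod_two_pow,
    Nat.mod_eq_of_lt (a := b % 2 * i) (b := 2 ^ 6) this.1]
  exact this.2)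

theorem ee_mul (k l : ℕ) : ee k * ee l = ee (k ^^^ l) := by
  have e : ee (k ^^^ l) = ee (k ^^^ l % 64) := by
    rw [← ee_mod, ← ee_mod (k ^^^ l % 64), show 64 = 2 ^ 6 by rfl, Nat.xor_mod_two_pow, Nat.xor_mod_two_pow, Nat.mod_mod]
  rw [e, ← ee_mod l, bits]
  simp only [← Nat.xor_assoc]
  simp only [← ee_mul1, List.mem_cons, true_or, or_true, mul_assoc]

theorem ee_inj {k l : ℕ} (a : k < 64) (b : l < 64) (h : ee k = ee l) : k = l := by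
  have := congrArg cd h
  rw [cd_ee, cd_ee] at this
  exact (by decide +kernel : ∀ k < 64, ∀ l < 64, ec k = ec l → k = l) k a l b this

theorem ee_val : ee 0 = 1 ∧ ee 1 = τ 1 ∧ ee 2 = τ 2 ∧ ee 4 = τ 4 ∧ ee 8 = bb 1 2 ∧ ee 16 = bb 1 4 ∧ ee 32 = bb 2 4 := by
  refine ⟨?_, ?_, ?_, ?_, ?_, ?_, ?_⟩ <;> exact cd_inj (by simp only [cd_ee, cd_τ, cd_bb, cd_one]; decide +kernel)

theorem ee_EE (k : ℕ) : ee k ∈ EE := mem_EE'.2 (by
  simp only [ac_cd, cd_ee, ← ec_mod k]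
  exact (by decide +kernel : ∀ k < 64, ap (ec k) 1 = 1 ∧ ap (ec k) 2 = 2 ∧ ap (ec k) 4 = 4) _ (Nat.mod_lt _ (by decide)))

theorem mem_EE : g ∈ EE ↔ ∃ k < 64, g = ee k := ⟨fun h => by
  obtain ⟨a, b, c⟩ := mem_EE'.1 h
  have f : ∀ x < 64, fm (ac g x) 1 = fm x 1 ∧ fm (ac g x) 2 = fm x 2 ∧ fm (ac g x) 4 = fm x 4 := fun x k =>
    ⟨by rw [← ac_fm g k (by decide), a], by rw [← ac_fm g k (by decide), b], by rw [← ac_fm g k (by decide), c]⟩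
  have q : ∀ x < 64, ac g x / 8 = x / 8 := fun x k => (by decide +kernel : ∀ x < 64, ∀ y < 64,
    fm y 1 = fm x 1 ∧ fm y 2 = fm x 2 ∧ fm y 4 = fm x 4 → y / 8 = x / 8) x k _ (ac_lt _ _) (f x k)
  have := (by decide +kernel : ∀ x < 8, ∀ y < 8, ∀ z < 8, fm (8 + x) (16 + y) = 0 → fm (8 + x) (32 + z) = 0 → fm (16 + y) (32 + z) = 0 →
    pk 1 2 4 (8 + x) (16 + y) (32 + z) = ec (x % 2 + 2 * (y / 2 % 2) + 4 * (z / 4) + 8 * (x / 2 % 2) + 16 * (x / 4) + 32 * (y / 4)))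
    (ac g 8 % 8) (Nat.mod_lt _ (by decide)) (ac g 16 % 8) (Nat.mod_lt _ (by decide)) (ac g 32 % 8) (Nat.mod_lt _ (by decide))
  have e1 : 8 + ac g 8 % 8 = ac g 8 := by have := q 8 (by decide); omega
  have e2 : 16 + ac g 16 % 8 = ac g 16 := by have := q 16 (by decide); omega
  have e3 : 32 + ac g 32 % 8 = ac g 32 := by have := q 32 (by decide); omega
  rw [e1, e2, e3] at this
  replace this := this (ac_fm g (by decide) (by decide)) (ac_fm g (by decide) (by decide)) (ac_fm g (by decide) (by decide))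
  generalize _ + 32 * (ac g 16 % 8 / 4) = k at this
  refine ⟨k % 64, Nat.mod_lt _ (by decide), cd_inj ?_⟩
  rw [ee_mod, cd_ee, cd, a, b, c, this],
  fun ⟨k, _, e⟩ => e ▸ ee_EE k⟩

theorem EE_sq (h : e ∈ EE) : e * e = 1 := by
  obtain ⟨k, -, rfl⟩ := mem_EE.1 h; rw [ee_mul, Nat.xor_self, ee_val.1]

theorem EE_cm (h : e ∈ EE) (k : m ∈ EE) : e * m = m * e := by
  obtain ⟨a, -, rfl⟩ := mem_EE.1 h; obtain ⟨b, -, rfl⟩ := mem_EE.1 k; rw [ee_mul, ee_mul, Nat.xor_comm]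

theorem τ_EE (h : v < 64) : τ v ∈ EE ↔ v < 8 := by
  simp only [mem_EE', ac_τ h, Nat.reduceLT]
  revert v; decide +kernel

theorem ee_gen (h : ∀ k ∈ [1, 2, 4, 8, 16, 32], ee k ∈ H) : EE ≤ H := fun g m => by
  obtain ⟨k, -, rfl⟩ := mem_EE.1 m
  have f : ∀ b, ∀ k ∈ [1, 2, 4, 8, 16, 32], ee (b % 2 * k) ∈ H := fun b k m => by
    rcases Nat.mod_two_eq_zero_or_one b with e | e <;> simp [e, ee_val.1, h k m]
  rw [← ee_mod, bits]
  simp only [← ee_mul]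
  refine mul_mem (mul_mem (mul_mem (mul_mem (mul_mem ?_ ?_) ?_) ?_) ?_) ?_ <;> exact f _ _ (by simp)

theorem gen_EE (h : ∀ v < 8, τ v ∈ H) : EE ≤ H := ee_gen (by
  obtain ⟨-, a, b, c, d, e, f⟩ := ee_val
  simp only [List.forall_mem_cons, a, b, c, d, e, f, bb]
  exact ⟨h _ (by decide), h _ (by decide), h _ (by decide), mul_mem (mul_mem (h _ (by decide)) (h _ (by decide))) (h _ (by decide)),
    mul_mem (mul_mem (h _ (by decide)) (h _ (by decide))) (h _ (by decide)),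
    mul_mem (mul_mem (h _ (by decide)) (h _ (by decide))) (h _ (by decide)), by simp⟩)

theorem mem_AL : g ∈ AL ↔ ∃ k < 8, g = ee (8 * k) := by
  obtain ⟨z, -, -, -, d, e, f⟩ := ee_val
  refine ⟨fun h => closure_induction (p := fun g _ => ∃ k < 8, g = ee (8 * k)) (fun x m => ?_) ⟨0, by decide, z.symm⟩ ?_ ?_ h, ?_⟩
  · rcases m with rfl | rfl | rfl
    exacts [⟨1, by decide, d.symm⟩, ⟨2, by decide, e.symm⟩, ⟨4, by decide, f.symm⟩]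
  · rintro _ _ - - ⟨k, a, rfl⟩ ⟨l, b, rfl⟩
    exact ⟨k ^^^ l, Nat.xor_lt_two_pow (n := 3) a b, by
      rw [ee_mul, (by decide +kernel : ∀ k < 8, ∀ l < 8, 8 * k ^^^ 8 * l = 8 * (k ^^^ l)) k a l b]⟩
  · rintro _ - ⟨k, a, rfl⟩
    exact ⟨k, a, inv_eq_of_mul_eq_one_right (EE_sq (ee_EE _))⟩
  · rintro ⟨k, a, rfl⟩
    have a1 : ee 8 ∈ AL := d ▸ subset_closure (by simp)
    have a2 : ee 16 ∈ AL := e ▸ subset_closure (by simp)
    have a3 : ee 32 ∈ AL := f ▸ subset_closure (by simp)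
    have m := fun {a b} (p : ee a ∈ AL) (q : ee b ∈ AL) => ee_mul a b ▸ mul_mem p q
    interval_cases k
    exacts [z ▸ one_mem _, a1, a2, m a1 a2, a3, m a1 a3, m a2 a3, m (m a1 a2) a3]

theorem AL_le : AL ≤ EE := fun _ h => have ⟨_, _, e⟩ := mem_AL.1 h; e ▸ ee_EE _

theorem EE_le : EE ≤ SS := fun _ h => have ⟨a, b, c⟩ := mem_EE'.1 h; mem_SS.2 ⟨a, by omega, by omega⟩

theorem SS_le : SS ≤ PP := inf_le_right

theorem EE_cj (h : g ∈ PP) (k : e ∈ EE) : g * e * g⁻¹ ∈ EE := fun v l => by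
  have := inv_mem h v (by omega) l
  rw [ac_mul, ac_mul, k _ this, ac_mod, ac_inv' g (by omega), Nat.mod_eq_of_lt (by omega)]

theorem Al_iff : Al m ↔ ∀ v < 64, fm (ap (cd m) v) v = 0 := by simp only [Al, ac_cd]

theorem Al_cj (g : Sp) (h : Al m) : Al (g * m * g⁻¹) := fun v k => by
  rw [ac_mul, ac_mul, ← h _ (ac_lt g⁻¹ v), ← ac_fm g (ac_lt _ _) (ac_lt g⁻¹ v), ac_inv' g k]

theorem Al_AL (h : e ∈ EE) : Al e ↔ e ∈ AL := by
  obtain ⟨k, a, rfl⟩ := mem_EE.1 h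
  rw [Al_iff, cd_ee, (by decide +kernel : ∀ k < 64, (∀ v < 64, fm (ap (ec k) v) v = 0) ↔ k % 8 = 0) k a, mem_AL]
  exact ⟨fun z => ⟨k / 8, by omega, by congr 1; omega⟩, fun ⟨l, b, z⟩ => by have := ee_inj a (by omega) z; omega⟩

theorem AL_cj (h : g ∈ PP) (k : e ∈ AL) : g * e * g⁻¹ ∈ AL :=
  (Al_AL (EE_cj h (AL_le k))).1 (Al_cj g ((Al_AL (AL_le k)).2 k))

theorem ex_lv (a : u < 8) (b : v < 8) (c : w < 8) (h : u ≠ 0 ∧ v ≠ 0 ∧ v ≠ u ∧ w ≠ 0 ∧ w ≠ u ∧ w ≠ v ∧ w ≠ u ^^^ v) :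
    ok (lc (u + 8 * v + 64 * w)) = true ∧ ac (lv (u + 8 * v + 64 * w)) 1 = u ∧ ac (lv (u + 8 * v + 64 * w)) 2 = v ∧
      ac (lv (u + 8 * v + 64 * w)) 4 = w := by
  have := (by decide +kernel : ∀ u < 8, ∀ v < 8, ∀ w < 8, u ≠ 0 ∧ v ≠ 0 ∧ v ≠ u ∧ w ≠ 0 ∧ w ≠ u ∧ w ≠ v ∧ w ≠ u ^^^ v →
    ok (lc (u + 8 * v + 64 * w)) = true ∧ ap (lc (u + 8 * v + 64 * w)) 1 = u ∧ ap (lc (u + 8 * v + 64 * w)) 2 = v ∧
      ap (lc (u + 8 * v + 64 * w)) 4 = w) u a v b w c h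
  simpa only [ac_cd, cd_lv this.1] using this

theorem lv_MM (h : ok (lc c) = true) : lv c ∈ MM := by
  have e : lc (c % 512) = lc c := by
    rw [lc, lc, show c % 512 % 8 = c % 8 by omega, show c % 512 / 8 % 8 = c / 8 % 8 by omega, show c % 512 / 64 % 8 = c / 64 % 8 by omega]
  simp only [mem_MM', mem_PP, ac_cd, cd_lv h]
  rw [← e]
  exact (by decide +kernel : ∀ c < 512, (ap (lc c) 1 < 8 ∧ ap (lc c) 2 < 8 ∧ ap (lc c) 4 < 8) ∧ ap (lc c) 8 % 8 = 0 ∧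
    ap (lc c) 16 % 8 = 0 ∧ ap (lc c) 32 % 8 = 0) _ (Nat.mod_lt _ (by decide))

theorem ex_MM (a : u < 8) (b : v < 8) (c : w < 8) (h : u ≠ 0 ∧ v ≠ 0 ∧ v ≠ u ∧ w ≠ 0 ∧ w ≠ u ∧ w ≠ v ∧ w ≠ u ^^^ v) :
    ∃ l ∈ MM, ac l 1 = u ∧ ac l 2 = v ∧ ac l 4 = w := have k := ex_lv a b c h; ⟨_, lv_MM k.1, k.2⟩

theorem PP_lv (h : g ∈ PP) : ok (lc (ac g 1 + 8 * ac g 2 + 64 * ac g 4)) = true ∧
    (lv (ac g 1 + 8 * ac g 2 + 64 * ac g 4))⁻¹ * g ∈ EE := by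
  obtain ⟨a, b, c⟩ := mem_PP.1 h
  have n : ∀ {x y}, x < 64 → y < 64 → x ≠ y → ac g x ≠ ac g y := fun p q r z => r (ac_inj p q z)
  obtain ⟨k, p, q, r⟩ := ex_lv a b c ⟨ac_ne g (by decide) (by decide), ac_ne g (by decide) (by decide), n (by decide) (by decide) (by decide),
    ac_ne g (by decide) (by decide), n (by decide) (by decide) (by decide), n (by decide) (by decide) (by decide),
    ac_xor g 1 2 ▸ n (by decide) (by decide) (by decide)⟩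
  refine ⟨k, ?_⟩
  generalize lv _ = l at p q r ⊢
  exact mem_EE'.2 ⟨by rw [ac_mul, ← p, ac_inv _ (by decide)], by rw [ac_mul, ← q, ac_inv _ (by decide)],
    by rw [ac_mul, ← r, ac_inv _ (by decide)]⟩

theorem PP_dec (h : g ∈ PP) : ∃ l ∈ MM, ∃ e ∈ EE, g = l * e :=
  have k := PP_lv h; ⟨_, lv_MM k.1, _, k.2, by group⟩

theorem MM_EE (h : g ∈ MM) (k : g ∈ EE) : g = 1 := by
  obtain ⟨j, a, rfl⟩ := mem_EE.1 k
  have := (mem_MM'.1 h).2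
  simp only [ac_cd, cd_ee] at this
  rw [(by decide +kernel : ∀ k < 64, ap (ec k) 8 % 8 = 0 ∧ ap (ec k) 16 % 8 = 0 ∧ ap (ec k) 32 % 8 = 0 → k = 0) j a this, ee_val.1]

theorem mem_MM : g ∈ MM ↔ ∃ c < 512, ok (lc c) = true ∧ g = lv c := ⟨fun h => by
  have k := PP_lv h.1
  have := mem_PP.1 h.1
  exact ⟨_, by omega, k.1, (inv_mul_eq_one.1 (MM_EE (mul_mem (inv_mem (lv_MM k.1)) h) k.2)).symm⟩, fun ⟨_, _, k, e⟩ => e ▸ lv_MM k⟩

theorem dd_SS (i : ℕ) : dd i ∈ SS := mem_SS.2 (by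
  simp only [ac_cd, cd_dd, ← dc_mod i]
  exact (by decide +kernel : ∀ k < 8, ap (dc k) 1 = 1 ∧ ap (dc k) 2 < 4 ∧ ap (dc k) 4 < 8) _ (Nat.mod_lt _ (by decide)))

theorem dd_lv (i : ℕ) : dd i = lv (1 + 8 * (2 + i % 2) + 64 * (4 + i / 2 % 4)) := by rw [dd, dc, lv]

theorem mem_SS' : g ∈ SS ↔ ∃ i < 8, ∃ k < 64, g = dd i * ee k := by
  refine ⟨fun h => ?_, ?_⟩
  swap
  · rintro ⟨i, -, k, -, rfl⟩
    exact mul_mem (dd_SS i) (EE_le (ee_EE k))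
  obtain ⟨k, p, q⟩ := mem_EE.1 (PP_lv (SS_le h)).2
  have h2 : g⁻¹ ∈ P2 := inv_mem (mem_inf.1 (mem_inf.1 h).1).2
  obtain ⟨a, b, c⟩ := mem_SS.1 h
  have b0 : ac g 2 ≠ 1 := fun z => absurd (ac_inj (by decide) (by decide) (z.trans a.symm)) (by decide)
  have b1 := ac_ne g (v := 2) (by decide) (by decide)
  have c1 : 4 ≤ ac g 4 := not_lt.1 fun z => by
    have : ac g⁻¹ (ac g 4) < 4 := mem_Sb.1 h2 _ (ac_lt g 4) z
    rw [ac_inv g (by decide)] at this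
    exact absurd this (by decide)
  rw [inv_mul_eq_iff_eq_mul, a] at q
  generalize ac g 2 = x at *
  generalize ac g 4 = y at *
  refine ⟨x - 2 + 2 * (y - 4), by omega, k, p, ?_⟩
  have e : 1 + 8 * (2 + (x - 2 + 2 * (y - 4)) % 2) + 64 * (4 + (x - 2 + 2 * (y - 4)) / 2 % 4) = 1 + 8 * x + 64 * y := by omega
  rw [dd_lv, e]; exact q

theorem dd_val : dd 0 = 1 ∧ dd 1 = bb 1 16 ∧ dd 2 = bb 1 32 ∧ dd 4 = bb 2 32 := by
  refine ⟨?_, ?_, ?_, ?_⟩ <;> exact cd_inj (by simp only [cd_dd, cd_bb, cd_one]; decide +kernel)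

end CF.Ft
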