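import Cfsg.Agent.Ft.M1a

/-! The model of `Sp₆(2)`: centralisers, transitivity, generation. -/

set_option autoImplicit false
set_option maxRecDepth 100000
set_option synthInstance.maxSize 4000

namespace CF.Ft

open Subgroup CF.Loc

attribute [local irreducible] ac cd el ee lv dd τ bb

variable {g m l e : Sp} {u v w c i k : ℕ} {H Q : Subgroup Sp}

/-- a transvection applied to a vector -/
def tv (x w : ℕ) : ℕ := w ^^^ fm w x * x

theorem ac_tv (k : v < 64) (l : w < 64) : ac (τ v) w = tv v w := ac_τ k l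

theorem tv_lt (k : v < 64) (l : w < 64) : tv v w < 64 := ac_tv k l ▸ ac_lt _ _

theorem ac_bb (a : u < 64) (b : v < 64) (c : w < 64) : ac (bb u v) w = tv u (tv v (tv (u ^^^ v) w)) := by
  rw [bb, ac_mul, ac_mul, ac_tv (xor_lt a b) c, ac_tv b (tv_lt (xor_lt a b) c), ac_tv a (tv_lt b (tv_lt (xor_lt a b) c))]

theorem ac_ext6 {h : Sp} (e : ∀ v ∈ [1, 2, 4, 8, 16, 32], ac g v = ac h v) : g = h :=
  cd_inj (by simp only [List.forall_mem_cons] at e; simp only [cd, e])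

theorem lt6 (m : w ∈ [1, 2, 4, 8, 16, 32]) : w < 64 := by simp only [List.mem_cons, List.not_mem_nil, or_false] at m; omega

theorem ac_b1 (k : u < 64) (a : fm u 1 = 0) (l : w < 64) : ac (bb 1 u) w = w ^^^ fm w 1 * u ^^^ fm w u := by
  rw [ac_bb (by decide) k l]
  exact (by decide +kernel : ∀ u < 64, fm u 1 = 0 → ∀ w < 64, tv 1 (tv u (tv (1 ^^^ u) w)) = w ^^^ fm w 1 * u ^^^ fm w u) u k a w l

theorem ac_a (j : ℕ) (l : w < 64) : ac (τ 1 ^ j) w = w ^^^ fm w 1 * (j % 2) := by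
  have : τ 1 ^ j = τ 1 ^ (j % 2) := by rw [← Nat.div_add_mod j 2, pow_add, pow_mul, sq, τ_sq, one_pow, one_mul]; simp
  rcases Nat.mod_two_eq_zero_or_one j with e | e <;> simp [this, e, ac_one l, ac_τ (v := 1) (by decide) l]

theorem fm_xor1 (h : u < 64) (k : v < 64) (a : fm u 1 = 0) (b : fm v 1 = 0) : fm (u ^^^ v) 1 = 0 :=
  (by decide +kernel : ∀ u < 64, fm u 1 = 0 → ∀ v < 64, fm v 1 = 0 → fm (u ^^^ v) 1 = 0) u h a v k b

theorem bb_add (h : u < 64) (k : v < 64) (a : fm u 1 = 0) (b : fm v 1 = 0) : bb 1 u * bb 1 v = bb 1 (u ^^^ v) * τ 1 ^ fm u v := by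
  refine ac_ext6 fun w m => ?_
  rw [ac_mul, ac_mul, ac_b1 h a (ac_lt _ _), ac_b1 (xor_lt h k) (fm_xor1 h k a b) (ac_lt _ _), ac_b1 k b (lt6 m), ac_a _ (lt6 m)]
  exact (by decide +kernel : ∀ u < 64, fm u 1 = 0 → ∀ v < 64, fm v 1 = 0 → ∀ w ∈ [1, 2, 4, 8, 16, 32],
    (w ^^^ fm w 1 * v ^^^ fm w v) ^^^ fm (w ^^^ fm w 1 * v ^^^ fm w v) 1 * u ^^^ fm (w ^^^ fm w 1 * v ^^^ fm w v) u =
      (w ^^^ fm w 1 * (fm u v % 2)) ^^^ fm (w ^^^ fm w 1 * (fm u v % 2)) 1 * (u ^^^ v) ^^^ fm (w ^^^ fm w 1 * (fm u v % 2)) (u ^^^ v))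
    u h a v k b w m

theorem bb_zero : bb 1 0 = 1 ∧ bb 1 1 = 1 := by
  constructor <;> exact cd_inj (by simp only [cd_bb, cd_one]; decide +kernel)

theorem bb_one (k : u < 64) (a : fm u 1 = 0) : bb 1 (u ^^^ 1) = bb 1 u := by
  have := bb_add k (v := 1) (by decide) a (by decide)
  rwa [a, bb_zero.2, pow_zero, mul_one, mul_one, eq_comm] at this

theorem a_bb (k : u < 64) (a : fm u 1 = 0) : bb 1 u * τ 1 = τ 1 * bb 1 u := (τ_cm (by decide)).2 (by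
  rw [ac_b1 k a (by decide), fm_symm (by decide) k, a, show fm 1 1 = 0 by decide]; simp)

theorem mem_QQ' : g ∈ QQ ↔ ∃ w < 64, fm w 1 = 0 ∧ ∃ j, g = bb 1 w * τ 1 ^ j := by
  have c : ∀ {u}, u < 64 → fm u 1 = 0 → ∀ j : ℕ, τ 1 ^ j * bb 1 u = bb 1 u * τ 1 ^ j := fun k a j =>
    ((show Commute _ _ from a_bb k a).pow_right j).eq.symm
  refine ⟨fun h => closure_induction (p := fun g _ => ∃ w < 64, fm w 1 = 0 ∧ ∃ j, g = bb 1 w * τ 1 ^ j) (fun x m => ?_)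
    ⟨0, by decide, by decide, 0, by simp [bb_zero.1]⟩ ?_ ?_ h, ?_⟩
  · rcases m with rfl | rfl | rfl | rfl | rfl
    exacts [⟨0, by decide, by decide, 1, by simp [bb_zero.1]⟩, ⟨2, by decide, by decide, 0, by simp⟩, ⟨4, by decide, by decide, 0, by simp⟩,
      ⟨16, by decide, by decide, 0, by simp⟩, ⟨32, by decide, by decide, 0, by simp⟩]
  · rintro _ _ - - ⟨u, a, b, i, rfl⟩ ⟨v, d, e, j, rfl⟩
    exact ⟨_, xor_lt a d, fm_xor1 a d b e, fm u v + i + j, by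
      rw [mul_assoc, ← mul_assoc (τ 1 ^ i), c d e, ← mul_assoc, ← mul_assoc, bb_add a d b e, pow_add, pow_add]; group⟩
  · rintro _ - ⟨u, a, b, i, rfl⟩
    refine ⟨u, a, b, fm u u + i, inv_eq_of_mul_eq_one_right ?_⟩
    rw [mul_assoc, ← mul_assoc (τ 1 ^ i), c a b, ← mul_assoc, ← mul_assoc, bb_add a a b b, Nat.xor_self, bb_zero.1, one_mul, ← pow_add,
      ← pow_add, show fm u u + i + (fm u u + i) = 2 * (fm u u + i) by ring, pow_mul, sq, τ_sq, one_pow]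
  · rintro ⟨w, a, b, j, rfl⟩
    have t : τ 1 ∈ QQ := subset_closure (by simp)
    have s : ∀ {u v}, u < 64 → v < 64 → fm u 1 = 0 → fm v 1 = 0 → bb 1 u ∈ QQ → bb 1 v ∈ QQ → bb 1 (u ^^^ v) ∈ QQ := fun a b c d p q =>
      (mul_mem_cancel_right (pow_mem t _)).1 (bb_add a b c d ▸ mul_mem p q)
    have f : ∀ b, ∀ k ∈ [1, 2, 4, 16, 32], b % 2 * k < 64 ∧ fm (b % 2 * k) 1 = 0 ∧ bb 1 (b % 2 * k) ∈ QQ := fun b k m => by
      rcases Nat.mod_two_eq_zero_or_one b with e | e <;> rw [e]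
      · exact ⟨by simp, by simp; rfl, by simp [bb_zero.1]⟩
      simp only [List.mem_cons, List.not_mem_nil, or_false] at m
      rcases m with rfl | rfl | rfl | rfl | rfl
      · exact ⟨by decide, by decide, by simp [bb_zero.2]⟩
      all_goals exact ⟨by decide, by decide, subset_closure (by simp)⟩
    have n : ∀ {u v}, u < 64 ∧ fm u 1 = 0 ∧ bb 1 u ∈ QQ → v < 64 ∧ fm v 1 = 0 ∧ bb 1 v ∈ QQ →
        u ^^^ v < 64 ∧ fm (u ^^^ v) 1 = 0 ∧ bb 1 (u ^^^ v) ∈ QQ := fun p q =>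
      ⟨xor_lt p.1 q.1, fm_xor1 p.1 q.1 p.2.1 q.2.1, s p.1 q.1 p.2.1 q.2.1 p.2.2 q.2.2⟩
    refine mul_mem ?_ (pow_mem t _)
    rw [(by decide +kernel : ∀ w < 64, fm w 1 = 0 → w = w % 2 * 1 ^^^ w / 2 % 2 * 2 ^^^ w / 4 % 2 * 4 ^^^ w / 16 % 2 * 16 ^^^ w / 32 % 2 * 32) w a b]
    exact (n (n (n (n (f _ _ (by simp)) (f _ _ (by simp))) (f _ _ (by simp))) (f _ _ (by simp))) (f _ _ (by simp))).2.2

theorem τ_pow (v j : ℕ) : τ v ^ j = 1 ∨ τ v ^ j = τ v := by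
  rw [← Nat.div_add_mod j 2, pow_add, pow_mul, sq, τ_sq, one_pow, one_mul]
  rcases Nat.mod_two_eq_zero_or_one j with e | e <;> simp [e]

theorem mem_QQ : g ∈ QQ ↔ ∃ w < 32, fm (2 * w) 1 = 0 ∧ (g = bb 1 (2 * w) ∨ g = τ 1 * bb 1 (2 * w)) := by
  rw [mem_QQ']
  constructor
  · rintro ⟨w, a, b, j, rfl⟩
    obtain ⟨p, q⟩ := (by decide +kernel : ∀ w < 64, fm w 1 = 0 → fm (2 * (w / 2)) 1 = 0 ∧ (2 * (w / 2) = w ∨ 2 * (w / 2) = w ^^^ 1)) w a b
    have e : bb 1 (2 * (w / 2)) = bb 1 w := by rcases q with q | q <;> rw [q]; exact bb_one a b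
    exact ⟨w / 2, by omega, p, (τ_pow 1 j).imp (fun z => by rw [z, e, mul_one]) fun z => by rw [z, e, a_bb a b]⟩
  · rintro ⟨w, a, b, rfl | rfl⟩
    exacts [⟨_, by omega, b, 0, by simp⟩, ⟨_, by omega, b, 1, by rw [pow_one, a_bb (by omega) b]⟩]

theorem bb_QQ (h : w < 64) (k : fm w 1 = 0) : bb 1 w ∈ QQ := mem_QQ'.2 ⟨w, h, k, 0, by simp⟩

theorem τ_QQ : τ 1 ∈ QQ := subset_closure (by simp)

theorem QQ_cm (h : e ∈ QQ) (k : m ∈ QQ) : e * m = m * e := by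
  obtain ⟨u, a, b, i, rfl⟩ := mem_QQ'.1 h
  obtain ⟨v, c, d, j, rfl⟩ := mem_QQ'.1 k
  have p : Commute (bb 1 u) (bb 1 v) := by rw [Commute, SemiconjBy, bb_add a c b d, bb_add c a d b, Nat.xor_comm, fm_symm a c]
  exact (p.mul_right (Commute.pow_right (a_bb a b) j)).mul_left
    ((Commute.pow_right (a_bb c d) i).symm.mul_right ((Commute.refl _).pow_pow i j))

theorem QQ_sq (h : e ∈ QQ) : e * e = 1 := by
  obtain ⟨u, a, b, i, rfl⟩ := mem_QQ'.1 h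
  rw [(Commute.pow_right (a_bb a b) i).symm.mul_mul_mul_comm, bb_add a a b b, Nat.xor_self, bb_zero.1,
    (by decide +kernel : ∀ u < 64, fm u u = 0) u a, ← pow_add, ← two_mul, pow_mul, sq, τ_sq]; simp

theorem QQ_P1 : QQ ≤ P1 := fun _ h => mem_P1.2 ((τ_cm (by decide)).1 (QQ_cm h τ_QQ))

theorem QQ_cj (h : g ∈ P1) (k : e ∈ QQ) : g * e * g⁻¹ ∈ QQ := by
  obtain ⟨u, a, b, i, rfl⟩ := mem_QQ'.1 k
  have p := mem_P1.1 h
  refine mem_QQ'.2 ⟨_, ac_lt g u, by rw [← p, ac_fm g a (by decide), b], i, ?_⟩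
  rw [← conj_mul, ← conj_pow, bb_cj g (by decide) a, τ_cj g (by decide), p]

theorem C_b : g * bb 1 2 = bb 1 2 * g ↔ g ∈ P2 := by
  rw [mem_P2]
  refine ⟨fun h => ?_, fun h => ?_⟩
  · have k : ∀ x < 64, ac g (ac (bb 1 2) x ^^^ x) < 4 := fun x l => by
      rw [ac_xor, ← ac_mul, h, ac_mul, ac_b1 (by decide) (by decide) (ac_lt _ _)]
      exact (by decide +kernel : ∀ y < 64, (y ^^^ fm y 1 * 2 ^^^ fm y 2) ^^^ y < 4) _ (ac_lt _ _)
    have p := k 16 (by decide); have q := k 8 (by decide)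
    rw [ac_b1 (by decide) (by decide) (by decide)] at p q
    exact ⟨p, q⟩
  · rw [← mul_inv_eq_iff_eq_mul, bb_cj g (by decide) (by decide)]
    refine cd_inj ?_
    rw [cd_bb, cd_bb]
    exact (by decide +kernel : ∀ u < 4, ∀ v < 4, u ≠ 0 → v ≠ 0 → u ≠ v → bc u v = bc 1 2) _ h.1 _ h.2 (ac_ne g (by decide) (by decide))
      (ac_ne g (by decide) (by decide)) fun z => absurd (ac_inj (by decide) (by decide) z) (by decide)

theorem C_EE (h : ∀ e ∈ EE, g * e = e * g) : g ∈ EE := by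
  have k : ∀ v < 8, ac g v = v := fun v l => (τ_cm (by omega)).1 (h _ ((τ_EE (by omega)).2 l))
  exact mem_EE'.2 ⟨k 1 (by decide), k 2 (by decide), k 4 (by decide)⟩

theorem N_EE (h : ∀ e ∈ EE, g * e * g⁻¹ ∈ EE) : g ∈ PP := fun v l k =>
  (τ_EE (ac_lt _ _)).1 (τ_cj g l ▸ h _ ((τ_EE l).2 k))

theorem C_QQ (h : ∀ e ∈ QQ, g * e = e * g) : g ∈ QQ := by
  have a : ac g 1 = 1 := (τ_cm (by decide)).1 (h _ τ_QQ)
  have f : ∀ x < 64, fm (ac g x) 1 = fm x 1 := fun x l => by rw [← ac_fm g l (by decide), a]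
  have k : ∀ w < 64, fm w 1 = 0 → ac g w / 2 = w / 2 := fun w l z => by
    have := congrArg (ac · 8) (mul_inv_eq_iff_eq_mul.2 (h _ (bb_QQ l z)))
    simp only [bb_cj g (by decide : 1 < 64) l, a] at this
    rw [ac_b1 (ac_lt _ _) ((f w l).trans z) (by decide), ac_b1 l z (by decide)] at this
    exact (by decide +kernel : ∀ u < 64, ∀ w < 64, 8 ^^^ fm 8 1 * u ^^^ fm 8 u = 8 ^^^ fm 8 1 * w ^^^ fm 8 w → u / 2 = w / 2) _ (ac_lt _ _) w l this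
  have p : ∀ x < 64, fm x 1 = 0 → ac g x = x / 2 * 2 + ac g x % 2 := fun x l z => by have := k x l z; omega
  obtain ⟨w, l, z, j, -, e⟩ := (by decide +kernel : ∀ i < 16, ∀ u < 64, fm u 1 = 1 ∧ fm u (2 + i % 2) = 0 ∧ fm u (4 + i / 2 % 2) = 0 ∧
    fm u (16 + i / 4 % 2) = 0 ∧ fm u (32 + i / 8) = 0 → ∃ w < 64, fm w 1 = 0 ∧ ∃ j < 2, ∀ x ∈ [(1, 1), (2, 2 + i % 2), (4, 4 + i / 2 % 2),
      (8, u), (16, 16 + i / 4 % 2), (32, 32 + i / 8)], x.2 = (x.1 ^^^ fm x.1 1 * (j % 2)) ^^^ fm (x.1 ^^^ fm x.1 1 * (j % 2)) 1 * w ^^^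
        fm (x.1 ^^^ fm x.1 1 * (j % 2)) w) (ac g 2 % 2 + 2 * (ac g 4 % 2) + 4 * (ac g 16 % 2) + 8 * (ac g 32 % 2)) (by omega) _ (ac_lt g 8)
    (by
      have := p 2 (by decide) (by decide); have := p 4 (by decide) (by decide); have := p 16 (by decide) (by decide)
      have := p 32 (by decide) (by decide)
      refine ⟨f 8 (by decide), ?_, ?_, ?_, ?_⟩
      · exact Eq.trans (by congr 1; omega) (ac_fm g (u := 8) (v := 2) (by decide) (by decide))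
      · exact Eq.trans (by congr 1; omega) (ac_fm g (u := 8) (v := 4) (by decide) (by decide))
      · exact Eq.trans (by congr 1; omega) (ac_fm g (u := 8) (v := 16) (by decide) (by decide))
      · exact Eq.trans (by congr 1; omega) (ac_fm g (u := 8) (v := 32) (by decide) (by decide)))
  refine mem_QQ'.2 ⟨w, l, z, j, ac_ext6 fun x m => ?_⟩
  rw [ac_mul, ac_b1 l z (ac_lt _ _), ac_a _ (lt6 m)]
  have := p 2 (by decide) (by decide); have := p 4 (by decide) (by decide); have := p 16 (by decide) (by decide)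
  have := p 32 (by decide) (by decide)
  simp only [List.forall_mem_cons] at e
  obtain ⟨e1, e2, e3, e4, e5, e6, -⟩ := e
  simp only [List.mem_cons, List.not_mem_nil, or_false] at m
  rcases m with rfl | rfl | rfl | rfl | rfl | rfl
  exacts [a.trans e1, Eq.trans (by omega) e2, Eq.trans (by omega) e3, e4, Eq.trans (by omega) e5, Eq.trans (by omega) e6]

theorem τ_F4 (h : v < 64) (a : fm v 1 = 0) (b : fm v 2 = 0) : τ v ∈ Fx 4 :=
  mem_F4.2 (by rw [ac_τ h (by decide), ac_τ h (by decide), fm_symm (by decide) h, fm_symm (by decide) h, a, b]; simp)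

theorem τ_P1 (h : v < 64) (a : fm v 1 = 0) : τ v ∈ P1 := mem_P1.2 (by rw [ac_τ h (by decide), fm_symm (by decide) h, a]; simp)

theorem F4_P1 : Fx 4 ≤ P1 := fun _ h => mem_P1.2 (mem_F4.1 h).1

theorem F4_P2 : Fx 4 ≤ P2 := fun _ h => mem_P2.2 (by have := mem_F4.1 h; omega)

theorem EE_F4 : EE ≤ Fx 4 := fun _ h => mem_F4.2 ⟨(mem_EE'.1 h).1, (mem_EE'.1 h).2.1⟩

theorem C_F4 (h : ∀ m ∈ Fx 4, g * m = m * g) : ∃ k < 4, g = ee k ∨ g = ee (k + 8) := by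
  obtain ⟨k, a, rfl⟩ := mem_EE.1 (C_EE fun e m => h e (EE_F4 m))
  have := (τ_cm (by decide)).1 (h _ (τ_F4 (v := 32) (by decide) (by decide) (by decide)))
  rw [ac_cd, cd_ee] at this
  obtain ⟨j, b, rfl | rfl⟩ := (by decide +kernel : ∀ k < 64, ap (ec k) 32 = 32 → ∃ j < 4, k = j ∨ k = j + 8) k a this
  exacts [⟨_, b, .inl rfl⟩, ⟨_, b, .inr rfl⟩]

theorem C_P1 (h : ∀ m ∈ P1, g * m = m * g) : g = 1 ∨ g = τ 1 := by
  obtain ⟨k, a, rfl⟩ := mem_EE.1 (C_EE fun e m => h e (F4_P1 (EE_F4 m)))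
  have p := (τ_cm (by decide)).1 (h _ (τ_P1 (v := 32) (by decide) (by decide)))
  have q := (τ_cm (by decide)).1 (h _ (τ_P1 (v := 16) (by decide) (by decide)))
  rw [ac_cd, cd_ee] at p q
  obtain rfl | rfl := (by decide +kernel : ∀ k < 64, ap (ec k) 32 = 32 → ap (ec k) 16 = 16 → k = 0 ∨ k = 1) k a p q
  exacts [.inl ee_val.1, .inr ee_val.2.1]

theorem x_SS : bb 1 16 ∈ SS ∧ bb 1 32 ∈ SS ∧ bb 2 32 ∈ SS := by
  obtain ⟨-, a, b, c⟩ := dd_val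
  exact ⟨a ▸ dd_SS 1, b ▸ dd_SS 2, c ▸ dd_SS 4⟩

theorem C_SS (h : ∀ m ∈ SS, g * m = m * g) : g = 1 ∨ g = τ 1 ∨ g = bb 1 2 ∨ g = τ 1 * bb 1 2 := by
  obtain ⟨k, a, rfl⟩ := mem_EE.1 (C_EE fun e m => h e (EE_le m))
  have p := congrArg cd (h _ x_SS.1)
  have q := congrArg cd (h _ x_SS.2.2)
  simp only [cd_mul, cd_ee, cd_bb] at p q
  obtain ⟨z, e1, -, -, e8, -⟩ := ee_val
  obtain rfl | rfl | rfl | rfl := (by decide +kernel : ∀ k < 64, mu (ec k) (bc 1 16) = mu (bc 1 16) (ec k) →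
    mu (ec k) (bc 2 32) = mu (bc 2 32) (ec k) → k = 0 ∨ k = 1 ∨ k = 8 ∨ k = 1 ^^^ 8) k a p q
  exacts [.inl z, .inr (.inl e1), .inr (.inr (.inl e8)), .inr (.inr (.inr (by rw [← ee_mul, e1, e8])))]

theorem SS_P2 : SS ≤ P2 := inf_le_left.trans inf_le_right

theorem SS_P1 : SS ≤ P1 := inf_le_left.trans inf_le_left

theorem σ_P2 : σ3 ∈ P2 := mem_P2.2 (by simp only [ac_cd, cd_σ]; decide +kernel)

theorem C_P2 (h : ∀ m ∈ P2, g * m = m * g) : g = 1 ∨ g = bb 1 2 := by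
  have p := congrArg cd (h _ σ_P2)
  obtain rfl | rfl | rfl | rfl := C_SS fun m k => h m (SS_P2 k)
  exacts [.inl rfl, absurd p (by simp only [cd_mul, cd_σ, cd_τ]; decide +kernel), .inr rfl,
    absurd p (by simp only [cd_mul, cd_σ, cd_τ, cd_bb]; decide +kernel)]

end CF.Ft
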