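import Cfsg.Agent.Ft.M1
import Cfsg.Agent.Loc.Two

/-! Elementary abelian subgroups of `Sp₆(2)`. -/

set_option autoImplicit false
set_option maxRecDepth 100000
set_option synthInstance.maxSize 4000

namespace CF.Ft

open Subgroup CF.Loc
open scoped commutatorElement

attribute [local irreducible] ac cd el ee lv dd τ bb

variable {g m : Sp} {B : Subgroup Sp} {i j k l w : ℕ}

/-- the multiplication of the `dd i` -/
def mi (i j : ℕ) : ℕ := 0x4c197721ab3e053de5688facde5053b3e21a9774c1fac688 / 8 ^ (8 * i + j) % 8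

/-- the action of `dd j` on `E` -/
def ak (j k : ℕ) : ℕ := ap (0xe182262c1a1823f081c1823f2c1818226081e102152c1a10215081c102042c1810204081 / 2 ^ (36 * j)) k

theorem mi_lt (i j : ℕ) : mi i j < 8 := Nat.mod_lt _ (by decide)

theorem ak_lt (a : j < 8) (b : k < 64) : ak j k < 64 := (by decide +kernel : ∀ j < 8, ∀ k < 64, ak j k < 64) j a k b

theorem dd_mul (a : i < 8) (b : j < 8) : dd i * dd j = dd (mi i j) := cd_inj (by
  simp only [cd_mul, cd_dd]
  revert i j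
  exact fun {i j} a b => (by decide +kernel : ∀ i < 8, ∀ j < 8, mu (dc i) (dc j) = dc (mi i j)) i a j b)

theorem ee_dd (a : j < 8) (b : k < 64) : ee k * dd j = dd j * ee (ak j k) := cd_inj (by
  simp only [cd_mul, cd_dd, cd_ee]
  exact (by decide +kernel : ∀ j < 8, ∀ k < 64, mu (ec k) (dc j) = mu (dc j) (ec (ak j k))) j a k b)

theorem S_mul (a : i < 8) (b : j < 8) (c : k < 64) (l : ℕ) :
    dd i * ee k * (dd j * ee l) = dd (mi i j) * ee (ak j k ^^^ l) := by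
  rw [mul_assoc, ← mul_assoc (ee k), ee_dd b c, mul_assoc, ee_mul, ← mul_assoc, dd_mul a b]

theorem S_inj (a : i < 8) (b : j < 8) (c : k < 64) (d : l < 64) (e : dd i * ee k = dd j * ee l) : i = j ∧ k = l := by
  have p : ∀ v ∈ [2, 4], ap (dc i) v = ap (dc j) v := fun v hv => by
    have := congrArg (ac · v) e
    have q : v < 8 := by simp at hv; omega
    simp only [ac_mul, mem_Fx.1 (ee_EE _) v q] at this
    rwa [ac_mod, ac_mod, ac_cd, ac_cd, cd_dd, cd_dd] at this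
  obtain rfl := (by decide +kernel : ∀ i < 8, ∀ j < 8, (∀ v ∈ [2, 4], ap (dc i) v = ap (dc j) v) → i = j) i a j b p
  exact ⟨rfl, ee_inj c d (mul_left_cancel e)⟩

theorem S_cj (a : i < 8) (b : l < 64) (k : ℕ) : (dd i * ee k)⁻¹ * ee l * (dd i * ee k) = ee (ak i l) := by
  rw [mul_assoc, ← mul_assoc (ee l), ee_dd a b, mul_assoc, EE_cm (ee_EE _) (ee_EE k)]
  group

theorem ee_S (k : ℕ) : dd 0 * ee k = ee k := by rw [dd_val.1, one_mul]

theorem dd_S (i : ℕ) : dd i * ee 0 = dd i := by rw [ee_val.1, mul_one]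

theorem sq_cm {G : Type*} [Group G] {B : Subgroup G} (s : ∀ x ∈ B, x * x = 1) {x y : G} (a : x ∈ B) (b : y ∈ B) :
    x * y = y * x := by
  rw [← inv_eq_of_mul_eq_one_right (s _ (mul_mem a b)), mul_inv_rev, inv_eq_of_mul_eq_one_right (s x a),
    inv_eq_of_mul_eq_one_right (s y b)]

namespace M2

/-- fixed by all parts -/
def fx (w k : ℕ) : Prop := ∀ i < 8, w.testBit i = true → ak i k = k

instance (w k : ℕ) : Decidable (fx w k) := inferInstanceAs (Decidable (∀ i < 8, _ → _))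

def vl (w : ℕ) : Prop := ∀ i < 8, ∀ j < 8, w.testBit i = true → w.testBit j = true → mi i j = mi j i ∧ mi i i = 0

instance (w : ℕ) : Decidable (vl w) := inferInstanceAs (Decidable (∀ i < 8, ∀ j < 8, _ → _ → _))

def nP (w : ℕ) : ℕ := ((Finset.range 8).filter fun i => w.testBit i = true).card

def nF (w : ℕ) : ℕ := ((Finset.range 64).filter (fx w)).card

theorem key (s : ∀ x ∈ B, x * x = 1) (le : B ≤ SS) : ∃ w < 256, (∀ i < 8, w.testBit i = true ↔ ∃ k < 64, dd i * ee k ∈ B) ∧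
    vl w ∧ (∀ k < 64, ee k ∈ B → fx w k) ∧ Nat.card B ≤ nP w * nF w ∧
      (nP w * nF w ≤ Nat.card B → ∀ k < 64, fx w k → ee k ∈ B) := by
  classical
  have a : ∀ i < 8, (Nat.ofBits fun i : Fin 8 => decide (∃ k < 64, dd i * ee k ∈ B)).testBit i = true ↔
      ∃ k < 64, dd i * ee k ∈ B := fun i hi => by rw [Nat.testBit_ofBits_lt _ _ hi, decide_eq_true_iff]
  have lt := Nat.ofBits_lt_two_pow fun i : Fin 8 => decide (∃ k < 64, dd i * ee k ∈ B)
  generalize (Nat.ofBits fun i : Fin 8 => decide (∃ k < 64, dd i * ee k ∈ B)) = w at a lt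
  have f : ∀ k < 64, ee k ∈ B → fx w k := fun k hk m i hi p => by
    obtain ⟨l, hl, q⟩ := (a i hi).1 p
    have := sq_cm s q m
    rw [mul_assoc, EE_cm (ee_EE l) (ee_EE k), ← mul_assoc, ← mul_assoc, ee_dd hi hk, mul_left_inj, mul_right_inj] at this
    exact (ee_inj hk (ak_lt hi hk) this).symm
  have r : ∀ i, ∃ k, i < 8 → w.testBit i = true → dd i * ee k ∈ B := fun i => by
    by_cases p : i < 8 ∧ w.testBit i = true
    · exact let ⟨k, _, q⟩ := (a i p.1).1 p.2; ⟨k, fun _ _ => q⟩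
    · exact ⟨0, fun u v => absurd ⟨u, v⟩ p⟩
  choose r q using r
  have sub : ((Finset.range 64).filter fun k => ee k ∈ B) ⊆ (Finset.range 64).filter (fx w) := fun k hk => by
    simp only [Finset.mem_filter, Finset.mem_range] at hk ⊢
    exact ⟨hk.1, f k hk.1 hk.2⟩
  have n : Nat.card B ≤ nP w * ((Finset.range 64).filter fun k => ee k ∈ B).card := by
    rw [nP, ← Finset.card_product]
    refine le_trans ?_ (Finset.card_image_le (f := fun p : ℕ × ℕ => dd p.1 * ee (r p.1) * ee p.2))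
    rw [← Set.ncard_coe_finset]
    refine Set.ncard_le_ncard (s := (B : Set Sp)) (fun x hx => ?_) (Finset.finite_toSet _)
    obtain ⟨i, hi, k, hk, rfl⟩ := mem_SS'.1 (le hx)
    have p := (a i hi).2 ⟨k, hk, hx⟩
    have e : dd i * ee (r i) * ee ((r i ^^^ k) % 64) = dd i * ee k := by
      rw [ee_mod, mul_assoc, ee_mul, Nat.xor_xor_cancel_left]
    simp only [Finset.coe_image, Set.mem_image, Finset.mem_coe, Finset.mem_product, Finset.mem_filter, Finset.mem_range]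
    exact ⟨(i, _), ⟨⟨hi, p⟩, Nat.mod_lt _ (by decide), (mul_mem_cancel_left (q i hi p)).1 (e ▸ hx)⟩, e⟩
  refine ⟨w, lt, a, fun i hi j hj u v => ?_, f, n.trans (Nat.mul_le_mul_left _ (Finset.card_le_card sub)), fun u k hk v => ?_⟩
  · obtain ⟨k, hk, p⟩ := (a i hi).1 u
    obtain ⟨l, hl, p'⟩ := (a j hj).1 v
    have e1 := sq_cm s p p'
    have e2 := s _ p
    rw [S_mul hi hj hk, S_mul hj hi hl] at e1
    rw [S_mul hi hi hk, ← ee_val.1, ← ee_S 0] at e2
    exact ⟨(S_inj (mi_lt _ _) (mi_lt _ _) (xor_lt (ak_lt hj hk) hl) (xor_lt (ak_lt hi hl) hk) e1).1,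
      (S_inj (mi_lt _ _) (by decide) (xor_lt (ak_lt hi hk) hk) (by decide) e2).1⟩
  · have z : 0 < nP w := Finset.card_pos.2 ⟨0, Finset.mem_filter.2 ⟨by decide, (a 0 (by decide)).2
      ⟨0, by decide, by rw [dd_S, dd_val.1]; exact one_mem _⟩⟩⟩
    have := Finset.eq_of_subset_of_card_le sub (Nat.le_of_mul_le_mul_left (u.trans n) z)
    exact (Finset.mem_filter.1 (this.ge (Finset.mem_filter.2 ⟨Finset.mem_range.2 hk, v⟩))).2

theorem d1 : ∀ w < 256, vl w → nP w * nF w ≤ 64 ∧ (nP w * nF w ≤ 32 ∨ ∀ i < 8, w.testBit i = true → i = 0) := by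
  decide +kernel

theorem d2 : ∀ w < 256, vl w → 32 ≤ nP w * nF w → (∃ i < 8, w.testBit i = true ∧ i ≠ 0) →
    (∀ i < 8, w.testBit i = true → fx w (ak i 4 ^^^ 4) ∧ ∀ j ∈ [1, 4], w.testBit (mi i (mi (mi j i) j)) = true) →
    w = 5 ∨ w = 15 := by
  decide +kernel

theorem le_E (le : B ≤ SS) (a : ∀ i < 8, (∃ k < 64, dd i * ee k ∈ B) → i = 0) : B ≤ EE := fun x hx => by
  obtain ⟨i, hi, k, hk, rfl⟩ := mem_SS'.1 (le hx)
  rw [a i hi ⟨k, hk, hx⟩, ee_S]
  exact ee_EE k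

end M2

open M2

theorem jS (s : ∀ x ∈ B, x * x = 1) (le : B ≤ SS) (c : 32 < Nat.card B) : B ≤ EE := by
  obtain ⟨w, lt, a, v, -, n, -⟩ := key s le
  exact le_E le fun i hi p => ((d1 w lt v).2.resolve_left (by omega)) i hi ((a i hi).2 p)

theorem ex_S (s : ∀ x ∈ B, x * x = 1) : ∃ g, cj[g] B ≤ SS ∧ ∀ x ∈ cj[g] B, x * x = 1 := by
  obtain ⟨g, e⟩ := SS_syl (Q := B) (isPGroup_iff_forall.2 fun x hx => ⟨1, by rw [pow_one, pow_two, s x hx]⟩)
  refine ⟨g, cj_le_iff_forall.2 e, ?_⟩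
  rintro _ ⟨x, hx, rfl⟩
  rw [← map_mul, s x hx, map_one]

theorem jL (s : ∀ x ∈ B, x * x = 1) : Nat.card B ≤ 64 := by
  obtain ⟨g, le, s⟩ := ex_S s
  obtain ⟨w, lt, -, v, -, n, -⟩ := key s le
  exact card_cj g B ▸ n.trans (d1 w lt v).1

theorem jL' (s : ∀ x ∈ B, x * x = 1) (c : 64 ≤ Nat.card B) : ∃ g, ∀ x, x ∈ B ↔ g * x * g⁻¹ ∈ EE := by
  obtain ⟨g, le, s⟩ := ex_S s
  rw [← card_cj g] at c
  exact ⟨g, fun x => by rw [← eq_of_le_of_card_ge (jS s le (by omega)) (card_EE ▸ c), conj_mem_cj_iff]⟩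

end CF.Ft
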