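import Cfsg.Agent.Ft.F1

/-! The elementary abelian groups over `E`. -/

set_option autoImplicit false
set_option linter.unusedSectionVars false
set_option linter.unusedVariables false

namespace CF.Ft

open Cfsg Subgroup CF.Loc
open scoped commutatorElement

variable {G : Type*} [Group G] [Finite G] {ι : Sp →* G} {t g x y s n h : G} {m p β β' : Sp} {X : Subgroup Sp} {U V W K B : Subgroup G}

namespace U
theorem si {A : Type*} [Group A] {a : A} (e : a * a = 1) : a⁻¹ = a := inv_eq_of_mul_eq_one_right e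
theorem elc {A : Type*} [Group A] {H : Subgroup A} (sq : ∀ x ∈ H, x * x = 1) {a b : A} (i : a ∈ H) (j : b ∈ H) : a * b = b * a := by
  rw [← si (sq _ (mul_mem i j)), mul_inv_rev, si (sq _ i), si (sq _ j)]
theorem cj_eq {A : Type*} [Group A] {a b : A} (e : a * b = b * a) : a * b * a⁻¹ = b := by rw [e, mul_inv_cancel_right]
theorem sq2 {A : Type*} [Group A] {a b : A} (i : a * a = 1) (j : b * b = 1) (e : a * b = b * a) : a * b * (a * b) = 1 := by
  rw [mul_assoc, ← mul_assoc b, ← e, mul_assoc, j, mul_one, i]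
theorem sqj {A : Type*} [Group A] {a : A} (i : a * a = 1) (g : A) : g * a * g⁻¹ * (g * a * g⁻¹) = 1 := by
  rw [show g * a * g⁻¹ * (g * a * g⁻¹) = g * (a * a) * g⁻¹ by group, i]; group
theorem b1 : bb 1 2 ≠ 1 := cd_ne (by rw [cd_bb, cd_one]; decide +kernel)
theorem bA : bb 1 2 ∈ AL := subset_closure (by simp)
end U
open U

theorem Tr.mul (a : Tr ι t x β) (b : Tr ι t y β') (e : β' ∈ EE) : Tr ι t (x * y) (β * β') :=
  ⟨fun m i => by rw [mul_assoc, b.1 m i, ← mul_assoc, a.1 m i, mul_assoc], by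
    rw [show x * y * t * (x * y)⁻¹ = x * (y * t * y⁻¹) * x⁻¹ by group, b.2, show x * (t * ι β') * x⁻¹ = x * t * x⁻¹ * (x * ι β' * x⁻¹) by group,
      a.2, cj_eq (a.1 _ e), map_mul, mul_assoc]⟩
theorem Tr.inv (a : Tr ι t x β) (e : β ∈ EE) : Tr ι t x⁻¹ β :=
  ⟨fun m i => (show Commute x (ι m) from a.1 m i).inv_left, by
    rw [show x⁻¹ * t * x⁻¹⁻¹ = x⁻¹ * (t * ι β) * x * (x⁻¹ * ι β⁻¹ * x) by rw [map_inv]; group, si (EE_sq e), mul_assoc x⁻¹ (ι β),
      ← a.1 _ e, inv_mul_cancel_left]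
    congr 1
    rw [← a.2]; group⟩

namespace Ct
variable (c : Ct ι t)
include c
theorem tcj (m : Sp) : ι m * t * (ι m)⁻¹ = t := cj_eq (c.cm m).symm
theorem tm_inj (e : t * ι m = t * ι p) : m = p := c.inj (mul_left_cancel e)
theorem ne_tm (m p : Sp) : ι m ≠ t * ι p := fun e => c.nt (m * p⁻¹) (by rw [map_mul, map_inv, e, mul_inv_cancel_right])
theorem tr_E (e : m ∈ EE) : Tr ι t (ι m) 1 := ⟨fun p i => by rw [← map_mul, EE_cm e i, map_mul], by rw [c.tcj, map_one, mul_one]⟩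
theorem tr_t : Tr ι t t 1 := ⟨fun p _ => c.cm p, by simp⟩
theorem tr_cj (a : Tr ι t x β) (i : p ∈ PP) : Tr ι t (ι p * x * (ι p)⁻¹) (p * β * p⁻¹) :=
  ⟨fun m j => by
    have := a.1 _ (EE_cj (inv_mem i) j)
    simp only [map_mul, map_inv, inv_inv] at this
    calc _ = ι p * (x * ((ι p)⁻¹ * ι m * ι p)) * (ι p)⁻¹ := by group
      _ = _ := by rw [this]; group, by
    have := c.tcj p⁻¹
    rw [map_inv] at this
    calc _ = ι p * (x * ((ι p)⁻¹ * t * (ι p)⁻¹⁻¹) * x⁻¹) * (ι p)⁻¹ := by group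
      _ = ι p * t * (ι p)⁻¹ * (ι p * ι β * (ι p)⁻¹) := by rw [this, a.2]; group
      _ = _ := by rw [c.tcj, map_mul, map_mul, map_inv]⟩
theorem tr_un (a : Tr ι t x β) (b : Tr ι t x β') : β = β' := c.tm_inj (a.2.symm.trans b.2)
theorem tr_A (d : x * t * x⁻¹ = y * t * y⁻¹) (a : Cz ι EE x) (b : Cz ι EE y) : ∃ e ∈ EE, y = x * ι e ∨ y = x * (t * ι e) := by
  obtain ⟨e, i, k⟩ := c.cA (x := x⁻¹ * y) (by rw [mul_assoc, mul_inv_eq_iff_eq_mul.1 d.symm]; group) fun m i => by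
    rw [mul_assoc, b m i, ← mul_assoc, (show Commute x (ι m) from a m i).inv_left, mul_assoc]
  exact ⟨e, i, k.imp (fun k => by rw [← k]; group) fun k => by rw [← k]; group⟩
theorem tr_uq (a : x * x = 1) (b : y * y = 1) (k : m ≠ 1) (d : Tr ι t x m) (e : Tr ι t y m) : ∃ e ∈ EE, y = x * ι e := by
  obtain ⟨p, i, r | r⟩ := c.tr_A (d.2.trans e.2.symm) d.1 e.1
  · exact ⟨p, i, r⟩
  refine (k (c.tm_inj ?_)).elim
  have : y * y = x * t * x⁻¹ * t * (ι p * ι p) := by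
    rw [r, si a]; simp only [mul_assoc]; rw [← mul_assoc (ι p) x, ← d.1 p i, mul_assoc x, ← mul_assoc (ι p) t, ← c.cm, mul_assoc]
  rw [b, d.2, ← map_mul, EE_sq i, map_one, mul_one] at this
  rw [eq_inv_of_mul_eq_one_left this.symm, c.ti, map_one, mul_one]
theorem us_mk (xe : X = AL ∨ X = EE) (ex : ∀ β ∈ X, ∃ x, x * x = 1 ∧ Tr ι t x β)
    (cm : ∀ β ∈ X, ∀ β' ∈ X, ∀ x y, β ≠ 1 → β' ≠ 1 → β ≠ β' → x * x = 1 → y * y = 1 → Tr ι t x β → Tr ι t y β' → x * y = y * x) :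
    ∃ U, Us ι t U X := by
  have le : X ≤ EE := by rcases xe with rfl | rfl; exacts [AL_le, le_rfl]
  have k : ∀ e ∈ EE, ι e * ι e = 1 ∧ ∃ β ∈ X, Tr ι t (ι e) β ∧ (β = 1 → ∃ e' ∈ EE, ι e = ι e') := fun e i =>
    ⟨by rw [← map_mul, EE_sq i, map_one], 1, one_mem _, c.tr_E i, fun _ => ⟨e, i, rfl⟩⟩
  let U : Subgroup G :=
    { carrier := {x | x * x = 1 ∧ ∃ β ∈ X, Tr ι t x β ∧ (β = 1 → ∃ e ∈ EE, x = ι e)}
      one_mem' := by simpa using k 1 (one_mem _)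
      inv_mem' := fun a => by rwa [si a.1]
      mul_mem' := by
        rintro x y ⟨a, β, i, d, e⟩ ⟨a', β', i', d', e'⟩
        by_cases q : β = β'
        · subst q
          by_cases q : β = 1
          · obtain ⟨p, j, rfl⟩ := e q
            obtain ⟨p', j', rfl⟩ := e' q
            exact map_mul ι _ _ ▸ k _ (mul_mem j j')
          · obtain ⟨p, j, rfl⟩ := c.tr_uq a a' q d d'
            rw [← mul_assoc, a, one_mul]; exact k p j
        refine ⟨sq2 a a' ?_, _, mul_mem i i', d.mul d' (le i'), fun z => (q ((eq_inv_of_mul_eq_one_left z).trans (si (EE_sq (le i'))))).elim⟩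
        by_cases r : β = 1
        · obtain ⟨p, j, rfl⟩ := e r; exact (d'.1 p j).symm
        by_cases r' : β' = 1
        · obtain ⟨p, j, rfl⟩ := e' r'; exact d.1 p j
        exact cm β i β' i' x y r r' q a a' d d' }
  refine ⟨U, fun x i => i.1, k, fun x ⟨_, β, i, d, _⟩ => ⟨β, i, d.2⟩, fun β i => ?_, fun m ⟨_, β, i, d, e⟩ => ?_, xe⟩
  · by_cases r : β = 1
    · exact ⟨1, one_mem _, by simp [r]⟩
    · obtain ⟨x, a, d⟩ := ex β i
      exact ⟨x, ⟨a, β, i, d, fun z => absurd z r⟩, d.2⟩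
  · obtain ⟨p, -, r⟩ := e (c.tm_inj (d.2.symm.trans (by rw [mul_assoc t, ← c.cm, map_one]; group)))
    exact c.ne_tm _ _ r.symm

/-- the projection of `W ⊓ C(t)` -/
def Bb (W : Subgroup G) : Subgroup Sp where
  carrier := {m | ι m ∈ W ∨ t * ι m ∈ W}
  one_mem' := .inl (by simp)
  inv_mem' := fun {m} a => a.imp (fun a => map_inv ι m ▸ inv_mem a) fun a => by
    simpa [c.ti, c.cm, ← map_inv] using inv_mem a
  mul_mem' := fun {m p} a b => by
    rcases a with a | a <;> rcases b with b | b <;> have := mul_mem a b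
    exacts [.inl (map_mul ι _ _ ▸ this), .inr (by rwa [← mul_assoc, ← c.cm, mul_assoc, ← map_mul] at this),
      .inr (by rwa [mul_assoc, ← map_mul] at this),
      .inl (by rwa [mul_assoc, ← mul_assoc (ι m), ← c.cm, mul_assoc, ← mul_assoc t, c.tt, one_mul, ← map_mul] at this)]

/-- the translations of `W` -/
def Xx (c : Ct ι t) (sq : ∀ x ∈ W, x * x = 1) : Subgroup Sp where
  carrier := {m | ι m ∈ W ∧ ∃ v ∈ W, v * t * v⁻¹ = t * ι m}
  one_mem' := ⟨by simp, 1, one_mem _, by simp⟩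
  inv_mem' := fun {m} a => by rwa [si (c.inj (by rw [map_mul, sq _ a.1, map_one]) : m * m = 1)]
  mul_mem' := fun {m p} ⟨a, v, i, e⟩ ⟨b, w, j, f⟩ => ⟨map_mul ι _ _ ▸ mul_mem a b, v * w, mul_mem i j, by
    rw [show v * w * t * (v * w)⁻¹ = v * (w * t * w⁻¹) * v⁻¹ by group, f, show v * (t * ι p) * v⁻¹ = v * t * v⁻¹ * (v * ι p * v⁻¹) by group,
      e, cj_eq (elc sq i b), map_mul, mul_assoc]⟩

theorem cardW (sq : ∀ x ∈ W, x * x = 1) (tW : t ∉ W) (tr : ∀ v ∈ W, ∃ m, ι m ∈ W ∧ v * t * v⁻¹ = t * ι m) :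
    Nat.card W = Nat.card (c.Bb W) * Nat.card (c.Xx sq) := by
  choose! f a b using tr
  let φ : W →* Sp := MonoidHom.mk' (fun v => f v) fun v w => c.tm_inj (by
    rw [← b _ (v * w).2, coe_mul, show v.1 * w * t * (v.1 * w)⁻¹ = v * (w * t * w.1⁻¹) * v.1⁻¹ by group, b _ w.2,
      show v.1 * (t * ι (f w)) * v.1⁻¹ = v * t * v.1⁻¹ * (v * ι (f w) * v.1⁻¹) by group, b _ v.2, cj_eq (elc sq v.2 (a _ w.2)), map_mul, mul_assoc])
  have r : φ.range = c.Xx sq := Subgroup.ext fun m => ⟨by rintro ⟨v, rfl⟩; exact ⟨a _ v.2, v, v.2, b _ v.2⟩,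
    fun ⟨_, v, i, e⟩ => ⟨⟨v, i⟩, c.tm_inj ((b v i).symm.trans e)⟩⟩
  have k : ∀ v : φ.ker, ∃ m, v.1.1 = ι m ∨ v.1.1 = t * ι m := fun v => c.ct _ (by
    have := b _ v.1.2
    rw [show f v.1 = 1 from v.2, map_one, mul_one] at this
    exact mul_inv_eq_iff_eq_mul.1 this)
  choose π k using k
  have z : ∀ v ∈ W, v * t = t * v → f v = 1 := fun v i e => c.tm_inj (by rw [← b v i, cj_eq e, map_one, mul_one])
  rw [← r, ← index_ker, ← φ.ker.card_mul_index]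
  congr 1
  refine Nat.card_eq_of_bijective (fun v => ⟨π v, Or.imp (fun e : v.1.1 = ι (π v) => e ▸ v.1.2) (fun e : v.1.1 = t * ι (π v) => e ▸ v.1.2) (k v)⟩) ⟨fun v w e => ?_, fun m => ?_⟩
  · replace e : π v = π w := congrArg Subtype.val e
    have n : ∀ v w : φ.ker, π v = π w → v.1.1 = ι (π v) → w.1.1 ≠ t * ι (π w) := fun v w e r r' =>
      tW (by simpa [r, r', e] using mul_mem w.1.2 (inv_mem v.1.2))
    refine Subtype.ext (Subtype.ext ?_)
    rcases k v with r | r <;> rcases k w with r' | r'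
    exacts [by rw [r, r', e], (n v w e r r').elim, (n w v e.symm r' r).elim, by rw [r, r', e]]
  · have un : ∀ {x : G} {m p}, (x = ι m ∨ x = t * ι m) → (x = ι p ∨ x = t * ι p) → m = p := by
      rintro x m p (rfl | rfl) (e | e)
      exacts [c.inj e, (c.ne_tm _ _ e).elim, (c.ne_tm _ _ e.symm).elim, c.tm_inj e]
    rcases m.2 with i | i
    · exact ⟨⟨⟨_, i⟩, z _ i (c.cm _).symm⟩, Subtype.ext (un (k _) (.inl rfl))⟩
    · exact ⟨⟨⟨_, i⟩, z _ i (by rw [mul_assoc, ← c.cm])⟩, Subtype.ext (un (k _) (.inr rfl))⟩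
end Ct

namespace Us
variable (u : Us ι t U X) (c : Ct ι t)
include u
theorem XE : X ≤ EE := by rcases u.xe with rfl | rfl; exacts [AL_le, le_rfl]
theorem bX : bb 1 2 ∈ X := by rcases u.xe with rfl | rfl; exacts [bA, AL_le bA]
theorem X_cj (a : p ∈ PP) (b : m ∈ X) : p * m * p⁻¹ ∈ X := by rcases u.xe with rfl | rfl; exacts [AL_cj a b, EE_cj a b]
theorem tU : t ∉ U := by simpa using u.nt 1
include c
theorem cm (a : x ∈ U) (b : y ∈ U) : x * y = y * x := elc u.sq a b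
theorem cz (a : x ∈ U) : Cz ι EE x := fun m i => u.cm c a (u.le m i)
theorem ct (a : x ∈ U) (b : x * t = t * x) : ∃ e ∈ EE, x = ι e := by
  obtain ⟨e, i, k | rfl⟩ := c.cA b (u.cz c a)
  exacts [⟨e, i, k⟩, (u.nt e a).elim]
theorem tr' (a : x ∈ U) : ∃ β ∈ X, Tr ι t x β := let ⟨β, i, e⟩ := u.tr x a; ⟨β, i, u.cz c a, e⟩
theorem ex' (a : β ∈ X) : ∃ x ∈ U, Tr ι t x β := let ⟨x, i, e⟩ := u.ex β a; ⟨x, i, u.cz c i, e⟩
theorem tr1 (a : x ∈ U) (d : Tr ι t x 1) : ∃ e ∈ EE, x = ι e := u.ct c a (mul_inv_eq_iff_eq_mul.1 (by simpa using d.2))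
theorem mem (a : x * x = 1) (b : m ∈ X) (k : m ≠ 1) (d : Tr ι t x m) : x ∈ U := by
  obtain ⟨y, i, e⟩ := u.ex' c b
  obtain ⟨p, j, rfl⟩ := c.tr_uq (u.sq y i) a k e d
  exact mul_mem i (u.le p j)
theorem nP (a : m ∈ PP) : ι m ∈ 𝐍(U) := mem_normalizer_of_conj_mem fun x i => by
  obtain ⟨β, j, d⟩ := u.tr' c i
  by_cases r : β = 1
  · obtain ⟨e, l, rfl⟩ := u.tr1 c i (r ▸ d)
    simpa using u.le _ (EE_cj a l)
  · exact u.mem c (sqj (u.sq x i) _) (u.X_cj a j) (by simpa using r) (c.tr_cj d a)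
theorem nP' (a : ι m ∈ 𝐍(U)) : m ∈ PP := N_EE fun e i => by
  obtain ⟨p, j, k⟩ := u.ct c (conj_mem_of_mem_normalizer a (u.le e i)) (by simpa using (c.cm (m * e * m⁻¹)).symm)
  exact (c.inj (by simpa using k) : m * e * m⁻¹ = p) ▸ j
theorem nW (a : W1 ι t x) : x ∈ 𝐍(U) := mem_normalizer_of_conj_mem fun y i => by
  obtain ⟨β, j, d⟩ := u.tr' c i
  obtain ⟨γ, l, a⟩ := a
  by_cases r : β = 1
  · obtain ⟨e, l, rfl⟩ := u.tr1 c i (r ▸ d)
    rwa [cj_eq (a.1 e l)]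
  · refine u.mem c (sqj (u.sq y i) _) j r ?_
    have := (a.mul d (u.XE j)).mul (a.inv l) l
    rwa [EE_cm l (u.XE j), mul_assoc β, EE_sq l, mul_one] at this
theorem nt' : t ∈ 𝐍(U) := u.nW c ⟨1, one_mem _, c.tr_t⟩
theorem card : Nat.card U = 64 * Nat.card X := by
  rw [c.cardW u.sq u.tU fun v i => let ⟨β, j, e⟩ := u.tr v i; ⟨β, u.le _ (u.XE j), e⟩, ← card_EE]
  refine congrArg₂ (fun A B : Subgroup Sp => Nat.card A * Nat.card B) ?_ ?_
  · refine Subgroup.ext fun m => ⟨fun i => ?_, fun i => Or.inl (u.le m i)⟩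
    obtain ⟨e, j, k⟩ := u.ct c (i.resolve_right (u.nt m)) (c.cm m).symm
    exact c.inj k ▸ j
  · refine Subgroup.ext fun m => ⟨fun ⟨_, v, i, e⟩ => ?_, fun i => ⟨u.le m (u.XE i), u.ex m i⟩⟩
    obtain ⟨β, j, k⟩ := u.tr v i
    exact c.tm_inj (k.symm.trans e) ▸ j
theorem nD (a : x ∈ U) : ¬ Dt t x := fun d => by
  have := c.rk d u.sq fun y i => u.cm c i a
  rw [u.card c] at this
  rcases u.xe with rfl | rfl <;> simp [card_AL, card_EE] at this
end Us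

end CF.Ft
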