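import Cfsg.Agent.Ft.U

/-! The group `V`. -/

set_option autoImplicit false
set_option linter.unusedSectionVars false
set_option linter.unusedVariables false

namespace CF.Ft

open Cfsg Subgroup CF.Loc U

variable {G : Type*} [Group G] [Finite G] {ι : Sp →* G} {t g : G} {β β' : Sp} {α : ℕ}

set_option synthInstance.maxSize 4000 in
theorem U.pair (i : β ∈ AL) (j : β' ∈ AL) (a : β ≠ 1) (b : β' ≠ 1) (e : β ≠ β') :
    ∃ l ∈ MM, l * bb 1 2 * l⁻¹ = β ∧ l * bb 1 4 * l⁻¹ = β' := by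
  obtain ⟨k, h, rfl⟩ := mem_AL.1 i
  obtain ⟨k', h', rfl⟩ := mem_AL.1 j
  obtain ⟨u, hu, v, hv, w, hw, o, r, r'⟩ := (by decide +kernel : ∀ k < 8, ∀ k' < 8, k ≠ 0 → k' ≠ 0 → k ≠ k' → ∃ u < 8, ∃ v < 8, ∃ w < 8,
    (u ≠ 0 ∧ v ≠ 0 ∧ v ≠ u ∧ w ≠ 0 ∧ w ≠ u ∧ w ≠ v ∧ w ≠ u ^^^ v) ∧ bc u v = ec (8 * k) ∧ bc u w = ec (8 * k')) k h k' h'
    (fun z => a (z ▸ ee_val.1)) (fun z => b (z ▸ ee_val.1)) fun z => e (z ▸ rfl)
  obtain ⟨l, i, e₁, e₂, e₃⟩ := ex_MM hu hv hw o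
  exact ⟨l, i, cd_inj (by rw [bb_cj l (by decide) (by decide), e₁, e₂, cd_bb, cd_ee, r]),
    cd_inj (by rw [bb_cj l (by decide) (by decide), e₁, e₃, cd_bb, cd_ee, r'])⟩

theorem Ct.ex_V' (c : Ct ι t) (ex : ∀ β ∈ AL, ∃ x, x * x = 1 ∧ Tr ι t x β) (k0 : K0 ι t) : ∃ V, Us ι t V AL :=
  c.us_mk (.inl rfl) ex fun β i β' j x y a b e xx yy d d' => by
    obtain ⟨l, o, rfl, rfl⟩ := pair i j a b e
    have := k0 _ _ (sqj xx (ι l)⁻¹) (sqj yy (ι l)⁻¹) (by simpa [mul_assoc] using c.tr_cj d (inv_mem o.1))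
      (by simpa [mul_assoc] using c.tr_cj d' (inv_mem o.1))
    exact mul_right_cancel (b := ι l) (by simpa [mul_assoc] using this)

end CF.Ft
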