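import Cfsg.Agent.Ft.U

/-! The group `C(E) ⊓ N(⟨t⟩ E)`: action on `V`. -/

set_option autoImplicit false
set_option linter.unusedSectionVars false
set_option linter.unusedVariables false
set_option synthInstance.maxSize 4000
set_option maxRecDepth 100000

namespace CF.Ft

open Cfsg Subgroup CF.Loc U

attribute [local irreducible] ac cd el ee lv dd τ bb

variable {G : Type*} [Group G] [Finite G] {ι : Sp →* G} {t g x y n n' h : G} {m p e e' β β' : Sp} {V : Subgroup G} {u w j : ℕ}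

namespace W
theorem ok12 : ok (lc (2 + 8 * 1 + 64 * 4)) = true := by decide +kernel
theorem s12P : lv (2 + 8 * 1 + 64 * 4) ∈ PP := (lv_MM ok12).1
theorem xP : bb 1 16 ∈ P1 ⊓ PP ∧ bb 1 32 ∈ P1 ⊓ PP ∧ bb 2 32 ∈ P1 ⊓ PP ∧ bb 4 16 ∈ P1 ⊓ PP := by
  simp only [mem_inf, mem_P1, mem_PP, ac_cd, cd_bb]; decide +kernel
theorem acv : ac (lv (2 + 8 * 1 + 64 * 4)) 1 = 2 ∧ ac (lv (2 + 8 * 1 + 64 * 4)) 2 = 1 ∧ ac (lv (2 + 8 * 1 + 64 * 4)) 3 = 3 ∧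
    ac (bb 1 16) 1 = 1 ∧ ac (bb 1 16) 2 = 3 ∧ ac (bb 1 16) 3 = 2 ∧ ac (bb 1 32) 2 = 2 ∧ ac (bb 2 32) 2 = 2 := by
  simp only [ac_cd, cd_bb, cd_lv ok12]; decide +kernel
theorem PP_lt (i : p ∈ PP) (a : w < 8) : ac p w < 8 := i w (by omega) a
theorem exP2 (a : u < 8) (b : w < 8) (u0 : u ≠ 0) (w0 : w ≠ 0) (e : w ≠ u) : ∃ p ∈ PP, ac p 1 = u ∧ ac p 2 = w := by
  obtain ⟨z, c, k⟩ := (by decide +kernel : ∀ u < 8, ∀ v < 8, u ≠ 0 → v ≠ 0 → v ≠ u → ∃ w < 8, w ≠ 0 ∧ w ≠ u ∧ w ≠ v ∧ w ≠ u ^^^ v) u a w b u0 w0 e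
  obtain ⟨l, i, e₁, e₂, -⟩ := ex_MM a b c ⟨u0, w0, e, k⟩
  exact ⟨l, i.1, e₁, e₂⟩
theorem exP (a : u < 8) (u0 : u ≠ 0) : ∃ p ∈ PP, ac p 1 = u := by
  obtain ⟨z, c, k, k'⟩ := (by decide +kernel : ∀ u < 8, ∃ w < 8, w ≠ 0 ∧ w ≠ u) u a
  exact (exP2 a c u0 k k').imp fun _ h => ⟨h.1, h.2.1⟩
theorem τE (a : u < 8) : τ u ∈ EE := (τ_EE (by omega)).2 a
theorem bbA (a : u < 8) (b : w < 8) : bb u w ∈ AL := by
  obtain ⟨k, c, e⟩ := (by decide +kernel : ∀ u < 8, ∀ w < 8, ∃ k < 8, bc u w = ec (8 * k)) u a w b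
  exact mem_AL.2 ⟨k, c, cd_inj (by rw [cd_bb, cd_ee, e])⟩
theorem dec (i : e ∈ EE) : ∃ u < 8, ∃ β ∈ AL, e = τ u * β := by
  obtain ⟨k, a, rfl⟩ := mem_EE.1 i
  obtain ⟨u, b, l, c, r⟩ := (by decide +kernel : ∀ k < 64, ∃ u < 8, ∃ l < 8, ec k = mu (tc (u % 64)) (ec (8 * l))) k a
  exact ⟨u, b, _, mem_AL.2 ⟨l, c, rfl⟩, cd_inj (by rw [cd_mul, cd_ee, cd_ee, cd_τ, r])⟩
theorem bb0 (a : u < 8) : bb u 0 = 1 ∧ bb 0 u = 1 ∧ bb u u = 1 := by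
  have := (by decide +kernel : ∀ u < 8, bc u 0 = c1 ∧ bc 0 u = c1 ∧ bc u u = c1) u a
  exact ⟨cd_inj (by rw [cd_bb, cd_one, this.1]), cd_inj (by rw [cd_bb, cd_one, this.2.1]), cd_inj (by rw [cd_bb, cd_one, this.2.2])⟩
theorem b123 : τ 1 * τ 2 * τ 3 = bb 1 2 := cd_inj (by simp only [cd_mul, cd_τ, cd_bb]; decide +kernel)
/-- conjugation of codes -/
abbrev cc (a b : ℕ) : ℕ := mu (mu a b) (iv a)
theorem d1 : ∀ k < 64, cc (bc 1 16) (ec k) = ec k → cc (bc 1 32) (ec k) = ec k → cc (bc 2 32) (ec k) = ec k → k ∈ [0, 1, 8, 9] := by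
  decide +kernel
theorem d2 : ∀ k ∈ [0, 1, 8, 9], ∀ l < 64, cc (bc 2 32) (cc (bc 4 16) (cc (bc 2 32) (ec k))) = ec l → cc (bc 2 32) (ec l) = mu (ec k) (ec l) →
    k = 0 ∧ l = 0 ∨ k = 8 ∧ l = 16 := by decide +kernel
theorem d3 : ∀ l ∈ [0, 16], ∀ k < 64, cc (bc 2 32) (ec k) = ec k → cc (bc 4 16) (ec k) = ec k → cc (bc 1 16) (ec k) = mu (ec l) (ec k) →
    k = 2 * l ∨ k = 2 * l + 1 := by decide +kernel
theorem d4 : ∀ l ∈ [0, 16], ∀ x ∈ [c1, bc 1 4], mu (cc (bc 1 16) (cc (lc (2 + 8 * 1 + 64 * 4)) (ec (2 * l + 1))))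
    (mu (cc (lc (2 + 8 * 1 + 64 * 4)) (ec (2 * l + 1))) (ec l)) ≠ x := by decide +kernel
theorem cjm {A : Type*} [Group A] (g a b : A) : g * (a * b) * g⁻¹ = g * a * g⁻¹ * (g * b * g⁻¹) := by group
end W
open W

/-- `n` multiplies the elements of `V` with translation `β` by `e` -/
def Ps (ι : Sp →* G) (t : G) (V : Subgroup G) (n : G) (β e : Sp) : Prop := ∀ x ∈ V, Tr ι t x β → n * x * n⁻¹ = ι e * x

theorem Ps.comp (a : Ps ι t V n β e) (b : Ps ι t V n' β e') (cz : Cz ι EE n) (i : e' ∈ EE) : Ps ι t V (n * n') β (e' * e) := fun x j d => by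
  rw [show n * n' * x * (n * n')⁻¹ = n * (n' * x * n'⁻¹) * n⁻¹ by group, b x j d, cjm, cj_eq (cz _ i), a x j d, map_mul, mul_assoc]
theorem Cz.cj (a : Cz ι EE x) (i : p ∈ PP) : Cz ι EE (ι p * x * (ι p)⁻¹) := fun m j => by
  have := a _ (EE_cj (inv_mem i) j)
  simp only [map_mul, map_inv, inv_inv] at this
  calc _ = ι p * (x * ((ι p)⁻¹ * ι m * ι p)) * (ι p)⁻¹ := by group
    _ = _ := by rw [this]; group
theorem Cz.mul {X : Subgroup Sp} (a : Cz ι X x) (b : Cz ι X y) : Cz ι X (x * y) := fun m i => by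
  rw [mul_assoc, b m i, ← mul_assoc, a m i, mul_assoc]
theorem Cz.inv {X : Subgroup Sp} (a : Cz ι X x) : Cz ι X x⁻¹ := fun m i => (show Commute x (ι m) from a m i).inv_left
theorem ps_C (i : n ∈ 𝐂(V)) (β : Sp) : Ps ι t V n β 1 := fun x j _ => by rw [conj_eq_of_mem_centralizer i j, map_one, one_mul]
theorem Ct.ps_t (c : Ct ι t) (β : Sp) : Ps ι t V t β β := fun x _ d => by
  rw [c.ti, mul_assoc, mul_inv_eq_iff_eq_mul.1 d.2, ← mul_assoc, ← mul_assoc, c.tt, one_mul]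

namespace Us
variable (v : Us ι t V AL) (c : Ct ι t)
include v c
theorem tC : t ∉ 𝐂(V) := fun i => by
  obtain ⟨x, j, e⟩ := v.ex _ bA
  rw [cj_eq (mem_centralizer_iff'.1 i x j)] at e
  exact b1 (c.tm_inj (e.symm.trans (by simp)))
theorem VC : V ≤ 𝐂(V) := fun x i => mem_centralizer_iff'.2 fun y j => v.cm c j i
theorem Cz' (i : x ∈ 𝐂(V)) : Cz ι EE x := fun m j => (mem_centralizer_iff'.1 i _ (v.le m j)).symm
theorem ctC (i : x ∈ 𝐂(V)) (e : x * t = t * x) : ∃ e ∈ EE, x = ι e := by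
  obtain ⟨q, j, k | rfl⟩ := c.cA e (v.Cz' c i)
  exacts [⟨q, j, k⟩, (v.tC c ((mul_mem_cancel_right (v.VC c (v.le q j))).1 i)).elim]
theorem memC (i : x ∈ 𝐂(V)) (j : β ∈ AL) (d : x * t * x⁻¹ = t * ι β) : x ∈ V := by
  obtain ⟨y, a, b⟩ := v.ex β j
  obtain ⟨e, l, k⟩ := v.ctC c (mul_mem (inv_mem (v.VC c a)) i) (by rw [mul_assoc, mul_inv_eq_iff_eq_mul.1 (d.trans b.symm)]; group)
  exact inv_mul_eq_iff_eq_mul.1 k ▸ mul_mem a (v.le e l)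
theorem nC (i : p ∈ PP) (j : x ∈ 𝐂(V)) : ι p * x * (ι p)⁻¹ ∈ 𝐂(V) :=
  conj_mem_of_mem_normalizer (normalizer_le_normalizer_centralizer _ (v.nP c i)) j
theorem same (i : x ∈ V) (j : y ∈ V) (d : Tr ι t x β) (d' : Tr ι t y β) : ∃ e ∈ EE, y = x * ι e := by
  obtain ⟨e, a, k | rfl⟩ := c.tr_A (d.2.trans d'.2.symm) d.1 d'.1
  exacts [⟨e, a, k⟩, (v.nt e ((mul_mem_cancel_left i).1 j)).elim]
theorem ps_uq (a : Ps ι t V n β e) (b : Ps ι t V n β e') (i : β ∈ AL) : e = e' :=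
  let ⟨x, j, d⟩ := v.ex' c i
  c.inj (mul_right_cancel ((a x j d).symm.trans (b x j d)))
theorem ps_mul (a : Ps ι t V n β e) (b : Ps ι t V n β' e') (i : β ∈ AL) (j : β' ∈ AL) (k : e' ∈ EE) : Ps ι t V n (β * β') (e * e') := fun x l d => by
  obtain ⟨y, o, d'⟩ := v.ex' c i
  have := d'.mul d (AL_le (mul_mem i j))
  rw [← mul_assoc, EE_sq (AL_le i), one_mul] at this
  have r : x = y * (y * x) := by rw [← mul_assoc, v.sq y o, one_mul]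
  rw [r, cjm, a y o d', b _ (mul_mem o l) this, mul_assoc, ← mul_assoc y, d'.1 _ k, map_mul]; group
theorem ps_cj (i : p ∈ PP) (a : Ps ι t V n β e) : Ps ι t V (ι p * n * (ι p)⁻¹) (p * β * p⁻¹) (p * e * p⁻¹) := fun x l d => by
  have := a _ (conj_mem_of_mem_normalizer' (v.nP c i) l) (by simpa [mul_assoc] using c.tr_cj d (inv_mem i))
  calc _ = ι p * (n * ((ι p)⁻¹ * x * ι p) * n⁻¹) * (ι p)⁻¹ := by group
    _ = _ := by rw [this, map_mul, map_mul, map_inv]; group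
theorem ps_eq (i : p ∈ PP) (q : ∀ x ∈ V, n * (ι p * x * (ι p)⁻¹) * n⁻¹ = ι p * (n * x * n⁻¹) * (ι p)⁻¹) (a : Ps ι t V n β e) :
    Ps ι t V n (p * β * p⁻¹) (p * e * p⁻¹) := fun x l d => by
  have j := conj_mem_of_mem_normalizer' (v.nP c i) l
  have := q _ j
  rw [a _ j (by simpa [mul_assoc] using c.tr_cj d (inv_mem i))] at this
  simpa [mul_assoc] using this
theorem ps_ex (nv : ∀ x ∈ V, ∀ β, Tr ι t x β → n * x * n⁻¹ ∈ V ∧ Tr ι t (n * x * n⁻¹) β) (cz : Cz ι EE n) (i : β ∈ AL) :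
    ∃ k < 64, Ps ι t V n β (ee k) := by
  obtain ⟨x, j, d⟩ := v.ex' c i
  obtain ⟨e, a, r⟩ := v.same c j (nv x j β d).1 d (nv x j β d).2
  obtain ⟨k, b, rfl⟩ := mem_EE.1 a
  refine ⟨k, b, fun y l d' => ?_⟩
  obtain ⟨e', a', rfl⟩ := v.same c j l d d'
  rw [cjm, r, cj_eq (cz _ a'), d.1 _ a, mul_assoc]
theorem ps_fin (cz : Cz ι EE n) (a : Ps ι t V n (bb 1 2) 1) (b : Ps ι t V n (bb 1 4) 1) (d : Ps ι t V n (bb 2 4) 1) : n ∈ 𝐂(V) := by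
  have k : ∀ β ∈ AL, Ps ι t V n β 1 := fun β i => by
    induction i using closure_induction with
    | mem x i => rcases i with rfl | rfl | rfl <;> assumption
    | one =>
      intro x i d
      obtain ⟨e, l, rfl⟩ := v.tr1 c i d
      rw [cj_eq (cz e l), map_one, one_mul]
    | mul x y i j a b => simpa using v.ps_mul c a b i j (one_mem _)
    | inv x i a => rwa [si (EE_sq (AL_le i))]
  exact mem_centralizer_of_conj_eq fun x i => let ⟨β, j, d⟩ := v.tr' c i; by simpa using k β j x i d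
theorem psi (nv : ∀ x ∈ V, ∀ β, Tr ι t x β → n * x * n⁻¹ ∈ V ∧ Tr ι t (n * x * n⁻¹) β) (cz : Cz ι EE n)
    (eq : ∀ p ∈ [bb 1 16, bb 1 32, bb 2 32, bb 4 16], ∀ x ∈ V, n * (ι p * x * (ι p)⁻¹) * n⁻¹ = ι p * (n * x * n⁻¹) * (ι p)⁻¹)
    (pen : n * h2 ι n * h3 ι n ∈ 𝐂(V) ∨ t * (n * h2 ι n * h3 ι n) ∈ 𝐂(V)) : n ∈ 𝐂(V) ∨ n * t ∈ 𝐂(V) := by
  have A : bb 1 2 ∈ AL ∧ bb 1 4 ∈ AL ∧ bb 2 4 ∈ AL := ⟨bA, bbA (by decide) (by decide), bbA (by decide) (by decide)⟩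
  obtain ⟨k₁, l₁, a₁⟩ := v.ps_ex c nv cz A.1
  obtain ⟨k₂, l₂, a₂⟩ := v.ps_ex c nv cz A.2.1
  obtain ⟨k₃, l₃, a₃⟩ := v.ps_ex c nv cz A.2.2
  have q₁ := fun β e => v.ps_eq c (β := β) (e := e) xP.1.2 (eq _ (by simp))
  have q₂ := fun β e => v.ps_eq c (β := β) (e := e) xP.2.1.2 (eq _ (by simp))
  have q₃ := fun β e => v.ps_eq c (β := β) (e := e) xP.2.2.1.2 (eq _ (by simp))
  have q₄ := fun β e => v.ps_eq c (β := β) (e := e) xP.2.2.2.2 (eq _ (by simp))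
  have U : ∀ {β β' e e'}, Ps ι t V n β e → Ps ι t V n β' e' → β' ∈ AL → cd β = cd β' → cd e = cd e' := fun a b i r =>
    congrArg cd (v.ps_uq c (cd_inj r ▸ a) b i)
  have f₁ := U (q₁ _ _ a₁) a₁ A.1 (by simp only [cd_mul, cd_inv, cd_bb]; decide +kernel)
  have f₂ := U (q₂ _ _ a₁) a₁ A.1 (by simp only [cd_mul, cd_inv, cd_bb]; decide +kernel)
  have f₃ := U (q₃ _ _ a₁) a₁ A.1 (by simp only [cd_mul, cd_inv, cd_bb]; decide +kernel)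
  have f₄ := U (q₃ _ _ (q₄ _ _ (q₃ _ _ a₁))) a₂ A.2.1 (by simp only [cd_mul, cd_inv, cd_bb]; decide +kernel)
  have f₅ := U (q₃ _ _ a₂) (v.ps_mul c a₁ a₂ A.1 A.2.1 (ee_EE _)) (mul_mem A.1 A.2.1) (by simp only [cd_mul, cd_inv, cd_bb]; decide +kernel)
  have f₆ := U (q₃ _ _ a₃) a₃ A.2.2 (by simp only [cd_mul, cd_inv, cd_bb]; decide +kernel)
  have f₇ := U (q₄ _ _ a₃) a₃ A.2.2 (by simp only [cd_mul, cd_inv, cd_bb]; decide +kernel)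
  have f₈ := U (q₁ _ _ a₃) (v.ps_mul c a₂ a₃ A.2.1 A.2.2 (ee_EE _)) (mul_mem A.2.1 A.2.2) (by simp only [cd_mul, cd_inv, cd_bb]; decide +kernel)
  simp only [cd_mul, cd_inv, cd_bb, cd_ee] at f₁ f₂ f₃ f₄ f₅ f₆ f₇ f₈
  have g₂ := d2 _ (d1 _ l₁ f₁ f₂ f₃) _ l₂ f₄ f₅
  have g : k₂ ∈ [0, 16] := by rcases g₂ with g | g <;> simp [g]
  have g₃ := d3 _ g _ l₃ f₆ f₇ f₈
  obtain ⟨e₀, -, -, -, e₁, e₂, e₃⟩ := ee_val
  rcases g₃ with rfl | rfl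
  · obtain ⟨rfl, rfl⟩ | ⟨rfl, rfl⟩ := g₂
    · exact .inl (v.ps_fin c cz (e₀ ▸ a₁) (e₀ ▸ a₂) (e₀ ▸ a₃))
    · exact .inr (v.ps_fin c (fun m i => by rw [mul_assoc, c.cm, ← mul_assoc, cz m i, mul_assoc])
        (EE_sq (AL_le A.1) ▸ (e₁ ▸ a₁).comp (c.ps_t _) cz (AL_le A.1)) (EE_sq (AL_le A.2.1) ▸ (e₂ ▸ a₂).comp (c.ps_t _) cz (AL_le A.2.1))
        (EE_sq (AL_le A.2.2) ▸ (e₃ ▸ a₃).comp (c.ps_t _) cz (AL_le A.2.2)))
  have b₂ := v.ps_cj c s12P a₃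
  rw [show lv (2 + 8 * 1 + 64 * 4) * bb 2 4 * (lv (2 + 8 * 1 + 64 * 4))⁻¹ = bb 1 4 from
    cd_inj (by simp only [cd_mul, cd_inv, cd_bb, cd_lv ok12]; decide +kernel)] at b₂
  have b₃ := v.ps_cj c xP.1.2 b₂
  rw [show bb 1 16 * bb 1 4 * (bb 1 16)⁻¹ = bb 1 4 from cd_inj (by simp only [cd_mul, cd_inv, cd_bb]; decide +kernel)] at b₃
  have z := (a₂.comp b₂ cz (EE_cj s12P (ee_EE _))).comp b₃ (cz.mul (cz.cj s12P)) (EE_cj xP.1.2 (EE_cj s12P (ee_EE _)))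
  have i := mul_mem (EE_cj xP.1.2 (EE_cj s12P (ee_EE (2 * k₂ + 1)))) (mul_mem (EE_cj s12P (ee_EE (2 * k₂ + 1))) (ee_EE k₂))
  rcases pen with r | r
  · have := congrArg cd (v.ps_uq c z (ps_C r _) A.2.1)
    simp only [cd_mul, cd_inv, cd_bb, cd_ee, cd_lv ok12, cd_one] at this
    exact (d4 _ g _ (by simp) this).elim
  · have := congrArg cd ((eq_inv_of_mul_eq_one_left (v.ps_uq c ((c.ps_t _).comp z c.tr_t.1 i) (ps_C r _) A.2.1)).trans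
      (si (EE_sq (AL_le A.2.1))))
    simp only [cd_mul, cd_inv, cd_bb, cd_ee, cd_lv ok12] at this
    exact (d4 _ g _ (by simp) this).elim
end Us

end CF.Ft
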