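import Cfsg.Agent.Ft.W1

/-! The group `C(E) ⊓ N(⟨t⟩ E)`: the conjugates of `h`. -/

set_option autoImplicit false
set_option linter.unusedSectionVars false
set_option linter.unusedVariables false
set_option synthInstance.maxSize 4000
set_option maxRecDepth 100000

namespace CF.Ft

open Cfsg Subgroup CF.Loc U W

attribute [local irreducible] ac cd el ee lv dd τ bb

variable {G : Type*} [Group G] [Finite G] {ι : Sp →* G} {t g x y n h : G} {m p e β β' : Sp} {V : Subgroup G} {u w j : ℕ}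

/-- the conjugate of `h` belonging to the vector `w` -/
noncomputable def hw (ι : Sp →* G) (h : G) (w : ℕ) : G :=
  @dite _ (∃ p ∈ PP, ac p 1 = w) (Classical.dec _) (fun e => ι e.choose * h * (ι e.choose)⁻¹) fun _ => 1

theorem hw_zero : hw ι h 0 = 1 := dif_neg fun ⟨p, _, e⟩ => ac_ne p (by decide) one_ne_zero e
theorem hw_eq (hc : Cz ι P1 h) (i : p ∈ PP) : hw ι h (ac p 1) = ι p * h * (ι p)⁻¹ := by
  have e : ∃ q ∈ PP, ac q 1 = ac p 1 := ⟨p, i, rfl⟩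
  rw [hw, dif_pos e]
  have := hc (p⁻¹ * e.choose) (mem_P1.2 (by rw [ac_mul, e.choose_spec.2, ac_inv p (by decide)]))
  rw [map_mul, map_inv] at this
  calc _ = ι p * ((ι p)⁻¹ * ι e.choose * h) * (ι e.choose)⁻¹ := by group
    _ = _ := by rw [← this]; group
theorem hw_cj (hc : Cz ι P1 h) (i : p ∈ PP) (a : w < 8) : ι p * hw ι h w * (ι p)⁻¹ = hw ι h (ac p w) := by
  by_cases w0 : w = 0
  · rw [w0, ac_zero, hw_zero]; simp
  obtain ⟨q, j, rfl⟩ := exP a w0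
  rw [← ac_mul, hw_eq hc j, hw_eq hc (mul_mem i j), map_mul]; group
theorem hw_one (hc : Cz ι P1 h) : hw ι h 1 = h := by simpa [ac_one] using hw_eq hc (one_mem _)
theorem hw_two (hc : Cz ι P1 h) : hw ι h 2 = h2 ι h := acv.1 ▸ hw_eq hc s12P
theorem hw_three (hc : Cz ι P1 h) : hw ι h 3 = h3 ι h := by rw [h3, ← hw_two hc, hw_cj hc xP.1.2 (by decide), acv.2.2.2.2.1]

/-- `h` moves `t` to `t a` and centralises `P₁` and `V` -/
structure Hh (ι : Sp →* G) (t : G) (V : Subgroup G) (h : G) (j : ℕ) : Prop where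
  hh : h * h = ι (τ 1 ^ j)
  ht : h * t * h⁻¹ = t * ι (τ 1)
  hc : Cz ι P1 h
  hv : h ∈ 𝐂(V)

theorem W.EP1 : EE ≤ P1 := EE_le.trans SS_P1
theorem W.d5 : ∀ k ∈ [0, 1, 8, 9], cc (lc (2 + 8 * 1 + 64 * 4)) (ec k) = ec k → k = 0 ∨ k = 8 := by decide +kernel

namespace Hh
variable (k : Hh ι t V h j) (v : Us ι t V AL) (c : Ct ι t)
include k v c
theorem all (a : w < 8) : hw ι h w * hw ι h w = ι (τ w ^ j) ∧ Tr ι t (hw ι h w) (τ w) ∧ hw ι h w ∈ 𝐂(V) := by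
  by_cases w0 : w = 0
  · subst w0
    rw [hw_zero, τ_zero]
    exact ⟨by simp, by simpa using c.tr_E (one_mem _), one_mem _⟩
  obtain ⟨q, i, rfl⟩ := exP a w0
  rw [hw_eq k.hc i, ← τ_cj q (by decide)]
  exact ⟨by rw [← cjm, k.hh, conj_pow, map_mul, map_mul, map_inv], c.tr_cj ⟨fun m l => k.hc m (EP1 l), k.ht⟩ i, v.nC c i k.hv⟩
theorem sq (a : w < 8) : hw ι h w * hw ι h w = ι (τ w ^ j) := (k.all v c a).1
theorem tr (a : w < 8) : Tr ι t (hw ι h w) (τ w) := (k.all v c a).2.1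
theorem cv (a : w < 8) : hw ι h w ∈ 𝐂(V) := (k.all v c a).2.2
theorem tr3 : Tr ι t (hw ι h 1 * hw ι h 2 * hw ι h 3) (bb 1 2) :=
  b123 ▸ ((k.tr v c (by decide)).mul (k.tr v c (by decide)) (τE (by decide))).mul (k.tr v c (by decide)) (τE (by decide))
theorem gV : hw ι h 1 * hw ι h 2 * hw ι h 3 ∈ V :=
  v.memC c (mul_mem (mul_mem (k.cv v c (by decide)) (k.cv v c (by decide))) (k.cv v c (by decide))) bA (k.tr3 v c).2
theorem cm12 : hw ι h 1 * hw ι h 2 = ι (bb 1 2 ^ j) * (hw ι h 2 * hw ι h 1) := by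
  have t₁ := k.tr v c (w := 1) (by decide)
  have t₂ := k.tr v c (w := 2) (by decide)
  have t₃ := k.tr v c (w := 3) (by decide)
  have E₁ := τE (u := 1) (by decide)
  have E₂ := τE (u := 2) (by decide)
  have d := (t₁.mul t₂ E₂).mul ((t₂.mul t₁ E₁).inv (mul_mem E₂ E₁)) (mul_mem E₂ E₁)
  rw [EE_cm E₂ E₁, EE_sq (mul_mem E₁ E₂), Tr, map_one, mul_one] at d
  obtain ⟨e, i, r⟩ := v.ctC c (mul_mem (mul_mem (k.cv v c (by decide)) (k.cv v c (by decide))) (inv_mem (mul_mem (k.cv v c (by decide))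
    (k.cv v c (by decide))))) (mul_inv_eq_iff_eq_mul.1 d.2)
  rw [mul_inv_eq_iff_eq_mul] at r
  have q : ∀ p ∈ PP, hw ι h (ac p 1) * hw ι h (ac p 2) = ι (p * e * p⁻¹) * (hw ι h (ac p 2) * hw ι h (ac p 1)) := fun p l => by
    rw [← hw_cj k.hc l (by decide), ← hw_cj k.hc l (by decide), ← cjm, r, map_mul, map_mul, map_inv]; group
  have q' : ∀ p ∈ PP, ac p 1 = 1 → ac p 2 = 2 → p * e * p⁻¹ = e := fun p l a b => c.inj (mul_right_cancel (by
    rw [← r]; simpa only [a, b] using (q p l).symm))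
  have g := mem_centralizer_iff'.1 (k.cv v c (w := 1) (by decide)) _ (k.gV v c)
  have r₃ := q _ xP.1.2
  rw [acv.2.2.2.1, acv.2.2.2.2.1] at r₃
  have f₁ : bb 1 16 * e * (bb 1 16)⁻¹ = e := by
    rw [mul_assoc, mul_assoc, mul_assoc (hw ι h 1), mul_left_cancel_iff, ← mul_assoc (hw ι h 1), r, mul_assoc, mul_assoc, r₃,
      ← mul_assoc (hw ι h 2) (ι _), t₂.1 _ (EE_cj xP.1.2 i), mul_assoc, ← mul_assoc (ι e), right_eq_mul, ← map_mul, ← map_one ι] at g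
    rw [eq_inv_of_mul_eq_one_right (c.inj g), si (EE_sq i)]
  have r₂ := q _ s12P
  rw [acv.1, acv.2.1, r, ← mul_assoc, right_eq_mul, ← map_mul, ← map_one ι] at r₂
  have f₄ := (eq_inv_of_mul_eq_one_left (c.inj r₂)).trans (si (EE_sq i))
  have f₂ := q' _ xP.2.1.2 (mem_P1.1 xP.2.1.1) acv.2.2.2.2.2.2.1
  have f₃ := q' _ xP.2.2.1.2 (mem_P1.1 xP.2.2.1.1) acv.2.2.2.2.2.2.2
  have f₅ : ∀ p ∈ PP, ac p 1 < 4 → ac p 2 < 4 → p * e * p⁻¹ = e := fun p _ a b => by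
    obtain ⟨l, o, rfl⟩ := mem_EE.1 i
    replace f₁ := congrArg cd f₁; replace f₂ := congrArg cd f₂; replace f₃ := congrArg cd f₃; replace f₄ := congrArg cd f₄
    simp only [cd_mul, cd_inv, cd_bb, cd_ee, cd_lv ok12] at f₁ f₂ f₃ f₄
    rcases d5 _ (d1 _ o f₁ f₂ f₃) f₄ with rfl | rfl
    · simp [ee_val.1]
    · rw [ee_val.2.2.2.2.1, cj_eq (C_b.2 (mem_P2.2 ⟨a, b⟩))]
  have r₄ := q _ (mul_mem xP.1.2 (mul_mem s12P xP.1.2))
  have a₁ : ac (bb 1 16 * (lv (2 + 8 * 1 + 64 * 4) * bb 1 16)) 1 = 3 := by rw [ac_mul, ac_mul, acv.2.2.2.1, acv.1, acv.2.2.2.2.1]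
  have a₂ : ac (bb 1 16 * (lv (2 + 8 * 1 + 64 * 4) * bb 1 16)) 2 = 2 := by rw [ac_mul, ac_mul, acv.2.2.2.2.1, acv.2.2.1, acv.2.2.2.2.2.1]
  rw [f₅ _ (mul_mem xP.1.2 (mul_mem s12P xP.1.2)) (by omega) (by omega), a₁, a₂] at r₄
  have s := v.sq _ (k.gV v c)
  have E₃ := τE (u := 3) (by decide)
  have : hw ι h 1 * hw ι h 2 * hw ι h 3 * (hw ι h 1 * hw ι h 2 * hw ι h 3) = ι e * (hw ι h 1 * hw ι h 1 * (hw ι h 2 * hw ι h 2) *
      (hw ι h 3 * hw ι h 3)) := by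
    rw [← mul_assoc, ← mul_assoc, g]
    calc _ = hw ι h 1 * hw ι h 1 * hw ι h 2 * (hw ι h 3 * hw ι h 2) * hw ι h 3 := by group
      _ = _ := by rw [r₄, ← mul_assoc, (t₁.1.mul t₁.1).mul t₂.1 e i]; group
  rw [s, k.sq v c (by decide), k.sq v c (by decide), k.sq v c (by decide), ← map_mul, ← map_mul, ← map_mul, ← map_one ι,
    ← Commute.mul_pow (EE_cm E₁ E₂), ← Commute.mul_pow (EE_cm (mul_mem E₁ E₂) E₃), b123] at this
  rw [r, eq_inv_of_mul_eq_one_left (c.inj this).symm, si (EE_sq (pow_mem (AL_le bA) j))]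
theorem cm (a : u < 8) (b : w < 8) : hw ι h u * hw ι h w = ι (bb u w ^ j) * (hw ι h w * hw ι h u) := by
  by_cases u0 : u = 0
  · simp [u0, hw_zero, (bb0 b).2.1]
  by_cases w0 : w = 0
  · simp [w0, hw_zero, (bb0 a).1]
  by_cases e : w = u
  · simp [e, (bb0 a).2.2]
  obtain ⟨p, i, rfl, rfl⟩ := exP2 a b u0 w0 e
  rw [← hw_cj k.hc i (by decide), ← hw_cj k.hc i (by decide), ← cjm, k.cm12 v c, ← bb_cj p (by decide) (by decide), conj_pow, map_mul,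
    map_mul, map_inv]; group
theorem exK (a : m ∈ EE) : ∃ w < 8, ∃ x ∈ V, Tr ι t (hw ι h w * x) m := by
  obtain ⟨w, b, β, i, rfl⟩ := dec a
  obtain ⟨x, l, d⟩ := v.ex' c i
  exact ⟨w, b, x, l, (k.tr v c b).mul d (AL_le i)⟩
end Hh

namespace Us
variable (v : Us ι t V AL) (c : Ct ι t)
include v c
theorem zz {j : ℕ} (hh : h * h = ι (τ 1 ^ j)) (ht : h * t * h⁻¹ = t * ι (τ 1)) (hc : Cz ι P1 h) (hv : h ∈ 𝐂(V)) :
    h * h2 ι h = ι (bb 1 2 ^ j) * (h2 ι h * h) ∧ h * h2 ι h * h3 ι h ∈ V := by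
  have k : Hh ι t V h j := ⟨hh, ht, hc, hv⟩
  simpa only [hw_one hc, hw_two hc, hw_three hc] using And.intro (k.cm12 v c) (k.gV v c)
theorem nv (a : W1 ι t n) (i : x ∈ V) (d : Tr ι t x β) : n * x * n⁻¹ ∈ V ∧ Tr ι t (n * x * n⁻¹) β := by
  refine ⟨conj_mem_of_mem_normalizer (v.nW c a) i, ?_⟩
  obtain ⟨γ, l, a⟩ := a
  obtain ⟨β', j, d'⟩ := v.tr' c i
  obtain rfl := c.tr_un d d'
  have := (a.mul d (AL_le j)).mul (a.inv l) l
  rwa [EE_cm l (AL_le j), mul_assoc β, EE_sq l, mul_one] at this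
theorem penA (d : Tr ι t x β) (i : β ∈ AL) : x ∈ 𝐂(V) ∨ t * x ∈ 𝐂(V) := by
  obtain ⟨y, j, d'⟩ := v.ex' c i
  obtain ⟨e, l, rfl | rfl⟩ := c.tr_A (d'.2.trans d.2.symm) d'.1 d.1
  · exact .inl (v.VC c (mul_mem j (v.le e l)))
  · exact .inr (v.VC c (by simpa [c.ti, mul_assoc] using mul_mem (conj_mem_of_mem_normalizer (v.nt' c) j) (v.le e l)))
theorem wj (k : C3 ι t) (a : Y4 ι t y) : (∃ U, Us ι t U EE) ∨ ∃ h, J1 ι t V h := by
  have d : Tr ι t y (τ 1) := ⟨fun m l => a.yc m (EP1 l), a.yt⟩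
  have d₂ := c.tr_cj d s12P
  have d₃ := c.tr_cj d₂ xP.1.2
  rw [τ_cj _ (by decide), acv.1] at d₂ d₃
  rw [τ_cj _ (by decide), acv.2.2.2.2.1] at d₃
  rcases v.psi c (fun x i β => v.nv c ⟨_, τE (by decide), d⟩ i) d.1 (fun p l x _ => by
      have : p ∈ P1 := by
        simp only [List.mem_cons, List.not_mem_nil, or_false] at l
        rcases l with rfl | rfl | rfl | rfl
        exacts [xP.1.1, xP.2.1.1, xP.2.2.1.1, xP.2.2.2.1]
      rw [cjm, cjm, cj_eq (a.yc p this), ← map_inv, cj_eq (a.yc _ (inv_mem this)), map_inv])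
    (v.penA c (b123 ▸ (d.mul d₂ (τE (by decide))).mul d₃ (τE (by decide))) bA) with r | r
  · have H : Hh ι t V y 0 := ⟨by simp [a.yy], a.yt, a.yc, r⟩
    have m : ∀ w < 8, ∀ x ∈ V, ∀ w' < 8, ∀ x' ∈ V, hw ι y w * x * (hw ι y w' * x') = hw ι y w' * x' * (hw ι y w * x) := fun w i x j w' i' x' j' =>
      (Commute.mul_left (show _ = _ by simpa using H.cm v c i i') (mem_centralizer_iff'.1 (H.cv v c i') x j)).mul_right
        (Commute.mul_left (mem_centralizer_iff'.1 (H.cv v c i) x' j').symm (v.cm c j j'))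
    have ex : ∀ β ∈ EE, ∃ w < 8, ∃ x ∈ V, hw ι y w * x * (hw ι y w * x) = 1 ∧ Tr ι t (hw ι y w * x) β := fun β i =>
      let ⟨w, b, x, l, d⟩ := H.exK v c i
      ⟨w, b, x, l, sq2 (by simpa using H.sq v c b) (v.sq x l) (mem_centralizer_iff'.1 (H.cv v c b) x l).symm, d⟩
    refine .inl (c.us_mk (.inr rfl) (fun β i => let ⟨w, _, x, _, o⟩ := ex β i; ⟨_, o⟩) fun β i β' i' x x' n n' _ s s' d d' => ?_)
    obtain ⟨w, b, z, l, o⟩ := ex β i
    obtain ⟨w', b', z', l', o'⟩ := ex β' i'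
    obtain ⟨e, q, rfl⟩ := c.tr_uq o.1 s n o.2 d
    obtain ⟨e', q', rfl⟩ := c.tr_uq o'.1 s' n' o'.2 d'
    rw [mul_assoc _ z, mul_assoc _ z']
    exact m w b _ (mul_mem l (v.le e q)) w' b' _ (mul_mem l' (v.le e' q'))
  · refine .inr ⟨y * t, v, k, ?_, by rw [← a.yt]; group, a.yc.mul fun m _ => c.cm m, fun x i => (mem_centralizer_iff'.1 r x i).symm⟩
    rw [show y * t * (y * t) = y * t * y⁻¹ * t by rw [si a.yy]; group, a.yt, mul_assoc, ← c.cm, ← mul_assoc, c.tt, one_mul]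
end Us

end CF.Ft
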