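import Cfsg.Agent.Ft.Y2

/-! The centraliser of `ρ` in the model. -/

set_option autoImplicit false
set_option maxRecDepth 100000
set_option synthInstance.maxSize 4000

namespace CF.Ft

open Subgroup CF.Loc U W

attribute [local irreducible] ac cd el ee lv dd τ bb

variable {g m n : Sp}

/-- powers of codes -/
def pw (c : ℕ) : ℕ → ℕ
  | 0 => c1
  | n + 1 => mu (pw c n) c

theorem cd_pow (g : Sp) (n : ℕ) : cd (g ^ n) = pw (cd g) n := by
  induction n with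
  | zero => rw [pow_zero, cd_one, pw]
  | succ n i => rw [pow_succ, cd_mul, i, pw]

namespace Y
/-- the codes of `ρ`, `σ` -/
abbrev rc : ℕ := mu (tc 4) (tc 32)
abbrev sc : ℕ := mu (bc 1 16) (bc 2 8)

/-- the codes of `C(ρ) ⊓ P₂` -/
def Lr : List ℕ := [
  4433526850, 4434051138, 4435624130, 4436148418, 4450304066, 4450828354, 4452663490, 4453187778, 4467343426, 4467867714, 4469440706,
  4469964994, 4484120642, 4484644930, 4485955778, 4486480066, 4565647489, 4565909633, 4569841857, 4570104001, 4582948993, 4583211137,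
  4587143361, 4587405505, 4599201921, 4599464065, 4603920577, 4604182721, 4616503425, 4616765569, 4620173505, 4620435649, 4699865219,
  4700651651, 4701962307, 4702748739, 4716904579, 4717166723, 4718739523, 4719525955, 4733419651, 4734206083, 4735778883, 4736041027,
  4750459011, 4750721155, 4752556099, 4752818243, 34498166850, 34498691138, 34500264130, 34500788418, 34514944066, 34515468354, 34517303490,
  34517827778, 34531983426, 34532507714, 34534080706, 34534604994, 34548760642, 34549284930, 34550595778, 34551120066, 34630287489, 34630549633,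
  34634481857, 34634744001, 34647588993, 34647851137, 34651783361, 34652045505, 34663841921, 34664104065, 34668560577, 34668822721, 34681143425,
  34681405569, 34684813505, 34685075649, 34764505219, 34765291651, 34766602307, 34767388739, 34781544579, 34781806723, 34783379523, 34784165955,
  34798059651, 34798846083, 34800418883, 34800681027, 34815099011, 34815361155, 34817196099, 34817458243, 38793248834, 38793773122, 38795346114,
  38795870402, 38810026050, 38810550338, 38812385474, 38812909762, 38827065410, 38827589698, 38829162690, 38829686978, 38843842626, 38844366914,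
  38845677762, 38846202050, 38925369473, 38925631617, 38929563841, 38929825985, 38942670977, 38942933121, 38946865345, 38947127489, 38958923905,
  38959186049, 38963642561, 38963904705, 38976225409, 38976487553, 38979895489, 38980157633, 39059587203, 39060373635, 39061684291, 39062470723,
  39076626563, 39076888707, 39078461507, 39079247939, 39093141635, 39093928067, 39095500867, 39095763011, 39110180995, 39110443139, 39112278083,
  39112540227]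

theorem ρv : ac ρ3 1 = 1 ∧ ac ρ3 2 = 2 ∧ ac ρ3 4 = 32 ∧ ac ρ3 32 = 36 ∧ ac ρ3 36 = 4 := by simp only [ac_cd, cd_ρ]; decide +kernel
theorem ρF : ρ3 ∈ Fx 4 := mem_F4.2 ⟨ρv.1, ρv.2.1⟩

theorem pl (e : m * ρ3 = ρ3 * m) : ac m 4 = 4 ∧ ac m 32 = 32 ∧ ac m 36 = 36 ∨ ac m 4 = 32 ∧ ac m 32 = 36 ∧ ac m 36 = 4 ∨
    ac m 4 = 36 ∧ ac m 32 = 4 ∧ ac m 36 = 32 := by
  have a : ∀ v, ac m (ac ρ3 v) = ap rc (ac m v) := fun v => by rw [← ac_mul, e, ac_mul, ac_cd ρ3, cd_ρ]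
  have b := a 4
  have d := a 32
  have f := ac_xor m 4 32
  rw [ρv.2.2.1] at b
  rw [ρv.2.2.2.1, b] at d
  rw [show 4 ^^^ 32 = 36 from rfl, b, d] at f
  rw [d, b]
  exact (by decide +kernel : ∀ x < 64, x ≠ 0 → ap rc (ap rc x) = x ^^^ ap rc x → x = 4 ∧ ap rc x = 32 ∧ ap rc (ap rc x) = 36 ∨
    x = 32 ∧ ap rc x = 36 ∧ ap rc (ap rc x) = 4 ∨ x = 36 ∧ ap rc x = 4 ∧ ap rc (ap rc x) = 32) _ (ac_lt _ _) (ac_ne _ (by decide) (by decide)) f

theorem lr0 : ∀ a < 4, ∀ b < 4, ok (lc (a + 8 * b + 64 * 4)) = true → ∀ k < 64, ap (lc (a + 8 * b + 64 * 4)) (ap (ec k) 32) = 32 →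
    ∀ i < 3, mu (pw rc i) (mu (lc (a + 8 * b + 64 * 4)) (ec k)) ∈ Lr := by decide +kernel

theorem lr (i : m ∈ P2) (e : m * ρ3 = ρ3 * m) : cd m ∈ Lr := by
  have k : ∀ j < 3, ∀ n ∈ P2, ac n 4 = 4 → ac n 32 = 32 → cd (ρ3 ^ j * n) ∈ Lr := fun j hj n i a b => by
    have q := mem_P2.1 i
    obtain ⟨o, p⟩ := PP_lv (mem_PP.2 ⟨by omega, by omega, by omega⟩ : n ∈ PP)
    obtain ⟨k, hk, p⟩ := mem_EE.1 p
    rw [a, inv_mul_eq_iff_eq_mul] at p
    rw [a] at o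
    rw [p, ac_mul, ac_cd, ac_cd (ee k), cd_lv o, cd_ee] at b
    rw [p, cd_mul, cd_mul, cd_pow, cd_lv o, cd_ee, cd_ρ]
    exact lr0 _ q.1 _ q.2 o k hk b j hj
  have r := F4_P2 ρF
  have r3 : ρ3 ^ 2 * ρ3 = 1 := cd_inj (by simp only [cd_mul, cd_pow, cd_ρ, cd_one]; decide +kernel)
  obtain ⟨v1, v2, v3, v4, v5⟩ := ρv
  obtain ⟨a, b, -⟩ | ⟨a, b, -⟩ | ⟨a, b, -⟩ := pl e
  · simpa using k 0 (by decide) m i a b
  · have := k 1 (by decide) (ρ3 * (ρ3 * m)) (mul_mem r (mul_mem r i)) (by rw [ac_mul, ac_mul, a, v4, v5]) (by rw [ac_mul, ac_mul, b, v5, v3])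
    rwa [show ρ3 ^ 1 * (ρ3 * (ρ3 * m)) = ρ3 ^ 2 * ρ3 * m by group, r3, one_mul] at this
  · have := k 2 (by decide) (ρ3 * m) (mul_mem r i) (by rw [ac_mul, a, v5]) (by rw [ac_mul, b, v3])
    rwa [← mul_assoc, r3, one_mul] at this

/-- the action on the vectors orthogonal to `e₁`, `e₂` -/
def fl (x y v : ℕ) : ℕ := v % 4 ^^^ v / 4 % 2 * x ^^^ v / 32 % 2 * y

theorem d0 : ∀ x < 64, fm x 1 = 0 ∧ fm x 2 = 0 → ∀ y < 64, fm y 1 = 0 ∧ fm y 2 = 0 →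
    fm x y = 1 ∧ fl x y (fl x y x) = 4 ∧ fl x y (fl x y y) = 32 → x = 4 ∨ ∃ u < 64, (fm u 1 = 0 ∧ fm u 2 = 0) ∧ ∃ v < 64, fm v 1 = 0 ∧
      (fm 2 u = 0 ∧ fm 2 v = 1 ∧ fm 2 (fl x y u) = 0 ∧ fm u v = 0 ∧ fm u (fl x y u) = 1 ∧ fm v (fl x y u) = 0) ∧
      fl x y (fl x y u) = u ^^^ fl x y u := by decide +kernel

/-- elements of order three fixing `e₁` and `⟨e₁, e₂⟩` are conjugate to `ρ` -/
theorem cjρ (i : m ∈ P1) (j : m ∈ P2) (e : m * m * m = 1) (z : m ≠ 1) : ∃ p ∈ P2, p * m * p⁻¹ = ρ3 := by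
  have c3 : ∀ v < 64, ac m (ac m (ac m v)) = v := fun v a => by rw [← ac_mul, ← ac_mul, e, ac_one a]
  have f : m ∈ Fx 4 := mem_F4.2 ⟨mem_P1.1 i, by
    have := P1_lt i (v := 2) (by decide) (by decide)
    have := (mem_P2.1 j).2
    by_contra h
    have a : ac m 2 = 3 := by omega
    have b := ac_xor m 1 2
    have d := c3 2 (by decide)
    rw [mem_P1.1 i, a] at b
    rw [a, show ac m 3 = 2 from b, a] at d
    omega⟩
  have l : ∀ v < 64, fm v 1 = 0 ∧ fm v 2 = 0 → ac m v = fl (ac m 4) (ac m 32) v := fun v a b => by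
    conv_lhs => rw [(by decide +kernel : ∀ v < 64, fm v 1 = 0 ∧ fm v 2 = 0 → v = v % 4 ^^^ v / 4 % 2 * 4 ^^^ v / 32 % 2 * 32) v a b]
    rw [ac_xor, ac_xor, ac_bit, ac_bit, f _ (Nat.mod_lt _ (by decide)), Nat.mod_eq_of_lt (a := v % 4) (by omega), fl]
  have o : ∀ v < 64, fm v 1 = 0 ∧ fm v 2 = 0 → fm (ac m v) 1 = 0 ∧ fm (ac m v) 2 = 0 := fun v a b => by
    have := ac_fm m a (v := 2) (by decide)
    rw [(mem_F4.1 f).2] at this
    exact ⟨(P1_fm i a).trans b.1, this.trans b.2⟩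
  have a4 := o 4 (by decide) (by decide)
  have a32 := o 32 (by decide) (by decide)
  have b4 := c3 4 (by decide)
  have b32 := c3 32 (by decide)
  rw [l _ (ac_lt _ _) (o _ (ac_lt _ _) a4), l _ (ac_lt _ _) a4] at b4
  rw [l _ (ac_lt _ _) (o _ (ac_lt _ _) a32), l _ (ac_lt _ _) a32] at b32
  have sq : ∀ {n}, n ∈ EE → ac n 32 = 32 → n * ρ3 * (n * ρ3) * (n * ρ3) = 1 → n = 1 := fun {n} a b d => by
    obtain ⟨k, hk, rfl⟩ := mem_EE.1 a
    replace d := congrArg cd d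
    simp only [cd_mul, cd_ee, cd_ρ, cd_one, ac_cd] at b d
    rw [(by decide +kernel : ∀ k < 64, ap (ec k) 32 = 32 → mu (mu (mu (ec k) rc) (mu (ec k) rc)) (mu (ec k) rc) = c1 → k = 0) k hk b d, ee_val.1]
  obtain a | ⟨u, hu, ou, v, hv, a, b, d⟩ := d0 _ (ac_lt m 4) a4 _ (ac_lt m 32) a32
    ⟨by rw [ac_fm m (by decide) (by decide)]; decide, b4, b32⟩
  · have := EE_sq (mem_EE'.2 ⟨mem_P1.1 i, (mem_F4.1 f).2, a⟩)
    rw [this, one_mul] at e
    exact (z e).elim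
  simp only [← l u hu ou] at b d
  rw [← l _ (ac_lt _ _) (o u hu ou)] at d
  obtain ⟨p, hp, p2, p4, -, p32⟩ := ex_lev ⟨by decide, hu, hv, ac_lt m u⟩ ⟨by decide, ou.1, a, (o u hu ou).1⟩ b
  have pf : p ∈ Fx 4 := mem_F4.2 ⟨mem_P1.1 hp, p2⟩
  have r := mul_mem (mul_mem (mul_mem (inv_mem pf) f) pf) (inv_mem ρF)
  have s : ∀ {x y}, x < 64 → y < 64 → ac m (ac p x) = ac p y → ac ρ3 x = y → ac (p⁻¹ * m * p * ρ3⁻¹) y = y := fun a b d e => by
    rw [ac_mul, ac_mul, ac_mul, ← e, ac_inv _ a, d, e, ac_inv _ b]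
  have p36 : ac p 36 = ac m (ac m u) := by rw [d, ← p32, ← p4, ← ac_xor]; rfl
  refine ⟨p⁻¹, F4_P2 (inv_mem pf), ?_⟩
  rw [inv_inv]
  refine mul_inv_eq_one.1 (sq (mem_EE'.2 ⟨(mem_F4.1 r).1, (mem_F4.1 r).2, ?_⟩) ?_ ?_)
  · exact s (by decide) (by decide) (by rw [p36, c3 u hu, p4]) ρv.2.2.2.2
  · exact s (by decide) (by decide) (by rw [p4, p32]) ρv.2.2.1
  · simp only [inv_mul_cancel_right]
    rw [show p⁻¹ * m * p * (p⁻¹ * m * p) * (p⁻¹ * m * p) = p⁻¹ * (m * m * m) * p by group, e, mul_one, inv_mul_cancel]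

theorem cjσ (i : m ∈ P2) (e : m * ρ3 = ρ3 * m) (d : m * m * m = 1) (z : m ≠ 1) (a : ac m 4 = 4) :
    ∃ p ∈ P2, p * ρ3 = ρ3 * p ∧ p * m * p⁻¹ = σ3 := by
  obtain ⟨j, hj, k, hk, q, r⟩ := (by decide +kernel : ∀ c ∈ Lr, mu (mu c c) c = c1 → c ≠ c1 → ap c 4 = 4 → ∃ j < 2, ∃ k < 4,
    cc (mu (dc j) (ec k)) c = sc ∧ mu (mu (dc j) (ec k)) rc = mu rc (mu (dc j) (ec k))) _ (lr i e)
    (by rw [← cd_mul, ← cd_mul, d, cd_one]) (fun h => z (cd_inj (h.trans cd_one.symm))) (by rw [ap_cd, a])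
  exact ⟨dd j * ee k, SS_P2 (mul_mem (dd_SS j) (EE_le (ee_EE k))), cd_inj (by simpa only [cd_mul, cd_dd, cd_ee, cd_ρ] using r),
    cd_inj (by simpa only [cd_mul, cd_inv, cd_dd, cd_ee, cd_σ] using q)⟩

theorem c18 (i : m ∈ P2) (e : m * ρ3 = ρ3 * m) (d : m * σ3 = σ3 * m) : (∃ i j k : ℕ, m = ρ3 ^ i * σ3 ^ j * bb 1 2 ^ k) ∧
    (m * m * m = 1 ∨ m * m * m = bb 1 2) ∧ (m * m = 1 → m = 1 ∨ m = bb 1 2) ∧ m * m ≠ bb 1 2 := by
  obtain ⟨⟨i, -, j, -, k, -, a⟩, b, f, q⟩ := (by decide +kernel : ∀ c ∈ Lr, mu c sc = mu sc c → (∃ i < 3, ∃ j < 3, ∃ k < 2,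
    c = mu (mu (pw rc i) (pw sc j)) (pw (bc 1 2) k)) ∧ (mu (mu c c) c = c1 ∨ mu (mu c c) c = bc 1 2) ∧
    (mu c c = c1 → c = c1 ∨ c = bc 1 2) ∧ mu c c ≠ bc 1 2) _ (lr i e) (by simpa only [cd_mul, cd_σ] using congrArg cd d)
  rw [← cd_one, ← cd_bb, ← cd_mul] at b f
  rw [← cd_mul] at b
  exact ⟨⟨i, j, k, cd_inj (by simpa only [cd_mul, cd_pow, cd_ρ, cd_σ, cd_bb] using a)⟩, b.imp cd_inj cd_inj,
    fun h => (f (congrArg cd h)).imp cd_inj cd_inj, cd_ne (by rwa [cd_mul, cd_bb])⟩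

theorem nσ (i : m ∈ P2) (e : m * ρ3 = ρ3 * m) (d : m * m = 1) (z : m ≠ 1)
    (a : m * (σ3 * m * σ3⁻¹) * (σ3 * σ3 * m * (σ3 * σ3)⁻¹) = 1) : m = ee 3 ∨ m = ee 9 ∨ m = ee 10 :=
  ((by decide +kernel : ∀ c ∈ Lr, mu c c = c1 → c ≠ c1 → mu (mu c (cc sc c)) (cc (mu sc sc) c) = c1 → c = ec 3 ∨ c = ec 9 ∨ c = ec 10) _
    (lr i e) (by rw [← cd_mul, d, cd_one]) (fun h => z (cd_inj (h.trans cd_one.symm)))
    (by simpa only [cd_mul, cd_inv, cd_σ, cd_one] using congrArg cd a)).imp (fun h => cd_inj (h.trans (cd_ee _).symm))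
    (.imp (fun h => cd_inj (h.trans (cd_ee _).symm)) fun h => cd_inj (h.trans (cd_ee _).symm))

theorem nρ (i : m ∈ EE) (z : m ≠ 1) (a : m * (ρ3 * m * ρ3⁻¹) * (ρ3 * ρ3 * m * (ρ3 * ρ3)⁻¹) = 1) : m = ee 17 ∨ m = ee 34 ∨ m = ee 59 := by
  obtain ⟨k, hk, rfl⟩ := mem_EE.1 i
  obtain rfl | rfl | rfl | rfl := (by decide +kernel : ∀ k < 64, mu (mu (ec k) (cc rc (ec k))) (cc (mu rc rc) (ec k)) = c1 →
    k = 0 ∨ k = 17 ∨ k = 34 ∨ k = 59) k hk (by simpa only [cd_mul, cd_inv, cd_ρ, cd_one, cd_ee] using congrArg cd a)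
  · exact (z ee_val.1).elim
  all_goals simp

/-- an element commuting with `ρ` and with an element inverting `ρ` fixes the plane of `ρ` -/
theorem fix4 (e : m * ρ3 = ρ3 * m) (d : n * ρ3 = ρ3 * n) (a : m * (n * τ 4) = n * τ 4 * m) : ac m 4 = 4 := by
  have b := congrArg (ac · 4) a
  have v : ac (τ 4) 4 = 4 ∧ ac (τ 4) 32 = 36 ∧ ac (τ 4) 36 = 32 := by simp only [ac_cd, cd_τ]; decide +kernel
  simp only [ac_mul, v.1] at b
  obtain ⟨p, q, r⟩ | ⟨p, q, r⟩ | ⟨p, q, r⟩ := pl e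
  · exact p
  all_goals obtain ⟨p', q', r'⟩ | ⟨p', q', r'⟩ | ⟨p', q', r'⟩ := pl d <;> simp [p, q, r, p', q', r', v] at b
end Y

end CF.Ft
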