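import Cfsg.Agent.Ft.W1
import Cfsg.Agent.Ft.U2

/-! Consequences of the involution moving `t` to `t b`. -/

set_option autoImplicit false
set_option maxRecDepth 100000
set_option synthInstance.maxSize 4000

namespace CF.Ft

open Cfsg Subgroup CF.Loc U W

attribute [local irreducible] ac cd el ee lv dd τ bb

variable {G : Type*} [Group G] [Finite G] {ι : Sp →* G} {t g x y n : G} {m p e : Sp} {α w : ℕ}

omit [Finite G] in
theorem Gy.tr (k : Gy ι t g α) : Tr ι t g (bb 1 2) := ⟨fun m i => k.gf m (EE_F4 i), k.gt⟩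

omit [Finite G] in
theorem Gy.mv (k : Gy ι t g α) (i : m ∈ Fx 4) : Dt t (t * ι (bb 1 2 * m)) ↔ Dt t (t * ι m) := by
  rw [← Dt.cj_iff (s := t * ι m) (g := g), cjm, k.gt, cj_eq (k.gf m i), map_mul, mul_assoc]

namespace Ct
variable (c : Ct ι t)
include c

omit [Finite G] in
theorem D_cj (p m : Sp) : Dt t (t * ι (p * m * p⁻¹)) ↔ Dt t (t * ι m) := by rw [← c.cjt' (.of p), Dt.cj_iff]

omit [Finite G] in
theorem c23 (k : Gy ι t g α) : (C2 ι t ∧ ¬ Dt t (t * ι (τ 1))) ∨ C3 ι t := by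
  have b : ∀ w < 8, τ w * bb 1 2 = bb 1 2 * τ w := fun w a => EE_cm (τE a) (AL_le bA)
  obtain ⟨p, -, e⟩ := exP (u := 4) (by decide) (by decide)
  have e4 : Dt t (t * ι (τ 4)) ↔ Dt t (t * ι (τ 1)) := by rw [← e, ← τ_cj p (by decide), c.D_cj]
  have ec := k.mv (EE_F4 (τE (u := 1) (by decide)))
  have ed := (k.mv (EE_F4 (τE (u := 4) (by decide)))).trans e4
  rw [← b _ (by decide)] at ec ed
  by_cases a : Dt t (t * ι (τ 1))
  · refine .inr fun m s => ?_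
    obtain ⟨q, r⟩ := cls s
    rw [← c.D_cj q]
    rcases r with r | r | r | r | r <;> rw [r]
    exacts [by simpa using Dt.rfl, a, ⟨g, k.gt⟩, ec.2 a, ed.2 a]
  refine .inl ⟨fun m i d => (Al_AL i).1 ?_, a⟩
  obtain ⟨q, r⟩ := cls (EE_sq i)
  rw [← c.D_cj q] at d
  have z : Al (q * m * q⁻¹) → Al m := fun z => by simpa [mul_assoc] using Al_cj q⁻¹ z
  rcases r with r | r | r | r | r <;> rw [r] at d z
  exacts [z ((Al_AL (one_mem _)).2 (one_mem _)), (a d).elim, z ((Al_AL (AL_le bA)).2 bA), (a (ec.1 d)).elim, (a (ed.1 d)).elim]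

theorem ex_tr (k : Gy ι t g α) (a : m ∈ AL) : ∃ x, x * x = 1 ∧ Tr ι t x m := by
  by_cases z : m = 1
  · exact ⟨t, c.tt, z ▸ c.tr_t⟩
  obtain ⟨β, i, j, e⟩ : ∃ β ∈ AL, β ≠ 1 ∧ m ≠ β := by
    by_cases e : m = bb 1 2
    · exact ⟨bb 1 4, bbA (by decide) (by decide), cd_ne (by rw [cd_bb, cd_one]; decide +kernel),
        e ▸ cd_ne (by rw [cd_bb, cd_bb]; decide +kernel)⟩
    · exact ⟨_, bA, b1, e⟩
  obtain ⟨l, q, r, -⟩ := pair a i z j e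
  exact ⟨_, sqj k.gg _, r ▸ c.tr_cj k.tr q.1⟩

theorem ex_V (k : Gy ι t g α) (k0 : K0 ι t) : ∃ V, Us ι t V AL := c.ex_V' (fun _ => c.ex_tr k) k0

theorem ai (k : Gy ι t g α) (l : C3 ι t) : AI ι t := fun n a β b => by
  obtain ⟨e, i, r⟩ := c.mem_Tm'.1 (Loc.conj_mem_of_mem_normalizer a c.t_Tm)
  replace r := c.im_D r ⟨n, rfl⟩
  obtain ⟨β', j, s⟩ := c.nE a l (AL_le b)
  by_cases h : ∃ u < 8, u ≠ 0 ∧ ∃ x, Tr ι t x (τ u)
  · obtain ⟨u, hu, u0, x, d⟩ := h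
    obtain ⟨y, d⟩ : ∃ y, Tr ι t y e := by
      obtain ⟨w, hw, γ, q, rfl⟩ := dec i
      obtain ⟨z, -, f⟩ := c.ex_tr k q
      by_cases w0 : w = 0
      · exact ⟨z, by simpa [w0, τ_zero] using f⟩
      obtain ⟨p, hp, e⟩ := exP hu u0
      obtain ⟨p', hp', e'⟩ := exP hw w0
      have := c.tr_cj d (mul_mem hp' (inv_mem hp))
      rw [τ_cj _ (by omega), ac_mul, ← e, ac_inv _ (by decide), e'] at this
      exact ⟨_, this.mul f (AL_le q)⟩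
    obtain ⟨m, f⟩ := c.ex (x := y⁻¹ * n) (by
      rw [← mul_inv_eq_iff_eq_mul, show y⁻¹ * n * t * (y⁻¹ * n)⁻¹ = y⁻¹ * (n * t * n⁻¹) * y by group, r, ← d.2]; group)
    have q : ∀ {e e'}, e' ∈ EE → n * ι e * n⁻¹ = ι e' → m * e * m⁻¹ = e' := fun {e e'} i s => c.inj (by
      rw [← c.cji f, show y⁻¹ * n * ι e * (y⁻¹ * n)⁻¹ = y⁻¹ * (n * ι e * n⁻¹) * y⁻¹⁻¹ by group, s, cj_eq (d.1.inv _ i)])
    exact ⟨β', q j s ▸ AL_cj (N_EE fun e i => let ⟨_, j, s⟩ := c.nE a l i; q j s ▸ j) b, s⟩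
  obtain ⟨x, -, d⟩ := c.ex_tr k b
  have f : Tr ι t (n * x * n⁻¹) β' := by
    have z : Cz ι EE (n * x * n⁻¹) := fun m i => by
      obtain ⟨m', j, s⟩ := c.nE (inv_mem a) l i
      calc _ = n * (x * (n⁻¹ * ι m * n⁻¹⁻¹)) * n⁻¹ := by group
        _ = n * (n⁻¹ * ι m * n⁻¹⁻¹ * x) * n⁻¹ := by rw [s, d.1 _ j]
        _ = _ := by group
    refine ⟨z, mul_right_cancel (b := ι e) ?_⟩
    calc _ = n * x * n⁻¹ * (t * ι e) * (n * x * n⁻¹)⁻¹ := by rw [cjm (n * x * n⁻¹), cj_eq (z _ i)]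
      _ = n * (x * t * x⁻¹) * n⁻¹ := by rw [← r]; group
      _ = _ := by rw [d.2, cjm, r, s, mul_assoc, mul_assoc, ← map_mul, ← map_mul, EE_cm i j]
  obtain ⟨u, hu, γ, q, rfl⟩ := dec j
  obtain ⟨z, -, f'⟩ := c.ex_tr k q
  refine ⟨_, ?_, s⟩
  by_cases u0 : u = 0
  · simpa [u0, τ_zero] using q
  exact (h ⟨u, hu, u0, _, by simpa [mul_assoc, EE_sq (AL_le q)] using f.mul f' (AL_le q)⟩).elim
end Ct

end CF.Ft
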